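import Cfsg.Agent.H11.SimDSpec

/-! # S3694 (tower SIM), chapter D: quasi-reflections with repaired determinant. -/

set_option autoImplicit false

namespace H19.SimDUQ

open Subgroup Cfsg H98 Matrix H0.Sim H11.SimD

theorem jobD_UQ : H11.SimD.JobUQ := by
  intro hf ud ur n F _ _ q hc W₁ W₂ y h1 h12 pp hy hyy
  obtain ⟨-, -, sym, lin, -, -, -, ⟨l, l0, lq, lz⟩, -⟩ := hf n F q hc
  obtain ⟨w, hw, w0⟩ := (Submodule.ne_bot_iff _).1 h1
  have hq : q ≠ 0 := by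
    rintro rfl
    have := Fintype.card_pos (α := F)
    omega
  have lq0 : l ^ q ≠ 0 := pow_ne_zero _ l0
  obtain ⟨d, hd, dd, dx⟩ := ud n F q hc w l w0 ((pp w).1 (h12 hw) w hw) l0
  obtain ⟨r, hr, rd, rx⟩ := ur n F q hc y _ hyy lz
  have z1 : l ^ q * l⁻¹ - 1 ≠ 0 := fun e => lq (by
    rw [sub_eq_zero, mul_inv_eq_one₀ l0] at e; exact e)
  generalize ha : (l ^ q * l⁻¹ - 1) / hermForm n F q y y = a at rx
  have a0 : a ≠ 0 := ha ▸ div_ne_zero z1 hyy
  have key : ∀ x ∈ W₂, ∃ b : F, ((d * r : GL (Fin n) F) : Mt n F) *ᵥ x =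
      x + (a * hermForm n F q x y) • y + b • w := fun x hx => by
    have h2 : x + (a * hermForm n F q x y) • y ∈ W₂ := W₂.add_mem hx (W₂.smul_mem _ hy)
    obtain ⟨b, hb⟩ := dx _ ((pp _).1 h2 w hw)
    exact ⟨b, by rw [Units.val_mul, ← mulVec_mulVec, rx, hb]⟩
  refine ⟨d * r, ⟨mul_mem hd hr, ?_⟩, fun x hx => ?_, fun x hx => ?_, a, a0, fun x hx => ?_⟩
  · apply Units.ext
    show ((d * r : GL (Fin n) F) : Mt n F).det = 1
    rw [Units.val_mul, det_mul, dd, rd]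
    field_simp
  · obtain ⟨b, hb⟩ := key x (h12 hx)
    rw [hb, sym y x, (pp y).1 hy x hx, zero_pow hq, mul_zero, zero_smul, add_zero]
    exact W₁.add_mem hx (W₁.smul_mem _ hw)
  · obtain ⟨b, hb⟩ := key x hx
    rw [hb]
    exact W₂.add_mem (W₂.add_mem hx (W₂.smul_mem _ hy)) (W₂.smul_mem _ (h12 hw))
  · obtain ⟨b, hb⟩ := key x hx
    rw [hb, show x + (a * hermForm n F q x y) • y + b • w - x - (a * hermForm n F q x y) • y = b • w by
      abel]
    exact W₁.smul_mem _ hw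

end H19.SimDUQ
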