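/- BN tower, jobs Tree, Deep, CX (Coxeter combinatorics). -/
import Cfsg.Agent.H12.BNJobs

set_option autoImplicit false
set_option linter.unusedSectionVars false
set_option linter.unusedVariables false

open H12.BN H67

namespace H19.BNCox

variable {W ι : Type} [Group W] {s : ι → W} {P : ι → Set W}

theorem tree_of {n : ℕ} {M : ℕ → ℕ → ℕ} {e : Fin n ≃ ι} (ht : Typ s n M e) (r r1 : Fin n)
    (par hgt : ℕ → ℕ) (h0 : ∀ i, i < n → par i < n) (h1 : (r1 : ℕ) ≠ r) (h2 : par r1 = r)
    (h3 : ∀ i, i < n → i ≠ r → hgt (par i) < hgt i ∧ (i ≠ r1 → M (par i) i = 3))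
    (h4 : ∀ i j, i < n → j < n → i ≠ j → M i j ≠ 2 → (i ≠ r ∧ j = par i) ∨ (j ≠ r ∧ i = par j))
    (h5 : ∀ i j k, i < n → j < n → k < n → i ≠ j → j ≠ k → i ≠ k → M i j ≠ 2 → M j k ≠ 2 → M i k = 2 ∧
      ((M i j = 3 ∧ M j k = 3) ∨ (M i j = 3 ∧ M j k = 4) ∨ (M i j = 4 ∧ M j k = 3))) :
    Sph3 s ∧ Tree s (e r) (e r1) := by
  refine ⟨fun i j k => ?_, fun h => h1 (congrArg Fin.val (e.injective h)),
    fun i => e ⟨par (e.symm i), h0 _ (e.symm i).2⟩, fun i => hgt (e.symm i), ?_, fun i => ?_, fun i j => ?_⟩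
  · obtain ⟨i, rfl⟩ := e.surjective i
    obtain ⟨j, rfl⟩ := e.surjective j
    obtain ⟨k, rfl⟩ := e.surjective k
    simp only [ht i j, ht j k, ht i k, ne_eq, e.injective.eq_iff, Fin.ext_iff]
    exact h5 i j k i.2 j.2 k.2
  · simp [h2]
  · obtain ⟨i, rfl⟩ := e.surjective i
    simp only [ht _ i, ne_eq, e.injective.eq_iff, Fin.ext_iff, e.symm_apply_apply]
    exact h3 i i.2
  · obtain ⟨i, rfl⟩ := e.surjective i
    obtain ⟨j, rfl⟩ := e.surjective j
    simp only [ht i j, ne_eq, e.injective.eq_iff, Fin.ext_iff, e.symm_apply_apply]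
    exact h4 i j i.2 j.2

theorem jobTree : JobTree := by
  intro W ι _ s n M e ht hn r r1 h
  rcases h with ⟨rfl, a, b⟩ | ⟨rfl, a, b⟩ | ⟨rfl, c, a, b⟩ | ⟨rfl, c, a, b⟩ | ⟨rfl, c, a, b⟩
  · refine tree_of ht r r1 (fun i => i - 1) (fun i => i) ?_ ?_ ?_ ?_ ?_ ?_ <;> grind [mA]
  · refine tree_of ht r r1 (fun i => if i + 1 = n then n - 2 else i + 1)
      (fun i => if i + 1 = n then 1 else n - 2 - i) ?_ ?_ ?_ ?_ ?_ ?_ <;> grind [mA, mB]
  · refine tree_of ht r r1 (fun i => if i + 1 = n then n - 3 else i - 1) (fun i => i) ?_ ?_ ?_ ?_ ?_ ?_ <;>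
      grind [mA, mD]
  · refine tree_of ht r r1 (fun i => if i + 1 = n then 2 else i - 1) (fun i => i) ?_ ?_ ?_ ?_ ?_ ?_ <;>
      grind [mA, mE]
  · refine tree_of ht r r1 (fun i => if i = 0 then 1 else i - 1) (fun i => if i = 0 then 1 else i - 1)
      ?_ ?_ ?_ ?_ ?_ ?_ <;> grind [mA, mF]

theorem conj_mem {J : Set ι} {k : ι} (hk : k ∈ J) {y : W} (hy : y ∈ WJ s J) : s k * y * s k ∈ WJ s J :=
  mul_mem (mul_mem (s_mem_WJ s hk) hy) (s_mem_WJ s hk)

section
variable (h : Exch s P) (hinj : Function.Injective s)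
include h

theorem conj_back {J : Set ι} {k : ι} (hk : k ∈ J) {y : W} (hy : s k * y * s k ∈ WJ s J) : y ∈ WJ s J := by
  have := conj_mem hk hy
  rwa [← mul_assoc, ← mul_assoc, h.sq, one_mul, h.mul_s_mul_s] at this

theorem eq_of_single {b : ι} {z : W} (hz : z ∈ WJ s {b}) (h1 : z ≠ 1) : z = s b := by
  have : z = 1 ∨ z = s b := by
    refine h.WJ_induction (p := fun z => z = 1 ∨ z = s b) (Or.inl rfl) ?_ hz
    rintro j rfl u - - (rfl | rfl)
    · exact Or.inr (mul_one _)
    · exact Or.inl (h.sq _)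
  exact this.resolve_left h1

include hinj

theorem len_two {j k : ι} (hjk : j ≠ k) : len s (s k) < len s (s j * s k) :=
  h.mem_iff_len.1 ((h.s_mem_iff hinj k j).2 hjk.symm)

theorem kl {K J : Set ι} {k : ι} (hK : k ∉ K) (hJ : k ∉ J) {y : W} (hy : y ∈ WJ s K)
    (hc : s k * y * s k ∈ WJ s J) : y ∈ WJ s {j | j ∈ K ∧ s j * s k = s k * s j} := by
  have hd : IsMinD s K J (s k) := h.isMinD_iff.2 ⟨fun j hj => len_two h hinj fun e => hK (e ▸ hj), fun j hj => by
    rw [h.len_mul_s, h.inv_s]; exact len_two h hinj fun e => hJ (e ▸ hj)⟩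
  refine WJ_mono s ?_ (h.kilmoyer hd hy (by rwa [h.inv_s]))
  rintro j ⟨hj, l, hl, e⟩
  have : l ∈ ({j, k} : Set ι) := h.mem_of_s_mem_closure hinj _ (by
    rw [← h.s_mul_s_mul k (s l), ← e, ← mul_assoc]
    exact conj_mem (by simp) (s_mem_WJ s (by simp)))
  rcases this with rfl | rfl
  · exact ⟨hj, e⟩
  · exact absurd hl hJ

theorem inter {K J : Set ι} {y : W} (hy : y ∈ WJ s K) (hc : y ∈ WJ s J) : y ∈ WJ s (K ∩ J) := by
  have hd : IsMinD s K J 1 := fun u _ v _ => by simp
  refine WJ_mono s ?_ (h.kilmoyer hd hy (by simpa using hc))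
  rintro j ⟨hj, l, hl, e⟩
  rw [mul_one, one_mul] at e
  exact ⟨hj, hinj e ▸ hl⟩

theorem mem_of_sjs {L : Set ι} {i j : ι} (hij : s i * s j ≠ s j * s i) (hy : s j * s i * s j ∈ WJ s L) :
    i ∈ L ∧ j ∈ L := by
  by_cases hj : j ∈ L
  · exact ⟨h.mem_of_s_mem_closure hinj _ (conj_back h hj hy), hj⟩
  · have := kl h hinj (K := {i}) (by rintro rfl; exact hij rfl) hj (s_mem_WJ s rfl) hy
    exact absurd (h.mem_of_s_mem_closure hinj _ this).2 hij

end

theorem jobDeep : JobDeep := by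
  rintro W ι _ s P h hinj hirr ⟨a, b, c, hab, hbc, hac⟩ i
  have ex : ∀ x y : ι, ∃ z, z ∈ ({x, y} : Set ι)ᶜ := fun x y => by
    by_contra hc
    simp only [Set.mem_compl_iff, not_exists, not_not, Set.mem_insert_iff, Set.mem_singleton_iff] at hc
    have := hc a; have := hc b; have := hc c
    grind
  obtain ⟨_, rfl, j, -, hij⟩ := hirr {i} ⟨i, rfl⟩ ((ex i i).imp fun z hz => by simpa using hz)
  rename_i i
  obtain ⟨l, hl, k, hk, hlk⟩ := hirr {i, j} ⟨i, by simp⟩ (ex i j)
  refine ⟨s j * s k, fun x y hxy => ?_⟩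
  rw [mul_inv_rev, h.inv_s, h.inv_s, show s k * s j * s i * (s j * s k) = s k * (s j * s i * s j) * s k by
    group] at hxy
  by_cases hkJ : k ∈ ({x, y} : Set ι)
  · have := mem_of_sjs h hinj hij (conj_back h hkJ hxy)
    have hne : i ≠ j := by rintro rfl; exact hij rfl
    simp only [Set.mem_insert_iff, Set.mem_singleton_iff] at this hk hkJ
    grind
  · have := mem_of_sjs h hinj hij (kl h hinj hk hkJ (conj_mem (by simp) (s_mem_WJ s (by simp))) hxy)
    rcases hl with rfl | rfl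
    · exact hlk this.1.2
    · exact hlk this.2.2

section CX
variable (h : Exch s P) (hinj : Function.Injective s)
include h

theorem comm_of_two {a c : ι} (e : mm s a c = 2) : s a * s c = s c * s a := by
  have : (s a * s c) ^ 2 = 1 := by rw [← e]; exact pow_orderOf_eq_one _
  rw [eq_inv_of_mul_eq_one_left ((sq _).symm.trans this), mul_inv_rev, h.inv_s, h.inv_s]

theorem braid3 {a b : ι} (e : mm s a b = 3) : s a * s b * s a = s b * s a * s b := by
  have : (s a * s b) ^ 3 = 1 := by rw [← e]; exact pow_orderOf_eq_one _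
  rw [show (s a * s b) ^ 3 = (s a * s b * s a) * (s b * s a * s b) by simp [pow_succ, mul_assoc]] at this
  rw [eq_inv_of_mul_eq_one_left this]
  simp [h.inv_s, mul_assoc]

theorem braid4 {a b : ι} (e : mm s a b = 4) : s a * s b * s a * s b = s b * s a * s b * s a := by
  have : (s a * s b) ^ 4 = 1 := by rw [← e]; exact pow_orderOf_eq_one _
  rw [show (s a * s b) ^ 4 = (s a * s b * s a * s b) * (s a * s b * s a * s b) by
    simp [pow_succ, mul_assoc]] at this
  rw [eq_inv_of_mul_eq_one_left this]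
  simp [h.inv_s, mul_assoc]

theorem two_of_comm (hinj : Function.Injective s) {a c : ι} (hac : a ≠ c) (e : s a * s c ≠ s c * s a) :
    mm s a c ≠ 2 := fun e' => e (comm_of_two h e')

/-- the reflections of a dihedral group of order `6` or `8` -/
theorem refl_cases {b c : ι} (hm : mm s b c = 3 ∨ mm s b c = 4) {x : W} (hx : x ∈ WJ s {b, c}) {t : W}
    (ht : t = s b ∨ t = s c) : x * t * x⁻¹ = s b ∨ x * t * x⁻¹ = s c ∨ x * t * x⁻¹ = s c * s b * s c ∨
      x * t * x⁻¹ = s b * s c * s b := by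
  refine h.WJ_induction (p := fun x => x * t * x⁻¹ = s b ∨ x * t * x⁻¹ = s c ∨ x * t * x⁻¹ = s c * s b * s c ∨
      x * t * x⁻¹ = s b * s c * s b) (by simp only [one_mul, inv_one, mul_one]; tauto) ?_ hx
  intro j hj u _ _ ih
  rw [show s j * u * t * (s j * u)⁻¹ = s j * (u * t * u⁻¹) * s j by rw [mul_inv_rev, h.inv_s]; group]
  have k1 : s b * (s c * s b * s c) * s b = s c ∨ s b * (s c * s b * s c) * s b = s c * s b * s c := by
    rcases hm with e | e
    · left; rw [← braid3 h e]; simp [mul_assoc, h.s_mul_s_mul, h.sq]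
    · right; rw [← mul_assoc, ← mul_assoc, braid4 h e, h.mul_s_mul_s]
  have k2 : s c * (s b * s c * s b) * s c = s b ∨ s c * (s b * s c * s b) * s c = s b * s c * s b := by
    rcases hm with e | e
    · left; rw [braid3 h e]; simp [mul_assoc, h.s_mul_s_mul, h.sq]
    · right; rw [← mul_assoc, ← mul_assoc, ← braid4 h e, h.mul_s_mul_s]
  rcases hj with rfl | rfl <;> rcases ih with e | e | e | e <;> rw [e]
  · left; rw [h.sq, one_mul]
  · simp
  · tauto
  · right; left; simp [mul_assoc, h.s_mul_s_mul, h.sq]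
  · simp
  · right; left; rw [h.sq, one_mul]
  · left; simp [mul_assoc, h.s_mul_s_mul, h.sq]
  · tauto

include hinj

variable {r : W} {T : Set W} (hr : r ≠ 1)
  (rule : ∀ v j k, v⁻¹ * r * v ∉ WJ s {j, k} → v * s j * v⁻¹ ∈ T → v * s k * v⁻¹ ∈ T →
    ∀ x ∈ WJ s {j, k}, v * x * s j * (v * x)⁻¹ ∈ T)
  (I1 : ∀ j k, ∀ x ∈ WJ s {j, k}, x * s j * x⁻¹ ≠ r → x * s j * x⁻¹ ∈ T)
include hr rule I1

theorem rule' (v : W) (j k : ι) (hv : v⁻¹ * r * v ∉ WJ s {j, k}) (hj : v * s j * v⁻¹ ≠ r → v * s j * v⁻¹ ∈ T)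
    (hk : v * s k * v⁻¹ ≠ r → v * s k * v⁻¹ ∈ T) : ∀ x ∈ WJ s {j, k}, v * x * s j * (v * x)⁻¹ ∈ T :=
  rule v j k hv (hj fun e => hv (by rw [← e]; simpa [mul_assoc] using s_mem_WJ s (by simp)))
    (hk fun e => hv (by rw [← e]; simpa [mul_assoc] using s_mem_WJ s (by simp)))

theorem one_step (a b : ι) : s a * s b * (s a)⁻¹ ≠ r → s a * s b * (s a)⁻¹ ∈ T :=
  I1 b a _ (s_mem_WJ s (by simp))

theorem zero_step (a : ι) : s a ≠ r → s a ∈ T := by
  simpa using I1 a a 1 (one_mem _)

theorem chain {a b c : ι} (hab : a ≠ b) (hac : a ≠ c) (e : s a * s c = s c * s a)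
    (hm : (mm s a b = 3 ∧ mm s b c = 3) ∨ (mm s a b = 3 ∧ mm s b c = 4) ∨ (mm s a b = 4 ∧ mm s b c = 3))
    (hin : s a * r * s a ∈ WJ s {b, c}) {x : W} (hx : x ∈ WJ s {b, c}) {t : W} (ht : t = s b ∨ t = s c)
    (hne : s a * x * t * (s a * x)⁻¹ ≠ r) : s a * x * t * (s a * x)⁻¹ ∈ T := by
  rw [show s a * x * t * (s a * x)⁻¹ = s a * (x * t * x⁻¹) * s a by rw [mul_inv_rev, h.inv_s]; group] at hne ⊢
  have e' : ∀ z, s a * (s c * z) = s c * (s a * z) := fun z => by rw [← mul_assoc, e, mul_assoc]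
  have hbc : b ≠ c := by
    rintro rfl
    have : mm s b b = 1 := by simp [mm, h.sq]
    omega
  have u0 : s a * (s c * s b * s c) * s a ≠ r → s a * (s c * s b * s c) * s a ∈ T := fun hne => by
    by_cases hc : (s c)⁻¹ * r * s c ∈ WJ s {b, a}
    · rw [h.inv_s] at hc
      have z1 : s c * (s a * r * s a) * s c ∈ WJ s {b, c} := conj_mem (by simp) hin
      have z2 : s c * (s a * r * s a) * s c ∈ WJ s {b, a} := by
        have := conj_mem (k := a) (by simp) hc
        simpa only [mul_assoc, e, e'] using this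
      have z3 := eq_of_single h (WJ_mono s (K := {b}) (by
        rintro j ⟨h1, h2⟩
        simp only [Set.mem_insert_iff, Set.mem_singleton_iff] at h1 h2 ⊢
        grind) (inter h hinj z1 z2)) (by
          simpa [mul_eq_one_iff_eq_inv, h.inv_s] using hr)
      exact absurd (by rw [← z3]; simp [mul_assoc, h.s_mul_s_mul, h.sq]) hne
    · have := rule' h hinj hr rule I1 (s c) b a hc (one_step h hinj hr rule I1 c b)
        (one_step h hinj hr rule I1 c a) (s a) (s_mem_WJ s (by simp))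
      simpa only [mul_assoc, e, e', mul_inv_rev, h.inv_s] using this
  rcases refl_cases h (by omega) hx ht with e1 | e1 | e1 | e1 <;> rw [e1] at hne ⊢
  · simpa [h.inv_s] using one_step h hinj hr rule I1 a b (by simpa [h.inv_s] using hne)
  · simpa [h.inv_s] using one_step h hinj hr rule I1 a c (by simpa [h.inv_s] using hne)
  · exact u0 hne
  by_cases h3 : mm s b c = 3
  · rw [braid3 h h3] at hne ⊢; exact u0 hne
  have br := braid3 h (show mm s a b = 3 by omega)
  have br' : ∀ z, s b * (s a * (s b * z)) = s a * (s b * (s a * z)) := fun z => by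
    simp only [← mul_assoc, br]
  have nab : s b * s a ≠ s a * s b := fun hc => hab (hinj (by
    rw [← hc, h.mul_s_mul_s, hc, h.mul_s_mul_s] at br; exact br.symm))
  by_cases hc : (s b * s a)⁻¹ * r * (s b * s a) ∈ WJ s {c, b}
  · have z1 : s b * (s a * r * s a) * s b ∈ WJ s {b, c} := conj_mem (by simp) hin
    have z2 : s a * (s b * (s a * r * s a) * s b) * s a ∈ WJ s {c, b} := by
      have := conj_mem (k := b) (by simp) hc
      rw [mul_inv_rev, h.inv_s, h.inv_s] at this
      simpa only [mul_assoc, br', show s b * (s a * s b) = s a * (s b * s a) by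
        simp only [← mul_assoc, br]] using this
    have z3 := eq_of_single h (WJ_mono s (K := {c}) (by
      rintro j ⟨rfl | rfl, e⟩
      exacts [absurd e nab, rfl]) (kl h hinj (by simp [hab, hac]) (by simp [hab, hac]) z1 z2)) (by
        simpa [mul_eq_one_iff_eq_inv, h.inv_s] using hr)
    exact absurd (by rw [← z3]; simp [mul_assoc, h.s_mul_s_mul, h.sq]) hne
  · have g1 : s b * s a * s c * (s b * s a)⁻¹ = s b * s c * (s b)⁻¹ := by
      simp only [mul_assoc, e', mul_inv_rev, h.inv_s, h.s_mul_s_mul]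
    have g2 : s b * s a * s b * (s b * s a)⁻¹ = s a := by
      rw [← br]; simp only [mul_assoc, mul_inv_rev, h.inv_s, h.s_mul_s_mul, h.sq, mul_one]
    have := rule' h hinj hr rule I1 (s b * s a) c b hc (g1 ▸ one_step h hinj hr rule I1 b c)
      (g2.symm ▸ zero_step h hinj hr rule I1 a) (s b) (s_mem_WJ s (by simp))
    rw [← br, mul_inv_rev, mul_inv_rev, h.inv_s, h.inv_s] at this
    simpa only [mul_assoc, e', h.s_mul_s_mul] using this

theorem step (h3 : Sph3 s) (i j k : ι) {x : W} (hx : x ∈ WJ s {j, k})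
    (hne : s i * x * s j * (s i * x)⁻¹ ≠ r) : s i * x * s j * (s i * x)⁻¹ ∈ T := by
  by_cases hi : i ∈ ({j, k} : Set ι)
  · exact I1 j k _ (mul_mem (s_mem_WJ s hi) hx) hne
  by_cases hin : (s i)⁻¹ * r * s i ∈ WJ s {j, k}
  swap
  · exact rule' h hinj hr rule I1 (s i) j k hin (one_step h hinj hr rule I1 i j)
      (one_step h hinj hr rule I1 i k) x hx
  rw [h.inv_s] at hin
  have cen : ∀ t : W, s j * t = t * s j → s k * t = t * s k → x * t = t * x := fun t a b =>
    (Subgroup.closure_le (Subgroup.centralizer {t})).2 (by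
      rintro _ ⟨l, rfl | rfl, rfl⟩ _ rfl
      exacts [a.symm, b.symm]) hx t rfl |>.symm
  by_cases hjk : s j * s k = s k * s j
  · rw [mul_assoc (s i), cen (s j) rfl hjk.symm, mul_inv_rev, ← mul_assoc (s i), ← mul_assoc,
      mul_inv_cancel_right] at hne ⊢
    exact one_step h hinj hr rule I1 i j hne
  have hjk' : j ≠ k := by rintro rfl; exact hjk rfl
  have hij : i ≠ j := fun e => hi (Or.inl e)
  have hik : i ≠ k := fun e => hi (Or.inr e)
  by_cases cj : s i * s j = s j * s i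
  · by_cases ck : s i * s k = s k * s i
    · have e : s i * x * s j * (s i * x)⁻¹ = x * s j * x⁻¹ := by
        rw [← cen (s i) cj.symm ck.symm, mul_assoc x, cj]; group
      rw [e] at hne ⊢
      exact I1 j k x hx hne
    · obtain ⟨-, hm⟩ := h3 i k j hik hjk'.symm hij (two_of_comm h hinj hik ck)
        (two_of_comm h hinj hjk'.symm (Ne.symm hjk))
      exact chain h hinj hr rule I1 hik hij cj hm (by rwa [Set.pair_comm]) (by rwa [Set.pair_comm])
        (Or.inr rfl) hne
  · obtain ⟨h2, hm⟩ := h3 i j k hij hjk' hik (two_of_comm h hinj hij cj) (two_of_comm h hinj hjk' hjk)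
    exact chain h hinj hr rule I1 hij hik (comm_of_two h h2) hm hin hx (Or.inl rfl) hne

end CX

theorem jobCX : JobCX := by
  intro W ι _ _ s P h hinj h3 r u T hr hu hT rule
  let I : W → Prop := fun v => ∀ j k, ∀ x ∈ WJ s {j, k}, v * x * s j * (v * x)⁻¹ ≠ r → v * x * s j * (v * x)⁻¹ ∈ T
  have r1 : r ≠ 1 := by obtain ⟨g, l, rfl⟩ := hr; simpa using h.s_ne_one l
  have st : ∀ v i, I v → I (v * s i) := fun v i hv j k x hx hne => by
    have := step h hinj (r := v⁻¹ * r * v) (T := {t | v * t * v⁻¹ ∈ T})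
      (fun e => r1 (by simpa [mul_assoc, mul_eq_one_iff_eq_inv] using e))
      (fun w j k a b c x hx => by
        simpa [mul_assoc] using rule (v * w) j k (by simpa [mul_assoc] using a) (by simpa [mul_assoc] using b)
          (by simpa [mul_assoc] using c) x hx)
      (fun j k x hx a => by
        simpa [mul_assoc] using hv j k x hx fun e => a (by rw [← e]; group)) h3 i j k hx
      fun e => hne (by rw [← mul_inv_cancel_left v (r), ← mul_inv_cancel_right (v⁻¹ * r) v, ← e]; group)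
    simpa [mul_assoc] using this
  have all : ∀ v, I v := by
    have Iu : I u := fun j k x hx _ => rule u j k (hu j k) (hT j) (hT k) x hx
    have : ∀ l : List ι, I (u * wp s l) := fun l => by
      induction l using List.reverseRecOn with
      | nil => simpa using Iu
      | append_singleton l i ih => simpa [← mul_assoc] using st _ i ih
    intro v
    obtain ⟨l, e⟩ := h.exists_word (u⁻¹ * v)
    simpa [e] using this l
  rintro t ⟨v, j, rfl⟩ ht
  simpa using all v j j 1 (one_mem _) (by simpa using ht)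

end H19.BNCox
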