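/- AH-GU (row S4162): orders of linear groups and fixed points of unipotent elements. -/
import Cfsg.Agent.H91.AHSpec

set_option autoImplicit false

namespace H19.AhGU

open H33.Solv H91.AH Subgroup MulAction

theorem card_ker_pow {R W : Type} [Ring R] [AddCommGroup W] [Finite W] [Module R W]
    (f : Module.End R W) (m : ℕ) :
    Nat.card (LinearMap.ker (f ^ m)) ≤ Nat.card (LinearMap.ker f) ^ m := by
  induction m with
  | zero => simp [Module.End.one_eq_id]
  | succ m ih =>
    let g : LinearMap.ker (f ^ (m + 1)) →+ LinearMap.ker (f ^ m) :=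
      { toFun := fun w => ⟨f w, (LinearMap.congr_fun (pow_succ f m) w.1).symm.trans (LinearMap.mem_ker.1 w.2)⟩
        map_zero' := Subtype.ext (map_zero f)
        map_add' := fun a b => Subtype.ext (map_add f _ _) }
    rw [← g.ker.card_mul_index, pow_succ' (Nat.card _), AddSubgroup.index_ker]
    refine Nat.mul_le_mul (Nat.card_le_card_of_injective
      (fun w => (⟨w.1.1, congrArg Subtype.val w.2⟩ : LinearMap.ker f)) fun a b h => ?_)
      ((Nat.card_le_card_of_injective _ Subtype.val_injective).trans ih)
    exact Subtype.ext (Subtype.ext (Subtype.mk.inj h))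

theorem jobGU : JobGU := fun G W _ _ _ _ r hr h => by
  have := Fact.mk hr
  obtain ⟨_⟩ : Nonempty (Module (ZMod r) W) := ⟨AddCommGroup.zmodModule h⟩
  have : Module.Finite (ZMod r) W := Module.Finite.of_finite
  let ρ : G →* Module.End (ZMod r) W :=
    { toFun := fun g => ⟨⟨(g • ·), smul_add g⟩, smul_sc g⟩
      map_one' := LinearMap.ext fun w => one_smul G w
      map_mul' := fun a b => LinearMap.ext fun w => mul_smul a b w }
  refine ⟨⟨Module.finrank (ZMod r) W, ?_, ?_⟩, fun x k hk => ?_⟩
  · rw [Module.natCard_eq_pow_finrank (K := ZMod r), Nat.card_zmod]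
  · have e : (toPermHom G W).ker = ρ.toHomUnits.ker := Subgroup.ext fun g =>
      ⟨fun k => Units.ext (LinearMap.ext fun w => congrArg (fun σ : Equiv.Perm W => σ w) k),
        fun k => Equiv.ext fun w => congrArg (fun σ : (Module.End (ZMod r) W)ˣ => (σ.1 : W →ₗ[ZMod r] W) w) k⟩
    rw [← index_ker, e, index_ker, Finset.prod_range]
    have := Matrix.card_GL_field (𝔽 := ZMod r) (Module.finrank (ZMod r) W)
    rw [ZMod.card] at this
    rw [← this, Nat.card_congr (Matrix.GeneralLinearGroup.toLin' (Module.finBasis (ZMod r) W)).toEquiv]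
    exact card_subgroup_dvd_card _
  · cases subsingleton_or_nontrivial W
    · rw [Nat.card_of_subsingleton (0 : W)]
      exact Nat.one_le_pow _ _ Nat.card_pos
    have : CharP (Module.End (ZMod r) W) r := charP_of_injective_algebraMap
      (algebraMap (ZMod r) (Module.End (ZMod r) W)).injective r
    have e : (ρ x - 1) ^ r ^ k = 0 := by
      rw [sub_pow_char_pow_of_commute _ _ (Commute.one_right _), one_pow, sub_eq_zero, ← map_pow]
      have := pow_orderOf_eq_one (toPermHom G W x)
      rw [hk, ← map_pow] at this
      exact LinearMap.ext fun w => congrArg (fun σ : Equiv.Perm W => σ w) this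
    have := card_ker_pow (ρ x - 1) (r ^ k)
    rw [e, LinearMap.ker_zero, Nat.card_congr Submodule.topEquiv.toEquiv] at this
    exact this.trans_eq (congrArg (· ^ r ^ k) (Nat.card_congr (Equiv.subtypeEquivRight fun w =>
      sub_eq_zero (a := x • w) (b := w))))

end H19.AhGU
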