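import Cfsg.Agent.H19.Sylv
import Cfsg.Agent.S0713

/-! Derangements of largest prime order for the alternating groups. -/

set_option autoImplicit false

namespace H19.Der

open Equiv Equiv.Perm Finset MulAction
open scoped Pointwise

theorem not_sq_dvd {r m : ℕ} (hr : r.Prime) (h : m < 2 * r) : ¬ r * r ∣ m.factorial := by
  induction m with
  | zero => simpa using hr.ne_one
  | succ m ih =>
    rw [Nat.factorial_succ]
    intro d
    by_cases e : r ∣ m + 1
    · obtain ⟨c, hc⟩ := e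
      have : c = 1 := by
        rcases c with _ | _ | c
        · omega
        · rfl
        · nlinarith
      rw [hc, this, mul_one] at d
      have := hr.dvd_factorial.1 (Nat.dvd_of_mul_dvd_mul_left hr.pos d)
      rw [‹c = 1›] at hc
      omega
    · have := (Nat.Prime.coprime_iff_not_dvd hr).2 e
      exact ih (by omega) ((Nat.Coprime.mul_left this this).dvd_of_dvd_mul_left d)

theorem conj_mem {A : Type*} [Group A] (S : Subgroup A) {c : A} {q : ℕ} (hq : q.Prime)
    (hc : orderOf c = q) (h : ¬ q ∣ S.index) : ∃ τ : A, τ * c * τ⁻¹ ∈ S := by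
  have := Fact.mk hq
  have hP : IsPGroup q (Subgroup.zpowers c) :=
    IsPGroup.of_card (n := 1) (by rw [Nat.card_zpowers, hc, pow_one])
  obtain ⟨x, hx⟩ := hP.nonempty_fixed_point_of_prime_not_dvd_card (A ⧸ S) h
  induction x using QuotientGroup.induction_on with
  | H τ =>
    have e : ((c * τ : A) : A ⧸ S) = τ := hx ⟨c, Subgroup.mem_zpowers c⟩
    exact ⟨τ⁻¹, by simpa [mul_assoc] using QuotientGroup.eq.1 e.symm⟩

variable {α : Type*} [Fintype α] [DecidableEq α]

theorem exists_rep {r j : ℕ} (hr : r.Prime) (hj : 0 < j) (h : j * r ≤ Fintype.card α)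
    (he : Even (j * r + j)) : ∃ σ : alternatingGroup α,
      (σ : Perm α).cycleType = Multiset.replicate j r ∧ orderOf σ = r := by
  obtain ⟨σ, hσ⟩ := (exists_with_cycleType_iff α (m := Multiset.replicate j r)).2
    ⟨by simpa using h, fun a ha => Multiset.eq_of_mem_replicate ha ▸ hr.two_le⟩
  refine ⟨⟨σ, mem_alternatingGroup.2 ?_⟩, hσ, ?_⟩
  · rw [sign_of_cycleType, hσ, Multiset.sum_replicate, Multiset.card_replicate, smul_eq_mul]
    exact he.neg_one_pow
  · rw [← Subgroup.orderOf_coe, ← lcm_cycleType, hσ]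
    exact Nat.dvd_antisymm (Multiset.lcm_dvd.2 fun b hb => (Multiset.eq_of_mem_replicate hb).dvd)
      (Multiset.dvd_lcm (Multiset.mem_replicate.2 ⟨hj.ne', rfl⟩))

theorem inv_set {r : ℕ} (hr : r.Prime) {σ : Perm α}
    (hσ : σ.cycleType = Multiset.replicate (Fintype.card α / r) r) (h1 : orderOf σ = r)
    {s : Finset α} (h2 : ∀ x, σ x ∈ s ↔ x ∈ s) : s.card % r ≤ Fintype.card α % r := by
  have := Fact.mk hr
  have h3 := card_compl_support_modEq (p := r) (n := 1) (σ := σ.subtypePerm h2) (by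
    rw [pow_one, subtypePerm_pow, ← h1]
    ext x
    simp [pow_orderOf_eq_one])
  have h4 : (σ.subtypePerm h2).supportᶜ.card ≤ σ.supportᶜ.card :=
    card_le_card_of_injOn Subtype.val (fun x hx => by
      simpa [Subtype.ext_iff] using hx) Subtype.val_injective.injOn
  rw [card_compl σ.support, ← sum_cycleType σ, hσ, Multiset.sum_replicate, smul_eq_mul,
    ← Nat.mod_eq_sub_div_mul] at h4
  rw [Fintype.card_coe] at h3
  exact h3.symm.le.trans ((Nat.mod_le _ _).trans h4)

theorem mod_lt {m k r : ℕ} (hr : r.Prime) (hk : k < r) (h : r ∣ m.choose k) : m % r < k := by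
  by_contra c
  have := Fact.mk hr
  have e := Choose.choose_modEq_choose_mod_mul_choose_div_nat (n := m) (k := k) (p := r)
  rw [Nat.mod_eq_of_lt hk, Nat.div_eq_of_lt hk, Nat.choose_zero_right, mul_one] at e
  have d := (e.dvd_iff dvd_rfl).1 h
  have := hr.dvd_factorial.1 (d.trans (Dvd.intro _ (by
    rw [← mul_assoc]; exact Nat.choose_mul_factorial_mul_factorial (not_lt.1 c))))
  exact absurd (Nat.mod_lt m hr.pos) (not_lt.2 this)

theorem index_stab (h : 3 ≤ Fintype.card α) (s : Finset α) :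
    (stabilizer (alternatingGroup α) s).index = (Fintype.card α).choose s.card := by
  have := Set.powersetCard.isPretransitive_alternatingGroup (α := α) (n := s.card) (by simpa using h)
  have e := index_stabilizer_of_transitive (alternatingGroup α) (Set.powersetCard.ofCard (s := s) rfl)
  rw [Set.powersetCard.card, Nat.card_eq_fintype_card] at e
  rw [← e]
  congr 1
  ext g
  exact ⟨fun e => Subtype.ext e, fun e => congrArg Subtype.val e⟩

theorem prim {G : Subgroup (Perm α)} [IsPretransitive G α] {q : ℕ}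
    (hq : q.Prime) {g : Perm α} (hgc : g.IsCycle) (hgq : g.support.card = q) (hg : g ∈ G)
    (hc : Fintype.card α < 2 * q) : IsPreprimitive G α := by
  classical
  have := isPretransitive_of_isCycle_mem hgc hg
  have hcard : Nat.card (SubMulAction.ofFixingSubgroup G (g.support : Set α)ᶜ) = q := by
    rw [Nat.card_eq_fintype_card, Fintype.card_subtype, ← hgq]
    apply congr_arg
    ext x
    simp [SubMulAction.mem_ofFixingSubgroup_iff]
  have : IsPreprimitive (fixingSubgroup G (g.support : Set α)ᶜ)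
      (SubMulAction.ofFixingSubgroup G (g.support : Set α)ᶜ) :=
    IsPreprimitive.of_prime_card (hcard ▸ hq)
  refine IsPreprimitive.of_card_lt
    (f := SubMulAction.ofFixingSubgroup_equivariantMap G (g.support : Set α)ᶜ) ?_
  rw [← Nat.card_coe_set_eq, Nat.card_range_of_injective
    SubMulAction.ofFixingSubgroup_equivariantMap_injective, hcard, Nat.card_eq_fintype_card]
  exact hc

theorem core (h5 : 5 ≤ Fintype.card α) (S : Subgroup (alternatingGroup α)) (hS : S ≠ ⊤) {r : ℕ}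
    (hr : r.Prime) (hrd : r ∣ S.index) (hmax : ∀ s : ℕ, s.Prime → s ∣ S.index → s ≤ r)
    (hM : Fintype.card α ≠ 6 → ∀ O : Finset α, Fintype.card α < 2 * O.card → O ≠ univ →
      (∀ x ∈ O, ∀ y, y ∈ O ↔ ∃ s ∈ S, (s : Perm α) x = y) → stabilizer _ O ≤ S) :
    ∃ σ : alternatingGroup α, orderOf σ = r ∧ ∀ τ, τ * σ * τ⁻¹ ∉ S := by
  have : Nontrivial α := Fintype.one_lt_card_iff_nontrivial.1 (by omega)
  have hA : 2 * (S.index * Nat.card S) = (Fintype.card α).factorial := by
    rw [S.index_mul_card, two_mul_nat_card_alternatingGroup, Nat.card_perm, Nat.card_eq_fintype_card]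
  have oc : ∀ τ σ : alternatingGroup α, orderOf (τ * σ * τ⁻¹) = orderOf σ := fun τ σ =>
    (MulAut.conj τ).orderOf_eq σ
  have big : Fintype.card α < 2 * r →
      ∃ σ : alternatingGroup α, orderOf σ = r ∧ ∀ τ, τ * σ * τ⁻¹ ∉ S := fun h => by
    have := Fact.mk hr
    obtain ⟨σ, hσ⟩ := exists_prime_orderOf_dvd_card' r (hrd.trans S.index_dvd_card)
    refine ⟨σ, hσ, fun τ hτ => not_sq_dvd hr h ?_⟩
    have := S.orderOf_dvd_natCard hτ
    rw [oc, hσ] at this
    exact hA ▸ (mul_dvd_mul hrd this).mul_left 2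
  have top : ¬ alternatingGroup α ≤ S.map (Subgroup.subtype _) := fun h =>
    hS (eq_top_iff.2 fun x _ => by
      obtain ⟨y, hy, e⟩ := h x.2
      exact Subtype.ext e ▸ hy)
  obtain ⟨p, hp, p1, p2⟩ := Nat.exists_prime_lt_and_le_two_mul (Fintype.card α / 2) (by omega)
  have p3 : Odd p := hp.odd_of_ne_two (by omega)
  by_cases d : p ∣ S.index
  · have := hmax p hp d
    exact big (by omega)
  have cyc : ∀ {q}, q.Prime → Odd q → q ≤ Fintype.card α → ∃ σ : alternatingGroup α,
      orderOf σ = q ∧ ∀ τ : alternatingGroup α, (↑(τ * σ * τ⁻¹) : Perm α).IsCycle ∧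
        (↑(τ * σ * τ⁻¹) : Perm α).support.card = q := fun hq ho hl => by
    obtain ⟨σ, h1, h2⟩ := exists_rep (α := α) hq one_pos (by omega) (by simpa using ho.add_one)
    have h3 := card_cycleType_eq_one.1 (by rw [h1]; rfl : (σ : Perm α).cycleType.card = 1)
    refine ⟨σ, h2, fun τ => ⟨h3.conj, ?_⟩⟩
    have h4 : (↑(τ * σ * τ⁻¹) : Perm α).IsCycle := h3.conj
    rw [← h4.orderOf, Subgroup.orderOf_coe, oc, h2]
  obtain ⟨c, c1, c2⟩ := cyc hp p3 (by omega)
  obtain ⟨τ, c3⟩ := conj_mem S hp c1 d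
  obtain ⟨c4, c5⟩ := c2 τ
  have c6 : p ∣ Nat.card S := by
    have := S.orderOf_dvd_natCard c3
    rwa [oc, c1] at this
  generalize τ * c * τ⁻¹ = e at c3 c4 c5
  by_cases tr : IsPretransitive (S.map (Subgroup.subtype _)) α
  · have pr := prim (G := S.map (Subgroup.subtype _)) hp c4 c5 ⟨e, c3, rfl⟩ (by omega)
    have r3 : 3 ≤ r := hmax 3 Nat.prime_three (by
      by_contra d3
      obtain ⟨t, t1, t2⟩ := cyc Nat.prime_three (by decide) (by omega)
      obtain ⟨υ, t3⟩ := conj_mem S Nat.prime_three t1 d3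
      exact top (alternatingGroup_le_of_isPreprimitive_of_isThreeCycle_mem pr
        (card_support_eq_three_iff.1 (t2 υ).2) ⟨_, t3, rfl⟩))
    by_cases l : r + 3 ≤ Fintype.card α
    · obtain ⟨t, t1, t2⟩ := cyc hr (hr.odd_of_ne_two (by omega)) (by omega)
      exact ⟨t, t1, fun υ h => top (Cfsg.Agent.S0713.result _ pr hr h5 l (t2 υ).1 (t2 υ).2 ⟨_, h, rfl⟩)⟩
    · exact big (by omega)
  classical
  obtain ⟨a, a1, a2⟩ := c4
  set O : Finset α := {y | ∃ s ∈ S, (s : Perm α) a = y} with hO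
  have o1 : ∀ y, y ∈ O ↔ ∃ s ∈ S, (s : Perm α) a = y := fun y => by simp [hO]
  have o2 : ∀ x ∈ O, ∀ y, y ∈ O ↔ ∃ s ∈ S, (s : Perm α) x = y := fun x hx y => by
    obtain ⟨t, t1, rfl⟩ := (o1 x).1 hx
    rw [o1]
    exact ⟨fun ⟨s, s1, s2⟩ => ⟨s * t⁻¹, S.mul_mem s1 (S.inv_mem t1), by simpa using s2⟩,
      fun ⟨s, s1, s2⟩ => ⟨s * t, S.mul_mem s1 t1, s2⟩⟩
  have o3 : p ≤ O.card := c5 ▸ card_le_card fun b hb => by
    obtain ⟨i, hi⟩ := a2 (mem_support.1 hb)
    exact (o1 b).2 ⟨e ^ i, S.zpow_mem c3 i, hi⟩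
  have o4 : O ≠ univ := fun h => tr ⟨fun x y => by
    obtain ⟨s, s1, s2⟩ := (o2 x (h ▸ mem_univ x) y).1 (h ▸ mem_univ y)
    exact ⟨⟨s, s, s1, rfl⟩, s2⟩⟩
  have o5 : ∀ s ∈ S, ∀ x, (s : Perm α) x ∈ O ↔ x ∈ O := fun s hs x =>
    ⟨fun h => (o2 _ h x).2 ⟨s⁻¹, S.inv_mem hs, by simp⟩, fun h => (o2 x h _).2 ⟨s, hs, rfl⟩⟩
  have o6 : S ≤ stabilizer _ O := fun s hs => by
    ext x
    rw [← inv_smul_mem_iff]
    exact o5 s⁻¹ (S.inv_mem hs) x
  have o7 := (card_lt_iff_ne_univ O).2 o4
  have o8 := index_stab (by omega) O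
  have o9 := card_compl O
  rw [← Nat.choose_symm o7.le, ← o9] at o8
  obtain ⟨q, q1, q2, q3⟩ := H19.Syl.sylvester (n := Fintype.card α) (k := Oᶜ.card) (by omega) (by omega)
  have q4 := hmax q q1 (q3.trans (o8 ▸ Subgroup.index_dvd_of_le o6))
  have rc : r ∣ (Fintype.card α).choose Oᶜ.card := by
    by_cases h6 : Fintype.card α = 6
    · have p5 : p = 5 := by
        obtain ⟨j, rfl⟩ := p3
        omega
      have k1 : Oᶜ.card = 1 := by omega
      have r3 := hmax 3 Nat.prime_three (Dvd.dvd.trans (by rw [o8, h6, k1]; decide)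
        (Subgroup.index_dvd_of_le o6))
      have r6 : r ≤ 6 := h6 ▸ hr.dvd_factorial.1 (hA ▸ (hrd.mul_right _).mul_left 2)
      have r5 : r ≠ 5 := fun h => d (p5 ▸ h ▸ hrd)
      rw [h6, k1]
      interval_cases r
      · decide
      · exact absurd hr (by decide)
      · exact absurd rfl r5
      · exact absurd hr (by decide)
    · rwa [← o8, ← le_antisymm o6 (hM h6 O (by omega) o4 o2)]
  have lt := mod_lt hr (by omega) rc
  have rm : r ≤ Fintype.card α := hr.dvd_factorial.1 (hA ▸ (hrd.mul_right _).mul_left 2)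
  obtain ⟨σ, s1, s2⟩ := exists_rep (α := α) hr (Nat.div_pos rm hr.pos) (Nat.div_mul_le_self _ _) (by
    rcases hr.eq_two_or_odd' with rfl | h
    · have k1 : Oᶜ.card = 1 := by omega
      rcases Nat.four_dvd_or_exists_odd_prime_and_dvd_of_two_lt (show 2 < Fintype.card α by omega)
        with ⟨j, hj⟩ | ⟨u, u1, u2, u3⟩
      · exact ⟨3 * j, by omega⟩
      · have := hmax u u1 (Dvd.dvd.trans (by rwa [o8, k1, Nat.choose_one_right])
          (Subgroup.index_dvd_of_le o6))
        have := u1.two_le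
        obtain ⟨j, rfl⟩ := u3
        omega
    · rw [← Nat.mul_succ]
      exact h.add_one.mul_left _)
  refine ⟨σ, s2, fun υ h => ?_⟩
  have := inv_set hr (σ := ↑(υ * σ * υ⁻¹)) (cycleType_conj.trans s1)
    (by rw [Subgroup.orderOf_coe, oc, s2]) (s := Oᶜ) fun x => by
      rw [mem_compl, mem_compl, o5 _ h]
  rw [Nat.mod_eq_of_lt (by omega)] at this
  omega

end H19.Der
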