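/- Tower CL3F, slots MN, D4, DA: minimal normal subgroup, small configurations in `𝔽₂`-spaces. -/
import Cfsg.Agent.H53.F2Spec
import Cfsg.Agent.H4.HallBasic

set_option autoImplicit false

namespace H19.F2

open Subgroup H91.CL H53.F2

theorem jobMN : JobMN := by
  intro W X _ _ _ _ _ _ B Gd Y h hW
  have := h.sol
  have hY : (⊤ : Subgroup Y) ≠ ⊥ := fun e => by
    have : Nontrivial W := Finite.one_lt_card_iff_nontrivial.1 (by omega)
    obtain ⟨w, hw⟩ := exists_ne (0 : W)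
    rcases h.irr (AddSubgroup.zmultiples w) (fun y hy v hv => by
      have : (⟨y, hy⟩ : Y) = 1 := mem_bot.1 (e ▸ mem_top _)
      rwa [show y = 1 from congrArg Subtype.val this, one_smul]) with k | k
    · exact hw (AddSubgroup.zmultiples_eq_bot.1 k)
    · have h1 : addOrderOf w ∣ 2 := addOrderOf_dvd_of_nsmul_eq_zero (by rw [two_nsmul, h.two])
      rw [← Nat.card_zmultiples, k, AddSubgroup.card_top] at h1
      exact absurd (Nat.le_of_dvd two_pos h1) (by omega)
  obtain ⟨N, l, hN, h0, -, hl, hc, hp, -⟩ := H4.exists_minimal_normal_elemab (⊤ : Subgroup Y) hY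
  have := Fact.mk hl
  have fx : ∀ w : W, (∀ r ∈ N, (r : X) • w = w) → w = 0 := by
    let F : AddSubgroup W :=
      { carrier := {w | ∀ r ∈ N, (r : X) • w = w}
        add_mem' := fun ha hb r hr => by rw [smul_add, ha r hr, hb r hr]
        zero_mem' := fun r _ => smul_zero _
        neg_mem' := fun ha r hr => by rw [smul_neg, ha r hr] }
    rcases h.irr F (fun y hy w hw r hr => by
      have := hw _ (hN.conj_mem' r hr ⟨y, hy⟩)
      rw [coe_mul, coe_mul, coe_inv, mul_smul, mul_smul, inv_smul_eq_iff] at this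
      exact this) with k | k
    · exact fun w hw => AddSubgroup.mem_bot.1 (k ▸ (show w ∈ F from hw))
    · refine absurd (eq_bot_iff.2 fun r hr => mem_bot.2 (Subtype.ext
        (eq_of_smul_eq_smul (α := W) fun w => ?_))) h0
      exact ((k ▸ AddSubgroup.mem_top w : w ∈ F) r hr).trans (one_smul _ _).symm
  refine ⟨l, N.map Y.subtype, hl, map_subtype_le _, by rwa [Ne, map_eq_bot_iff_of_injective _
    Y.subtype_injective], ?_, ?_, ?_, fun T T0 hT => ?_⟩
  · rintro y hy _ ⟨r, hr, rfl⟩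
    exact ⟨_, hN.conj_mem r hr ⟨y, hy⟩, rfl⟩
  · rintro _ ⟨r, hr, rfl⟩ _ ⟨s, hs, rfl⟩
    exact congrArg (fun x : N => ((x : Y) : X)) (hc.is_comm.comm ⟨r, hr⟩ ⟨s, hs⟩)
  · rintro _ ⟨r, hr, rfl⟩
    exact congrArg Subtype.val (hp r hr)
  · let := resAct (H := N) T fun g x hx => hT g.1.1 g.1.2 x hx
    have hP : IsPGroup l N := fun g => ⟨1, Subtype.ext (by simpa using hp g.1 g.2)⟩
    refine (hP.card_modEq_card_fixedPoints T).trans (by
      rw [Nat.card_eq_one_iff_exists.2 ⟨⟨⟨0, T0⟩, fun g => Subtype.ext (smul_zero (g.1.1 : X))⟩,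
        fun y => Subtype.ext (Subtype.ext (fx _ fun r hr =>
          congrArg Subtype.val (MulAction.mem_fixedPoints.1 y.2 ⟨r, hr⟩)))⟩])

section
variable {N V : Type} [AddCommGroup N] [AddCommGroup V] {U : Set V}

theorem exists_equiv [Finite N] (h : ∀ a : N, a + a = 0) :
    ∃ m, Nat.card N = 2 ^ m ∧ Nonempty (N ≃+ (Fin m → ZMod 2)) := by
  let := AddCommGroup.zmodModule (n := 2) (G := N) fun a => by rw [two_nsmul, h]
  have e := (Module.finBasis (ZMod 2) N).equivFun.toAddEquiv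
  exact ⟨_, by simpa using Nat.card_congr e.toEquiv, ⟨e⟩⟩

theorem stab_comap (e : N ≃+ V) {P : ℕ → Prop} (h : Stab U P) : Stab (e ⁻¹' U) P := by
  intro Z _ _ _ _ hZ
  let : DistribMulAction Z V :=
    { smul := fun z v => e (z • e.symm v)
      one_smul := fun v => by change e _ = _; simp
      mul_smul := fun a b v => by change e _ = e (_ • e.symm (e _)); simp [mul_smul]
      smul_zero := fun a => by change e _ = _; simp
      smul_add := fun a v w => by change e _ = e _ + e _; simp }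
  have : FaithfulSMul Z V := ⟨fun {a b} k => eq_of_smul_eq_smul (α := N) fun n => by
    simpa using (show e (a • e.symm (e n)) = e (b • e.symm (e n)) from k (e n))⟩
  exact h Z fun z u hu => hZ z (e.symm u) (by simpa using hu)

theorem sm_comap (e : N ≃+ V) (h : Sm U) : Sm (e ⁻¹' U) where
  zero := by simpa using h.zero
  gen p L k := by
    have := h.gen (e p) (L.comap e.symm.toAddMonoidHom) fun a h1 h2 =>
      k (e.symm a) (by simpa using h1) (by rwa [Ne, AddEquiv.symm_apply_eq])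
    exact eq_top_iff.2 fun n _ => by
      simpa using (this ▸ AddSubgroup.mem_top (e n) : e n ∈ L.comap e.symm.toAddMonoidHom)
  pl β k := by
    have := h.pl (β.compl₂ e.symm.toAddMonoidHom |>.comp e.symm.toAddMonoidHom) fun a b c h1 h2 h3 h4 =>
      k (e.symm a) (e.symm b) (e.symm c) (by simpa using h1) (by simpa using h2) (by simpa using h3)
        (by simpa using h4)
    ext b c
    simpa using congrArg (fun γ => γ (e b) (e c)) this

theorem crit (two : ∀ a : V, a + a = 0) (D A H : V → Prop)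
    (hD : ∀ a b c, D a → D b → D c → a = b ∨ a = c ∨ b = c) (DH : ∀ a, D a → H a)
    (hA : ∀ a, A a → a = 0 ∨ D a ∨ ∃ b, D b ∧ D (a + b))
    (hH : ∀ v w, H v → H w → A v ∨ A w ∨ A (v + w)) (hV : ∀ v w, H v ∨ H w ∨ H (v + w))
    (hs : ∀ v w, H v → H w → H (v + w))
    (hU : (∀ v, H v) ∨ ∀ v, H v → ∃ u, (H u ∧ ¬ D u) ∧ H (u + v) ∧ ¬ D (u + v)) :
    Stab {v | H v ∧ ¬ D v} fun n => ∃ a, n = 2 ^ a := by
  intro Z _ _ _ _ hZ
  refine ⟨_, Nat.eq_prime_pow_of_unique_prime_dvd Nat.card_pos.ne' fun {p} hp hd => ?_⟩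
  have := Fact.mk hp
  obtain ⟨z, hz⟩ := exists_prime_orderOf_dvd_card' p hd
  by_contra h2
  obtain ⟨k, hk⟩ := hp.odd_of_ne_two h2
  have K : ∀ v : V, z • z • v = v → z • v = v := fun v h => by
    have h1 : (z * z) ^ k • v = v := pow_mem (show z * z ∈ MulAction.stabilizer Z v from
      (mul_smul z z v).trans h) k
    nth_rw 1 [← h1]
    rw [← mul_smul, ← sq, ← pow_mul, ← pow_succ', ← hk, ← hz, pow_orderOf_eq_one, one_smul]
  have c : ∀ u v : V, u + (u + v) = v := fun u v => by rw [← add_assoc, two, zero_add]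
  have iH : ∀ v, H v → H (z • v) := fun v hv => hU.elim (fun h => h _) fun h => by
    obtain ⟨u, h1, h2⟩ := h v hv
    rw [← c u v, smul_add]
    exact hs _ _ (hZ z u h1).1 (hZ z _ h2).1
  have iD : ∀ v, D v → D (z • v) := fun v hv => by
    by_contra n
    exact (hZ z⁻¹ _ ⟨iH v (DH v hv), n⟩).2 (by rwa [inv_smul_smul])
  have fD : ∀ v, D v → z • v = v := fun v hv => by
    rcases hD _ _ _ hv (iD v hv) (iD _ (iD v hv)) with h | h | h
    exacts [h.symm, K v h.symm, (smul_left_cancel z h).symm]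
  have fA : ∀ v, A v → z • v = v := fun v hv => by
    rcases hA v hv with rfl | h | ⟨b, h1, h2⟩
    exacts [smul_zero z, fD v h, by
      rw [← c b v, smul_add, add_comm b v, fD _ h1, fD _ h2]]
  have top : ∀ (S : V → Prop) (v : V), (∀ w, S w → z • w = w) → S v ∨ S (z • v) ∨ S (v + z • v) →
      z • v = v := fun S v h1 h2 => by
    rcases h2 with h | h | h
    exacts [h1 v h, smul_left_cancel z (h1 _ h), K v (by
      have := h1 _ h
      rwa [smul_add, add_comm v, add_left_cancel_iff] at this)]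
  have fH : ∀ v, H v → z • v = v := fun v hv => top A v fA (hH _ _ hv (iH v hv))
  have : z = 1 := eq_of_smul_eq_smul (α := V) fun v => by rw [top H v fH (hV _ _), one_smul]
  rw [this, orderOf_one] at hz
  exact hp.one_lt.ne hz

end

set_option synthInstance.maxSize 1000 in
theorem jobDA : JobDA := by
  intro N _ _ two hN
  refine ⟨?_, fun h4 Z _ _ _ _ _ => ?_⟩
  · obtain ⟨m, hm, ⟨e⟩⟩ := exists_equiv two
    have : m ≤ 4 := (Nat.pow_le_pow_iff_right one_lt_two).1 (hm ▸ hN : 2 ^ m ≤ 2 ^ 4)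
    refine ⟨_, ?_, stab_comap e (crit (fun a => funext fun i => CharTwo.add_self_eq_zero _)
      (fun v => ∃ i : Fin m, i.1 < 2 ∧ v = Pi.single i 1) (fun v => ∀ i : Fin m, 2 ≤ i.1 → v i = 0)
      (fun v => ∀ i : Fin m, 3 ≤ i.1 → v i = 0) ?_ ?_ ?_ ?_ ?_ ?_ ?_)⟩
    · rw [Set.mem_preimage, map_zero, Set.mem_ofPred_eq]
      clear hm e
      interval_cases m <;> decide +kernel
    all_goals
      clear hm e
      interval_cases m <;> decide +kernel
  · classical
    let := resAct (H := Z) {v : N | v ≠ 0} fun g x hx => (smul_ne_zero_iff_ne g).2 hx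
    have := Fintype.ofFinite N
    refine (card_dvd_of_injective (MulAction.toPermHom Z {v : N | v ≠ 0})
      ((injective_iff_map_eq_one _).2 fun z hz => eq_of_smul_eq_smul (α := N) fun v => ?_)).trans ?_
    · by_cases h : v = 0
      · simp [h]
      · exact (congrArg (fun σ => (σ ⟨v, h⟩).1) hz).trans (one_smul Z v).symm
    · rw [Nat.card_perm]
      refine Nat.factorial_dvd_factorial (n := 3) ?_
      rw [Nat.card_eq_fintype_card] at h4 ⊢
      have := Set.card_ne_eq (0 : N)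
      omega

/-- Five points. -/
def U5 : Finset (Fin 4 → ZMod 2) := {![1,0,0,0], ![0,1,0,0], ![1,1,0,0], ![0,0,1,0], ![0,0,0,1]}

theorem sm_U5 : Sm (U5 : Set (Fin 4 → ZMod 2)) where
  zero := by rw [Finset.mem_coe]; decide +kernel
  gen p L k := eq_top_iff.2 fun v _ => by
    obtain ⟨a, h1, h2, h3, h4⟩ := (by decide +kernel : ∀ p v : Fin 4 → ZMod 2, ∃ a,
      a ∉ U5 ∧ a ≠ p ∧ a + v ∉ U5 ∧ a + v ≠ p) p v
    simpa using sub_mem (k _ h3 h4) (k _ h1 h2)
  pl β k := by
    have h1 : ∀ i j : Fin 4, ¬ (i.1 + j.1 = 5) → β (Pi.single i 1) (Pi.single j 1) = 0 := fun i j n => by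
      obtain ⟨a, h⟩ := (by decide +kernel : ∀ i j : Fin 4, ¬ (i.1 + j.1 = 5) → ∃ a : Fin 4 → ZMod 2,
        a ∉ U5 ∧ a + Pi.single i 1 ∉ U5 ∧ a + Pi.single j 1 ∉ U5 ∧
          a + Pi.single i 1 + Pi.single j 1 ∉ U5) i j n
      exact k a _ _ h.1 h.2.1 h.2.2.1 h.2.2.2
    have h2 : ∀ i j : Fin 4, β (Pi.single i 1) (Pi.single j 1) = 0 := fun i j => by
      by_cases n : i.1 + j.1 = 5
      swap
      · exact h1 i j n
      have h := (by decide +kernel : ∀ i j : Fin 4, i.1 + j.1 = 5 → 0 ∉ U5 ∧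
        0 + (Pi.single 0 1 + Pi.single i 1) ∉ U5 ∧ 0 + (Pi.single 0 1 + Pi.single j 1) ∉ U5 ∧
        0 + (Pi.single 0 1 + Pi.single i 1) + (Pi.single 0 1 + Pi.single j 1) ∉ U5) i j n
      have := k 0 _ _ h.1 h.2.1 h.2.2.1 h.2.2.2
      simpa [h1 0 0, h1 0 j (by omega), h1 i 0 (by omega)] using this
    have t : ∀ x : ZMod 2, x = 0 ∨ x = 1 := by decide
    refine AddMonoidHom.functions_ext _ _ _ fun i x => AddMonoidHom.functions_ext _ _ _ fun j y => ?_
    rcases t x with rfl | rfl <;> rcases t y with rfl | rfl <;> simp [h2]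

theorem stab_U5 : Stab (U5 : Set (Fin 4 → ZMod 2)) (· ∣ 12) := by
  intro Z _ _ _ _ hZ
  have iL : ∀ (z : Z) x, (∃ y ∈ U5, x + y ∈ U5) → ∃ y ∈ U5, z • x + y ∈ U5 :=
    fun z x ⟨y, h1, h2⟩ => ⟨z • y, hZ z y h1, smul_add z x y ▸ hZ z _ h2⟩
  let a1 := resAct (H := Z) {x | x ∈ U5 ∧ ∃ y ∈ U5, x + y ∈ U5} fun z x hx =>
    ⟨hZ z x hx.1, iL z x hx.2⟩
  let a2 := resAct (H := Z) {x | x ∈ U5 ∧ ¬ ∃ y ∈ U5, x + y ∈ U5} fun z x hx =>
    ⟨hZ z x hx.1, fun h => hx.2 (inv_smul_smul z x ▸ iL z⁻¹ _ h)⟩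
  refine (card_dvd_of_injective ((MulAction.toPermHom Z {x | x ∈ U5 ∧ ∃ y ∈ U5, x + y ∈ U5}).prod
    (MulAction.toPermHom Z {x | x ∈ U5 ∧ ¬ ∃ y ∈ U5, x + y ∈ U5}))
    ((injective_iff_map_eq_one _).2 fun z hz => eq_of_smul_eq_smul (α := Fin 4 → ZMod 2)
      fun v => ?_)).trans ?_
  · have h : ∀ x ∈ U5, z • x = x := fun x hx => by
      by_cases k : ∃ y ∈ U5, x + y ∈ U5
      · exact congrArg (fun σ => (σ.1 ⟨x, hx, k⟩).1) hz
      · exact congrArg (fun σ => (σ.2 ⟨x, hx, k⟩).1) hz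
    have t : ∀ x : ZMod 2, x = 0 ∨ x = 1 := by decide
    have := AddMonoidHom.functions_ext _ (DistribSMul.toAddMonoidHom (Fin 4 → ZMod 2) z)
      (AddMonoidHom.id _) fun i x => by
        rcases t x with rfl | rfl
        · simp
        · exact h _ ((by decide +kernel : ∀ i : Fin 4, Pi.single i 1 ∈ U5) i)
    rw [one_smul]
    exact DFunLike.congr_fun this v
  · rw [Nat.card_prod, Nat.card_perm, Nat.card_perm, Nat.card_eq_fintype_card,
      Nat.card_eq_fintype_card]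
    decide +kernel

theorem jobD4 : JobD4 := by
  intro N _ _ two hN
  obtain ⟨m, hm, ⟨e⟩⟩ := exists_equiv two
  obtain rfl : m = 4 := Nat.pow_right_injective le_rfl (hm.symm.trans hN)
  refine ⟨_, ⟨e.symm ![1,0,0,0], ?_⟩, sm_comap e sm_U5, stab_comap e stab_U5⟩
  simp [U5]

end H19.F2
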