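import Cfsg.Agent.H68.KcSpec

/-! Tower KC: the centraliser of a `p`-element acts on its cycles; large primes. -/

set_option autoImplicit false

namespace H19.Kc

open H68.Kc MulAction Subgroup
open scoped Classical

section

variable {G X : Type} [Group G] [MulAction G X] {p k : ℕ} {u g : G}

theorem smul_zpow_comm (hc : g * u = u * g) (i : ℤ) (x : X) : g • u ^ i • x = u ^ i • g • x := by
  rw [← mul_smul, ← mul_smul, (Commute.zpow_right hc i).eq]

/-- An element preserving every cycle of `u` has only primes at least `p` in its order. -/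
theorem rk_of (hp : p.Prime) (hR : Rk p G X) (hu : u ^ p ^ k = 1) (hc : g * u = u * g)
    (h : ∀ x : X, ∃ i : ℤ, g • x = u ^ i • x) {q : ℕ} (hq : q.Prime) (hd : q ∣ orderOf g) :
    p - 1 < q := by
  have h1 : ∀ x : X, g ^ p ^ k • x = x := fun x => by
    obtain ⟨i, hi⟩ := h x
    have : ∀ j : ℕ, g ^ j • x = u ^ (i * j) • x := fun j => by
      induction j with
      | zero => simp
      | succ j ih =>
        rw [pow_succ', mul_smul, ih, smul_zpow_comm hc, hi, ← mul_smul, ← zpow_add]
        congr 2
        push_cast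
        ring
    rw [this, mul_comm, zpow_mul, zpow_natCast, hu, one_zpow, one_smul]
  have h2 : orderOf g ∣ p ^ k * orderOf (g ^ p ^ k) :=
    orderOf_dvd_of_pow_eq_one (by rw [pow_mul, pow_orderOf_eq_one])
  have := hp.pos
  rcases (Nat.Prime.dvd_mul hq).1 (hd.trans h2) with h3 | h3
  · rw [(Nat.prime_dvd_prime_iff_eq hq hp).1 (hq.dvd_of_dvd_pow h3)]
    omega
  · have := hR _ h1 q hq h3
    omega

/-- The cycle of a moved point has at least `p` points. -/
theorem orb_ge [Finite X] (hp : p.Prime) (hu : u ^ p ^ k = 1) {x : X} (hx : u • x ≠ x) :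
    p ≤ (orbit (zpowers u) x).ncard := by
  have := Fact.mk hp
  have hP : IsPGroup p (zpowers u) := fun ⟨g, i, hi⟩ => ⟨k, Subtype.ext (by
    subst hi
    show (u ^ i) ^ p ^ k = 1
    rw [← zpow_natCast, ← zpow_mul, mul_comm, zpow_mul, zpow_natCast, hu, one_zpow])⟩
  obtain ⟨n, hn⟩ := hP.card_orbit x
  rw [← Nat.card_coe_set_eq, hn]
  refine Nat.le_self_pow (fun h0 => hx ?_) p
  rw [h0, pow_zero, Nat.card_eq_one_iff_unique] at hn
  exact congrArg Subtype.val (hn.1.elim (⟨u • x, mem_orbit x (⟨u, mem_zpowers u⟩ : zpowers u)⟩ :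
    orbit (zpowers u) x) ⟨x, mem_orbit_self x⟩)

theorem moved_of_mem {x y : X} (hx : u • x ≠ x) (hy : y ∈ orbit (zpowers u) x) : u • y ≠ y := by
  obtain ⟨⟨_, i, rfl⟩, rfl⟩ := hy
  intro h
  exact hx (smul_left_cancel (u ^ i) ((smul_zpow_comm rfl i x).symm.trans h))

theorem comm_of_mem (g : centralizer ({u} : Set G)) : g.1 * u = u * g.1 :=
  (g.2 u rfl).symm

/-- The action of the centraliser on the cycles. -/
@[reducible] def cycAct (u : G) :
    MulAction (centralizer ({u} : Set G)) (orbitRel.Quotient (zpowers u) X) where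
  smul g := Quotient.map' (fun x => g.1 • x) (fun x y h => by
    obtain ⟨⟨_, i, rfl⟩, rfl⟩ := h
    exact ⟨⟨_, i, rfl⟩, (smul_zpow_comm (comm_of_mem g) i y).symm⟩)
  one_smul ω := Quotient.inductionOn' ω fun x => congrArg Quotient.mk'' (one_smul G x)
  mul_smul g h ω := Quotient.inductionOn' ω fun x => congrArg Quotient.mk'' (mul_smul g.1 h.1 x)

/-- The action of the centraliser on the fixed points. -/
@[reducible] def fixAct (u : G) : MulAction (centralizer ({u} : Set G)) {x : X // u • x = x} where
  smul g x := ⟨g.1 • x.1, by rw [← mul_smul, ← comm_of_mem g, mul_smul, x.2]⟩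
  one_smul x := Subtype.ext (one_smul G x.1)
  mul_smul g h x := Subtype.ext (mul_smul g.1 h.1 x.1)

end

theorem jobCyc : JobCyc := by
  intro p a b hp ha hb hab hU G X _ _ _ _ u k hR hu
  let _ := cycAct (X := X) u
  have h1 := hU (centralizer ({u} : Set G)) (orbitRel.Quotient (zpowers u) X) (fun g hg q hq hd => by
    refine rk_of hp hR hu (comm_of_mem g) (fun x => ?_) hq (by rwa [orderOf_coe])
    obtain ⟨⟨_, i, rfl⟩, h⟩ := Quotient.exact' (hg (Quotient.mk'' x))
    exact ⟨i, h.symm⟩)
  refine h1.trans ?_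
  have hb1 : 1 ≤ b := (one_le_pow_iff_of_nonneg hb hp.ne_zero).1 (hab ▸ ha)
  rw [wt, ← Finset.prod_fiberwise Finset.univ
    (fun x : X => (Quotient.mk'' x : orbitRel.Quotient (zpowers u) X)), ← Finset.card_univ,
    ← Finset.prod_const]
  refine Finset.prod_le_prod (fun _ _ => by linarith) fun ω _ => Quotient.inductionOn' ω fun x => ?_
  have hm : ∀ y : X, y ∈ Finset.univ.filter (fun y : X =>
      (Quotient.mk'' y : orbitRel.Quotient (zpowers u) X) = Quotient.mk'' x) ↔
      y ∈ orbit (zpowers u) x := fun y => by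
    rw [Finset.mem_filter, Quotient.eq'', orbitRel_apply]
    simp
  by_cases hx : u • x = x
  · rw [Finset.prod_eq_single x, if_pos hx]
    · intro y hy hne
      obtain ⟨⟨_, i, rfl⟩, rfl⟩ := (hm y).1 hy
      exact absurd (zpow_mem (show u ∈ stabilizer G x from hx) i) hne
    · exact fun h => absurd ((hm x).2 (mem_orbit_self x)) h
  · rw [Finset.prod_congr rfl fun y hy => if_neg (moved_of_mem hx ((hm y).1 hy)),
      Finset.prod_const, ← hab]
    refine pow_le_pow_right₀ hb1 ((orb_ge hp hu hx).trans_eq ?_)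
    rw [← Set.ncard_coe_finset]
    congr 1
    ext y
    exact (hm y).symm

theorem not_sq_dvd {p : ℕ} (hp : p.Prime) (n : ℕ) (hn : n < 2 * p) : ¬ p ^ 2 ∣ n.factorial := by
  induction n with
  | zero => simpa using hp.ne_one
  | succ n ih =>
    intro h
    rw [Nat.factorial_succ] at h
    by_cases hd : p ∣ n + 1
    · obtain ⟨c, hc⟩ := hd
      have hc1 : c = 1 := by
        rcases c with _ | _ | c
        · omega
        · rfl
        · nlinarith
      rw [hc, hc1, mul_one, pow_two, Nat.mul_dvd_mul_iff_left hp.pos, hp.dvd_factorial] at h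
      rw [hc1] at hc
      omega
    · exact ih (by omega)
        ((Nat.Coprime.pow_left 2 ((hp.coprime_iff_not_dvd).2 hd)).dvd_of_dvd_mul_left h)

theorem jobBig (hP : JobPeel) : JobBig := by
  intro p a hp ha hU G X _ _ _ _ _ hn
  have := Fact.mk hp
  obtain ⟨P⟩ : Nonempty (Sylow p G) := inferInstance
  have hR : Rk p G X := fun g hg q hq hd => by
    rw [eq_of_smul_eq_smul (α := X) (m₁ := g) (m₂ := 1) (fun x => by rw [hg, one_smul]),
      orderOf_one] at hd
    exact absurd (Nat.dvd_one.1 hd) hq.ne_one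
  have hc : Nat.card (P : Subgroup G) ≤ p := by
    obtain ⟨e, he⟩ := P.2.exists_card_eq
    have h1 : Nat.card G ∣ (Fintype.card X).factorial := by
      rw [← Fintype.card_perm, ← Nat.card_eq_fintype_card]
      exact card_dvd_of_injective (toPermHom G X) toPerm_injective
    have h2 : p ^ e ∣ (Fintype.card X).factorial :=
      he ▸ (card_subgroup_dvd_card (P : Subgroup G)).trans h1
    have h3 : e ≤ 1 := by
      by_contra h
      exact not_sq_dvd hp _ hn ((pow_dvd_pow p (by omega)).trans h2)
    exact he.trans_le ((Nat.pow_le_pow_right hp.pos h3).trans_eq (pow_one p))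
  have key := hP p G P (fun _ => a ^ (Fintype.card X - p)) (fun _ _ _ _ => rfl) (fun u hu h1 => by
    obtain ⟨k, hk⟩ := P.2 ⟨u, hu⟩
    replace hk : u ^ p ^ k = 1 := congrArg Subtype.val hk
    let _ := fixAct (X := X) u
    have h2 := hU (centralizer ({u} : Set G)) {x : X // u • x = x} (fun g hg q hq hd => by
      refine rk_of hp hR hk (comm_of_mem g) (fun x => ?_) hq (by rwa [orderOf_coe])
      by_cases hx : u • x = x
      · exact ⟨0, by rw [zpow_zero, one_smul]; exact congrArg Subtype.val (hg ⟨x, hx⟩)⟩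
      have hy : u • g.1 • x ≠ g.1 • x := fun h => hx (smul_left_cancel g.1 (by
        rwa [← mul_smul, comm_of_mem g, mul_smul]))
      rcases (orbit.eq_or_disjoint (G := zpowers u) x (g.1 • x)) with h | h
      · obtain ⟨⟨_, i, rfl⟩, h⟩ : g.1 • x ∈ orbit (zpowers u) x := h ▸ mem_orbit_self _
        exact ⟨i, h.symm⟩
      · have h3 := Set.ncard_union_eq h
        have h4 := Set.ncard_le_card (orbit (zpowers u) x ∪ orbit (zpowers u) (g.1 • x))
        have h5 := orb_ge hp hk hx
        have h6 := orb_ge hp hk hy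
        rw [Nat.card_eq_fintype_card] at h4
        omega)
    refine h2.trans (pow_le_pow_right₀ ha ?_)
    obtain ⟨x, hx⟩ : ∃ x : X, u • x ≠ x := by
      by_contra! h
      exact h1 (eq_of_smul_eq_smul (α := X) fun x => by rw [h, one_smul])
    have h3 := Set.ncard_union_eq (s := orbit (zpowers u) x) (t := {y : X | u • y = y})
      (Set.disjoint_left.2 fun y hy => moved_of_mem hx hy)
    have h4 := Set.ncard_le_card (orbit (zpowers u) x ∪ {y : X | u • y = y})
    have h5 := orb_ge hp hk hx
    have h6 : Fintype.card {y : X // u • y = y} = {y : X | u • y = y}.ncard := by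
      rw [← Nat.card_coe_set_eq, Nat.card_eq_fintype_card]
      rfl
    rw [Nat.card_eq_fintype_card] at h4
    omega)
  have h0 : (0 : ℝ) ≤ a ^ (Fintype.card X - p) := pow_nonneg (by linarith) _
  set φ := a ^ (Fintype.card X - p)
  have hS : (Finset.univ.filter fun v : G => v ∈ (P : Subgroup G)).card =
      Nat.card (P : Subgroup G) := by
    rw [Nat.card_eq_fintype_card, Fintype.card_subtype]
  have hpos : 0 < Nat.card (P : Subgroup G) := Nat.card_pos
  have hsum : (∑ u : G, ∑ v : G, if u ∈ (P : Subgroup G) ∧ v ∈ (P : Subgroup G) ∧ u ≠ 1 ∧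
      u * v = v * u then φ else 0) ≤ Nat.card (P : Subgroup G) * (((p : ℝ) - 1) * φ) := by
    calc _ ≤ ∑ u : G, if u ∈ (Finset.univ.filter fun v : G => v ∈ (P : Subgroup G)).erase 1 then
          Nat.card (P : Subgroup G) * φ else 0 := by
          refine Finset.sum_le_sum fun u _ => ?_
          split_ifs with h
          · rw [← hS, ← nsmul_eq_mul, ← Finset.sum_const, Finset.sum_filter]
            refine Finset.sum_le_sum fun v _ => ?_
            split_ifs with h1 h2
            · exact le_rfl
            · exact absurd h1.2.1 h2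
            · exact h0
            · exact le_rfl
          · refine (Finset.sum_eq_zero fun v _ => if_neg fun h1 => h ?_).le
            simp [h1.1, h1.2.2.1]
      _ = ((Nat.card (P : Subgroup G) - 1 : ℕ) : ℝ) * (Nat.card (P : Subgroup G) * φ) := by
          rw [Finset.sum_ite_mem, Finset.univ_inter, Finset.sum_const, nsmul_eq_mul,
            Finset.card_erase_of_mem (by simp), hS]
      _ ≤ _ := by
          rw [mul_left_comm]
          refine mul_le_mul_of_nonneg_left (mul_le_mul_of_nonneg_right ?_ h0) (Nat.cast_nonneg _)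
          rw [Nat.cast_sub hpos, Nat.cast_one]
          exact sub_le_sub_right (Nat.cast_le.2 hc) 1
  refine le_of_mul_le_mul_left ?_ (Nat.cast_pos.2 hpos : (0 : ℝ) < _)
  rw [mul_add]
  exact key.trans (by linarith)

end H19.Kc
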