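import Cfsg.Agent.H68.KcSpec

/-! Tower KC: the numerical facts for the primes 2 and 3. -/

set_option autoImplicit false

namespace H19.Kc

open H68.Kc

/-- An inequality between exponentials persists. -/
theorem exp_step {x y z A B C : ℝ} (hx : 0 ≤ x) (hy : 0 ≤ y) (hxz : x ≤ z) (hyz : y ≤ z)
    (hA : 0 ≤ A) (hB : 0 ≤ B) (h : A + B ≤ C) (n : ℕ) : A * x ^ n + B * y ^ n ≤ C * z ^ n := by
  have h1 := pow_le_pow_left₀ hx hxz n
  have h2 := pow_le_pow_left₀ hy hyz n
  have h3 := pow_nonneg (hx.trans hxz) n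
  nlinarith [mul_le_mul_of_nonneg_left h1 hA, mul_le_mul_of_nonneg_left h2 hB,
    mul_le_mul_of_nonneg_right h h3]

theorem om_three (m : ℕ) : (om 3 m : ℝ) ≤ (17321 / 10000) ^ m := by
  rw [om]
  push_cast
  calc (3 : ℝ) ^ ((m - 1) / (3 - 1)) ≤ ((17321 / 10000) ^ 2) ^ ((m - 1) / (3 - 1)) :=
        pow_le_pow_left₀ (by norm_num) (by norm_num) _
    _ ≤ _ := by
        rw [← pow_mul]
        exact pow_le_pow_right₀ (by norm_num) (by omega)

noncomputable def c2 (j : ℕ) : ℝ := if j ≤ 1 then 1 else if j ≤ 3 then 1415 / 1000 else 3 / 2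
noncomputable def c3 (j : ℕ) : ℝ := if j ≤ 2 then 3 / 2 else 1855 / 1000
noncomputable def c4 (j : ℕ) : ℝ :=
  if j ≤ 2 then 3 / 2 else if j ≤ 8 then 1855 / 1000 else 191 / 100 - 9 / 100 / j

theorem c4_big {j : ℕ} (h : 9 ≤ j) : c4 j = 191 / 100 - 9 / 100 / j ∧ 19 / 10 ≤ c4 j := by
  have h1 : c4 j = 191 / 100 - 9 / 100 / j := by rw [c4, if_neg (by omega), if_neg (by omega)]
  have h2 : (9 : ℝ) ≤ j := by exact_mod_cast h
  have h3 : (9 : ℝ) / 100 / j ≤ 9 / 100 / 9 := div_le_div_of_nonneg_left (by norm_num) (by norm_num) h2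
  exact ⟨h1, by linarith⟩

theorem c4_small {j : ℕ} (h : j ≤ 8) : c4 j = c3 j := by
  rw [c4, c3, if_pos h]

theorem c3_le (j : ℕ) : c3 j ≤ 1855 / 1000 := by
  unfold c3
  split_ifs <;> norm_num

theorem c3_mono : Monotone c3 := fun i j h => by
  unfold c3
  split_ifs <;> first | omega | norm_num

theorem hu2 : HU 2 1 c2 := by
  refine ⟨fun i j h => ?_, by simp [c2], fun j m hm => ?_⟩
  · unfold c2
    split_ifs <;> first | omega | norm_num
  · rcases j with _ | _ | j
    · subst hm
      left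
      norm_num [c2, om]
    · subst hm
      right
      norm_num [c2, om]
    · right
      have h4 : 4 ≤ m := by
        have := Nat.one_le_two_pow (n := j)
        rw [hm, pow_succ, pow_succ]
        omega
      obtain ⟨n, rfl⟩ := Nat.exists_eq_add_of_le' h4
      have h := exp_step (x := 2) (y := 0) (z := 9 / 4) (A := 24) (B := 0) (C := (9 / 4) ^ 4)
        (by norm_num) le_rfl (by norm_num) (by norm_num) (by norm_num) le_rfl (by norm_num) n
      rw [c2, c2, if_neg (by omega), if_neg (by omega), if_neg (by omega), if_neg (by omega), om,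
        pow_mul, show (n + 4 - 1) / (2 - 1) = n + 3 by omega]
      push_cast
      rw [pow_add, pow_add]
      norm_num at h ⊢
      linarith

theorem hu3 : HU 3 (3 / 2) c3 := by
  refine ⟨c3_mono, by simp [c3], fun j m hm => ?_⟩
  rcases j with _ | j
  · subst hm
    left
    norm_num [c3, om]
  · right
    have h4 : 3 ≤ m := by
      have := Nat.one_le_pow j 3 (by norm_num)
      rw [hm, pow_succ]
      omega
    have h1 := om_three m
    have h2 : ((17321 : ℝ) / 10000) ^ m * ((3 / 2) ^ 3) ^ m + 3 * ((17321 / 10000) ^ m * (3 / 2) ^ m) ≤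
        ((1855 / 1000) ^ 3) ^ m := by
      obtain ⟨n, rfl⟩ := Nat.exists_eq_add_of_le' h4
      have h := exp_step (x := 17321 / 10000 * (3 / 2) ^ 3) (y := 17321 / 10000 * (3 / 2))
        (z := (1855 / 1000) ^ 3) (A := (17321 / 10000 * (3 / 2) ^ 3) ^ 3)
        (B := 3 * (17321 / 10000 * (3 / 2)) ^ 3) (C := ((1855 / 1000) ^ 3) ^ 3)
        (by norm_num) (by norm_num) (by norm_num) (by norm_num) (by norm_num) (by norm_num)
        (by norm_num) n
      rw [← mul_pow, ← mul_pow, pow_add, pow_add, pow_add]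
      linarith
    rw [c3, c3, if_neg (by omega), if_neg (by omega), pow_mul, pow_mul]
    have h3 := mul_le_mul_of_nonneg_right h1 (by positivity : (0 : ℝ) ≤ ((3 / 2) ^ 3) ^ m)
    have h5 := mul_le_mul_of_nonneg_right h1 (by positivity : (0 : ℝ) ≤ (3 / 2) ^ m)
    push_cast
    linarith

theorem hr3 : HR 3 (3 / 2) c4 := by
  refine ⟨fun i j h => ?_, by simp [c4], by norm_num [c4], fun j m hm => ?_⟩
  · by_cases hj : j ≤ 8
    · rw [c4_small hj, c4_small (h.trans hj)]
      exact c3_mono h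
    by_cases hi : i ≤ 8
    · rw [c4_small hi]
      linarith [c3_le i, (c4_big (j := j) (by omega)).2]
    · rw [(c4_big (j := i) (by omega)).1, (c4_big (j := j) (by omega)).1]
      exact sub_le_sub_left (div_le_div_of_nonneg_left (by norm_num)
        (Nat.cast_pos.2 (by omega)) (Nat.cast_le.2 h)) _
  rcases j with _ | j
  · subst hm
    norm_num [c4, om]
  have h9 : 9 ≤ m := by
    have := Nat.one_le_pow j 3 (by norm_num)
    rw [hm, pow_succ, pow_succ]
    omega
  obtain ⟨e1, e2⟩ := c4_big h9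
  have hm0 : (0 : ℝ) < m := Nat.cast_pos.2 (by omega)
  have e3 : c4 (3 * m) = c4 m + 6 / 100 / m := by
    rw [(c4_big (j := 3 * m) (by omega)).1, e1]
    push_cast
    field_simp
    ring
  have h1 := pow_add_mul_le_add_pow (a := c4 m) (b := 6 / 100 / m) (by linarith)
    (by positivity) (3 * m)
  have h2 : ((3 * m : ℕ) : ℝ) * c4 m ^ (3 * m - 1) * (6 / 100 / m) =
      18 / 100 * c4 m ^ (3 * m - 1) := by
    push_cast
    field_simp
    ring
  have h3 := pow_le_pow_left₀ (by norm_num) e2 (3 * m - 1)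
  have h4 : 6 * (((17321 : ℝ) / 10000) ^ m * (3 / 2) ^ m) ≤ 18 / 100 * (19 / 10) ^ (3 * m - 1) := by
    obtain ⟨n, rfl⟩ := Nat.exists_eq_add_of_le' h9
    have h := exp_step (x := 17321 / 10000 * (3 / 2)) (y := 0) (z := (19 / 10) ^ 3)
      (A := 6 * (17321 / 10000 * (3 / 2)) ^ 9) (B := 0) (C := 18 / 100 * (19 / 10) ^ 26)
      (by norm_num) le_rfl (by norm_num) (by norm_num) (by norm_num) le_rfl (by norm_num) n
    rw [← mul_pow, show 3 * (n + 9) - 1 = 3 * n + 26 by omega, pow_add, pow_add, pow_mul]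
    linarith
  have h5 := mul_le_mul_of_nonneg_right (om_three m) (by positivity : (0 : ℝ) ≤ (3 / 2) ^ m)
  rw [e3]
  push_cast
  linarith

theorem jobNum1 : JobNum1 := by
  refine ⟨⟨c2, hu2, fun j => ?_⟩, c3, c4, hu3, hr3, fun j => ?_, c3_le, fun j => ?_, fun j h => ?_⟩
  · unfold c2
    split_ifs <;> norm_num
  · by_cases h : j ≤ 8
    · exact (c4_small h).ge
    · linarith [c3_le j, (c4_big (j := j) (by omega)).2]
  · by_cases h : j ≤ 8
    · linarith [c3_le j, c4_small h]
    · rw [(c4_big (j := j) (by omega)).1]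
      exact sub_le_self _ (by positivity)
  · exact (c4_small h).trans_le (c3_le j)

end H19.Kc
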