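import Cfsg.Agent.H19.Metacyclic

/-! Metacyclic `p`-groups, `p` odd: centre, class sizes, abelian subgroups, centralizers. -/

open Subgroup Cfsg
open scoped commutatorElement

namespace H19

variable {G : Type*} [Group G] {p : ℕ} [Fact p.Prime] [Finite G]

/-- The elements whose `p^t`-th power is central, in a regular `p`-group. -/
def RegAt.omegaZ (hR : RegAt p 1 G) (hG : IsPGroup p G) (t : ℕ) : Subgroup G :=
  ((hR.quotient (center G)).omega (hG.to_quotient _) t).comap (QuotientGroup.mk' (center G))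

theorem RegAt.mem_omegaZ (hR : RegAt p 1 G) (hG : IsPGroup p G) {t : ℕ} {g : G} :
    g ∈ hR.omegaZ hG t ↔ g ^ p ^ t ∈ center G := by
  rw [RegAt.omegaZ, mem_comap, RegAt.mem_omega, ← map_pow, QuotientGroup.mk'_apply,
    QuotientGroup.eq_one_iff]

namespace MC

variable {a b : G} (h : MC a b)
include h

omit [Finite G] in
theorem mem_center_iff {g : G} : g ∈ center G ↔ Commute g a ∧ Commute g b := by
  refine ⟨fun hg => ⟨(Subgroup.mem_center_iff.1 hg a).symm, (Subgroup.mem_center_iff.1 hg b).symm⟩,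
    fun hg => Subgroup.mem_center_iff.2 fun x => ?_⟩
  obtain ⟨i, j, rfl⟩ := h.gen x
  exact ((hg.1.zpow_right i).mul_right (hg.2.zpow_right j)).symm

theorem index_eq_of_mem_iff {L : Subgroup G} {u v : ℕ}
    (hL : ∀ i j : ℤ, a ^ i * b ^ j ∈ L ↔ (u : ℤ) ∣ i ∧ (v : ℤ) ∣ j) : L.index = u * v := by
  obtain ⟨s, t, i, h1, h2, h3, hx, hy, -⟩ := h.exists_subgroup_form L
  have e1 : s = u := by
    apply Nat.dvd_antisymm
    · exact Int.natCast_dvd_natCast.1 ((h2 u).1 (by simpa using (hL u 0).2 (by simp)))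
    · exact Int.natCast_dvd_natCast.1 ((hL s 0).1 (by simpa using hx)).1
  have e2 : t = v := by
    apply Nat.dvd_antisymm
    · exact Int.natCast_dvd_natCast.1 (h3 0 v ((hL 0 v).2 (by simp)))
    · exact Int.natCast_dvd_natCast.1 ((hL i t).1 hy).2
  rw [h1, e1, e2]

variable (hp : p ≠ 2) (hG : IsPGroup p G)
include hp hG

theorem commute_left_iff (i j k : ℤ) :
    Commute (a ^ i * b ^ j) (a ^ k) ↔ (Nat.card (commutator G) : ℤ) ∣ k * j := by
  rw [← h.commute_iff hp hG]
  have h1 : Commute (a ^ i) (a ^ k) := Commute.zpow_zpow_self a i k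
  refine ⟨fun h2 => ?_, fun h2 => h1.mul_left h2.symm⟩
  simpa using (h1.inv_left.mul_left h2).symm

theorem commute_right_iff (i j k : ℤ) :
    Commute (a ^ i * b ^ j) (b ^ k) ↔ (Nat.card (commutator G) : ℤ) ∣ i * k := by
  rw [← h.commute_iff hp hG]
  have h1 : Commute (b ^ j) (b ^ k) := Commute.zpow_zpow_self b j k
  refine ⟨fun h2 => ?_, fun h2 => h2.mul_left h1⟩
  simpa using h2.mul_left h1.inv_left

theorem pow_mem_center_iff (i j : ℤ) (t : ℕ) : (a ^ i * b ^ j) ^ p ^ t ∈ center G ↔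
    (Nat.card (commutator G) : ℤ) ∣ i * p ^ t ∧ (Nat.card (commutator G) : ℤ) ∣ j * p ^ t := by
  have hR := h.regAt hp hG
  rw [h.mem_center_iff, hR.commute_pow_swap hG, hR.commute_pow_swap hG, ← zpow_natCast a,
    ← zpow_natCast b, h.commute_left_iff hp hG, h.commute_right_iff hp hG, and_comm, mul_comm _ j]
  simp

theorem mem_omegaZ_iff {n s : ℕ} (hn : Nat.card (commutator G) = p ^ n) (hs : s ≤ n) (i j : ℤ) :
    a ^ i * b ^ j ∈ (h.regAt hp hG).omegaZ hG (n - s) ↔
      ((p ^ s : ℕ) : ℤ) ∣ i ∧ ((p ^ s : ℕ) : ℤ) ∣ j := by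
  have hp0 : (p : ℤ) ^ (n - s) ≠ 0 := pow_ne_zero _ (Int.natCast_ne_zero.2 (Fact.out : p.Prime).ne_zero)
  have e : ((p ^ n : ℕ) : ℤ) = (p ^ s : ℕ) * (p : ℤ) ^ (n - s) := by
    push_cast; rw [← pow_add, Nat.add_sub_cancel' hs]
  rw [RegAt.mem_omegaZ, h.pow_mem_center_iff hp hG, hn, e, mul_dvd_mul_iff_right hp0,
    mul_dvd_mul_iff_right hp0]

theorem index_omegaZ {n s : ℕ} (hn : Nat.card (commutator G) = p ^ n) (hs : s ≤ n) :
    ((h.regAt hp hG).omegaZ hG (n - s)).index = p ^ (2 * s) := by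
  rw [h.index_eq_of_mem_iff (h.mem_omegaZ_iff hp hG hn hs), ← pow_add, two_mul]

theorem index_center : (center G).index = Nat.card (commutator G) ^ 2 := by
  rw [sq]
  apply h.index_eq_of_mem_iff
  simpa using fun i j => h.pow_mem_center_iff hp hG i j 0

theorem powerClosure_eq_omegaZ {n s : ℕ} (hn : Nat.card (commutator G) = p ^ n) (hs : s ≤ n) :
    powerClosure p s (⊤ : Subgroup G) = (h.regAt hp hG).omegaZ hG (n - s) := by
  apply le_antisymm
  · rw [powerClosure_le_iff]
    intro g _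
    obtain ⟨i, j, rfl⟩ := h.gen g
    rw [RegAt.mem_omegaZ, ← pow_mul, ← pow_add, Nat.add_sub_cancel' hs, h.pow_mem_center_iff hp hG,
      hn]
    simp
  · intro g hg
    obtain ⟨i, j, rfl⟩ := h.gen g
    obtain ⟨⟨k, rfl⟩, ⟨l, rfl⟩⟩ := (h.mem_omegaZ_iff hp hG hn hs i j).1 hg
    rw [zpow_mul, zpow_mul, zpow_natCast, zpow_natCast]
    exact mul_mem (zpow_mem (pow_mem_powerClosure (mem_top _)) _)
      (zpow_mem (pow_mem_powerClosure (mem_top _)) _)

theorem card_commutator_dvd_iff (L : Subgroup G) (k : ℕ) :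
    Nat.card (commutator L) ∣ k ↔ Nat.card (commutator G) ∣ k * L.index := by
  obtain ⟨s, t, i, h1, -, -, hx, hy, hL⟩ := h.exists_subgroup_form L
  have h2 := hL.commute_iff hp (hG.to_subgroup L) k 1
  rw [mul_one, Int.natCast_dvd_natCast] at h2
  have h3 := h.commute_left_iff hp hG i t (s * k)
  rw [← h2, ← Int.natCast_dvd_natCast, h1]
  push_cast
  rw [show (k : ℤ) * (s * t) = s * k * t by ring, ← h3, Commute.symm_iff, commute_iff_eq,
    commute_iff_eq, Subtype.ext_iff]
  simp [zpow_mul]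

theorem isMulCommutative_iff (L : Subgroup G) :
    IsMulCommutative L ↔ Nat.card (commutator G) ∣ L.index := by
  have := h.card_commutator_dvd_iff hp hG L 1
  rw [one_mul, Nat.dvd_one, card_eq_one, commutator_eq_bot_iff] at this
  exact this

theorem isMulCommutative_iff_le (L : Subgroup G) :
    IsMulCommutative L ↔ Nat.card (commutator G) ≤ L.index := by
  obtain ⟨n, hn⟩ := IsPGroup.iff_card.1 (hG.to_subgroup (commutator G))
  obtain ⟨m, hm⟩ := hG.index L
  have hp' : p.Prime := Fact.out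
  rw [h.isMulCommutative_iff hp hG, hn, hm, Nat.pow_dvd_pow_iff_le_right hp'.one_lt,
    Nat.pow_le_pow_iff_right hp'.one_lt]

theorem isMulCommutative_iff_card_le (L : Subgroup G) :
    IsMulCommutative L ↔ Nat.card L ≤ (commutator G).index := by
  rw [h.isMulCommutative_iff_le hp hG]
  have h1 := L.card_mul_index
  have h2 := (commutator G).card_mul_index
  have h3 : 0 < Nat.card L := Nat.card_pos
  have h4 : 0 < Nat.card (commutator G) := Nat.card_pos
  constructor
  · intro h5
    apply Nat.le_of_mul_le_mul_left _ h4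
    rw [h2, ← h1, mul_comm]
    exact Nat.mul_le_mul_left _ h5
  · intro h5
    apply Nat.le_of_mul_le_mul_left _ h3
    rw [h1, ← h2, mul_comm]
    exact Nat.mul_le_mul_left _ h5

theorem card_commutator_mul_index (L : Subgroup G) (hL : L.index ∣ Nat.card (commutator G)) :
    Nat.card (commutator L) * L.index = Nat.card (commutator G) := by
  apply Nat.dvd_antisymm
  · obtain ⟨k, hk⟩ := hL
    have := (h.card_commutator_dvd_iff hp hG L k).2 (by rw [hk, mul_comm])
    rw [hk, mul_comm L.index]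
    exact Nat.mul_dvd_mul_right this _
  · exact (h.card_commutator_dvd_iff hp hG L _).1 dvd_rfl

theorem maximal_commutative_iff (L : Subgroup G) :
    Maximal (fun K : Subgroup G => IsMulCommutative K) L ↔ Nat.card L = (commutator G).index := by
  have hp' : p.Prime := Fact.out
  constructor
  · intro hL
    have h1 := (h.isMulCommutative_iff_card_le hp hG L).1 hL.1
    by_contra hne
    obtain ⟨m, hm⟩ := IsPGroup.iff_card.1 (hG.to_subgroup L)
    obtain ⟨k, hk⟩ := hG.index (commutator G)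
    have hmk : m < k := by
      rw [hm, hk] at h1 hne
      exact (Nat.pow_lt_pow_iff_right hp'.one_lt).1 (lt_of_le_of_ne h1 hne)
    obtain ⟨K, hK1, hK2⟩ := Sylow.exists_subgroup_card_pow_succ (p := p) (n := m) (G := G)
      ((pow_dvd_pow p hmk).trans (hk ▸ index_dvd_card _)) hm
    have h2 := (h.isMulCommutative_iff_card_le hp hG K).2
      (by rw [hK1, hk]; exact Nat.pow_le_pow_right hp'.pos hmk)
    have h3 := card_le_of_le (hL.2 h2 hK2)
    rw [hK1, hm, Nat.pow_le_pow_iff_right hp'.one_lt] at h3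
    omega
  · intro hL
    refine ⟨(h.isMulCommutative_iff_card_le hp hG L).2 hL.le, fun K hK hLK => ?_⟩
    exact (eq_of_le_of_card_ge hLK (hL ▸ (h.isMulCommutative_iff_card_le hp hG K).1 hK)).ge

theorem index_centralizer_mul_index {R : Subgroup G} (hZ : center G ≤ R) :
    (centralizer (R : Set G)).index * R.index = Nat.card (commutator G) ^ 2 := by
  have hp' : p.Prime := Fact.out
  have hR := h.regAt hp hG
  have := h.isCyclic_commutator
  have hn := h.normal
  set D := Nat.card (commutator G) with hD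
  have hD0 : 0 < D := Nat.card_pos
  obtain ⟨s, t, i, h1, h2, h3, hx, hy, hL⟩ := h.exists_subgroup_form R
  have hZ' : ∀ i j : ℤ, (D : ℤ) ∣ i → (D : ℤ) ∣ j → a ^ i * b ^ j ∈ R := fun i j hi hj =>
    hZ (by simpa using (h.pow_mem_center_iff hp hG i j 0).2 (by simpa using ⟨hi, hj⟩))
  obtain ⟨u, hu⟩ : s ∣ D :=
    Int.natCast_dvd_natCast.1 ((h2 D).1 (by simpa using hZ' D 0 dvd_rfl (by simp)))
  obtain ⟨v, hv⟩ : t ∣ D := Int.natCast_dvd_natCast.1 (h3 0 D (hZ' 0 D (by simp) dvd_rfl))
  have hs0 : (s : ℤ) ≠ 0 := by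
    intro e; rw [Int.natCast_eq_zero.1 e] at hu; omega
  have hC : centralizer (R : Set G) =
      centralizer {a ^ i * b ^ (t : ℤ)} ⊓ centralizer {a ^ (s : ℤ)} := by
    apply le_antisymm
    · exact le_inf (centralizer_le (by simpa using hy)) (centralizer_le (by simpa using hx))
    · rintro g ⟨hg1, hg2⟩ r hr
      obtain ⟨k, l, e⟩ := hL.gen ⟨r, hr⟩
      have e : r = (a ^ (s : ℤ)) ^ k * (a ^ i * b ^ (t : ℤ)) ^ l := congrArg Subtype.val e
      have c1 : Commute g (a ^ i * b ^ (t : ℤ)) := mem_centralizer_singleton_iff.1 hg1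
      have c2 : Commute g (a ^ (s : ℤ)) := mem_centralizer_singleton_iff.1 hg2
      rw [e]
      exact ((c2.zpow_right k).mul_right (c1.zpow_right l)).symm
  apply le_antisymm
  · have hH : (centralizer {a ^ (s : ℤ)}).index = 1 * u := by
      apply h.index_eq_of_mem_iff
      intro k l
      rw [mem_centralizer_singleton_iff, ← commute_iff_eq, h.commute_left_iff hp hG, ← hD, hu]
      push_cast
      rw [mul_dvd_mul_iff_left hs0]
      simp
    obtain ⟨n, hn'⟩ := IsPGroup.iff_card.1 (hG.to_subgroup (commutator G))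
    obtain ⟨m, -, hm⟩ := (Nat.dvd_prime_pow hp').1 (hn' ▸ hD ▸ Dvd.intro_left t hv.symm : v ∣ p ^ n)
    have h4 := hR.relIndex_centralizer_le hG (centralizer {a ^ (s : ℤ)}) (a ^ i * b ^ (t : ℤ)) m (by
      intro x hx'
      have h5 : (a ^ i * b ^ (t : ℤ)) ^ p ^ m * (b ^ (D : ℤ))⁻¹ ∈ zpowers a := by
        rw [← QuotientGroup.eq_one_iff]
        have h5 : ((a : G) : G ⧸ zpowers a) = 1 := (QuotientGroup.eq_one_iff _).2 (mem_zpowers a)
        simp [h5, ← hm, hv, zpow_mul]
      obtain ⟨k, hk⟩ := mem_zpowers_iff.1 h5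
      have hb : b ^ (D : ℤ) ∈ center G := by
        simpa using (h.pow_mem_center_iff hp hG 0 D 0).2 (by simp [hD])
      obtain ⟨l, rfl⟩ := (h2 k).1 (hk ▸ mul_mem (pow_mem hy _) (inv_mem (hZ hb)))
      have c2 : Commute x (a ^ (s : ℤ)) := mem_centralizer_singleton_iff.1 hx'
      rw [eq_mul_inv_iff_mul_eq] at hk
      rw [← hk, zpow_mul]
      exact ((c2.zpow_right l).mul_right (Subgroup.mem_center_iff.1 hb x)).symm)
    rw [hC, ← relIndex_mul_index inf_le_right, inf_relIndex_right, hH, h1, one_mul]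
    calc _ ≤ p ^ m * u * (s * t) := by gcongr
      _ = (s * u) * (t * v) := by rw [hm]; ring
      _ = D ^ 2 := by rw [← hu, ← hv, sq]
  · obtain ⟨s', t', i', h1', -, -, hx', hy', -⟩ := h.exists_subgroup_form (centralizer (R : Set G))
    have c1 : (D : ℤ) ∣ s' * t := (h.commute_left_iff hp hG i t s').1 (hx' _ hy)
    have c2 : (D : ℤ) ∣ s * t' := (h.commute_left_iff hp hG i' t' s).1 (hy' _ hx).symm
    apply Nat.le_of_dvd (Nat.pos_of_ne_zero (mul_ne_zero index_ne_zero_of_finite
      index_ne_zero_of_finite))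
    rw [h1, h1', ← Int.natCast_dvd_natCast]
    push_cast
    rw [sq, show (s' : ℤ) * t' * (s * t) = (s' * t) * (s * t') by ring]
    exact mul_dvd_mul c1 c2

theorem card_mul_card_centralizer {R : Subgroup G} (hZ : center G ≤ R) :
    Nat.card R * Nat.card (centralizer (R : Set G)) = Nat.card G * Nat.card (center G) := by
  have h1 := h.index_centralizer_mul_index hp hG hZ
  rw [← h.index_center hp hG] at h1
  have h2 : 0 < (center G).index := Nat.pos_of_ne_zero index_ne_zero_of_finite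
  apply Nat.eq_of_mul_eq_mul_right h2
  rw [mul_assoc (Nat.card G), (center G).card_mul_index, ← h1]
  calc _ = (Nat.card R * R.index) *
        (Nat.card (centralizer (R : Set G)) * (centralizer (R : Set G)).index) := by ring
    _ = _ := by rw [card_mul_index, card_mul_index]

end MC

end H19
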