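/- Tower OV, slot B2: the lines fixed by a four-group. -/
import Cfsg.Agent.H51.OVKit

set_option autoImplicit false

namespace H19.OV

open H51.OV Finset

universe u v w

theorem jobB2 : JobB2.{u, v, w} := by
  intro G P L _ _ _ _ _ _ _ n O h σ τ f k s2 t2 c f1 f2 f3 hk hl
  classical
  have := Fintype.ofFinite P
  have := Fintype.ofFinite L
  have A : ∀ p ∈ O, σ • p = p → τ • p = p →
      {l : L | (σ • l = l ∧ τ • l = l) ∧ p ∈ l}.ncard = k := fun p hp a b => by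
    have := h.cnt_through hp {σ, τ} (by simp [a, b])
    simp only [Set.mem_insert_iff, Set.mem_singleton_iff, forall_eq_or_imp, forall_eq] at this
    rw [this, hk]
  refine ⟨?_, A⟩
  have nc : ∀ (Q : P → Prop) [DecidablePred Q], {p | p ∈ O ∧ Q p}.ncard =
      ∑ p ∈ O.toFinset, if Q p then 1 else 0 := fun Q _ => by
    rw [← card_filter, ← Set.ncard_coe_finset]; congr 1; ext; simp
  set B : Finset L := univ.filter fun l => σ • l = l ∧ τ • l = l with hB
  set T : Finset L := B.filter fun l => {p | p ∈ O ∧ p ∈ l}.ncard = 1 with hT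
  have e1 := flags O.toFinset B
  have e2 := flags O.toFinset T
  simp only [Set.mem_toFinset] at e1 e2
  have e3 : ∑ l ∈ B, {p | p ∈ O ∧ p ∈ l}.ncard + ∑ l ∈ T, {p | p ∈ O ∧ p ∈ l}.ncard =
      2 * {l : L | σ • l = l ∧ τ • l = l}.ncard := by
    rw [hT, sum_filter (s := B), ← sum_add_distrib, sum_congr rfl (g := fun _ => 2) fun l m => ?_, sum_const,
      smul_eq_mul, mul_comm, ← Set.ncard_coe_finset, hB]
    · simp
    have a := h.le_two l
    obtain ⟨p, b⟩ := hl l (mem_filter.1 m).2.1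
    have := (Set.ncard_pos (s := {p | p ∈ O ∧ p ∈ l})).2 ⟨p, b⟩
    split_ifs <;> omega
  have one : ∀ p q : P, q ≠ p → (∀ l ∈ B, p ∈ l → q ∈ l) →
      (∀ l : L, p ∈ l → q ∈ l → σ • l = l ∧ τ • l = l) → {l | l ∈ B ∧ p ∈ l}.ncard = 1 :=
    fun p q ne a b => by
      obtain ⟨l, x, y⟩ := h.join p q
      exact Set.ncard_eq_one.2 ⟨l, Set.eq_singleton_iff_unique_mem.2 ⟨⟨by simpa [hB] using b l x y, x⟩,
        fun m hm => h.ln_eq ne (a m hm.1 hm.2) hm.2 y x⟩⟩
  have bs : ∀ l ∈ B, ∀ p, p ∈ l → σ • p ∈ l := fun l m p => h.mem_of_fix (mem_filter.1 m).2.1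
  have bt : ∀ l ∈ B, ∀ p, p ∈ l → τ • p ∈ l := fun l m p => h.mem_of_fix (mem_filter.1 m).2.2
  have tz : ∀ p ∈ O, ¬ (σ • p = p ∧ τ • p = p) → {l | l ∈ T ∧ p ∈ l}.ncard = 0 := fun p hp a => by
    rw [Set.ncard_eq_zero, Set.eq_empty_iff_forall_notMem]
    rintro l ⟨x, y⟩
    obtain ⟨x1, x2⟩ := mem_filter.1 x
    have := Set.ncard_le_one_iff_subsingleton.1 x2.le
    exact a ⟨this ⟨h.inv σ p hp, bs l x1 p y⟩ ⟨hp, y⟩, this ⟨h.inv τ p hp, bt l x1 p y⟩ ⟨hp, y⟩⟩
  have key : ∀ p ∈ O.toFinset, {l | l ∈ B ∧ p ∈ l}.ncard + {l | l ∈ T ∧ p ∈ l}.ncard +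
      2 * (if σ • p = p ∧ τ • p = p then 1 else 0) =
      k * (if σ • p = p ∧ τ • p = p then 1 else 0) + (if σ • p = p then 1 else 0) +
        (if τ • p = p then 1 else 0) + (if (σ * τ) • p = p then 1 else 0) := fun p hp => by
    rw [Set.mem_toFinset] at hp
    have cm : σ • τ • p = τ • σ • p := by rw [← mul_smul, c.eq, mul_smul]
    rw [mul_smul]
    by_cases a : σ • p = p <;> by_cases b : τ • p = p
    · have x := A p hp a b
      have y : {l | l ∈ T ∧ p ∈ l}.ncard = 1 := by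
        obtain ⟨ψ, p1, p2, p3, p4⟩ := h.psi hp
        refine Set.ncard_eq_one.2 ⟨ψ p, Set.eq_singleton_iff_unique_mem.2 ⟨⟨mem_filter.2
          ⟨mem_filter.2 ⟨mem_univ _, (p4 p hp σ a).2 a, (p4 p hp τ b).2 b⟩, Set.ncard_eq_one.2 ⟨p,
            Set.eq_singleton_iff_unique_mem.2 ⟨⟨hp, p2 p⟩, fun R r => p3 R r.1 r.2⟩⟩⟩, p2 p⟩,
          fun l m => ?_⟩⟩
        obtain ⟨R, r, rfl⟩ := p1.surjOn m.2
        rw [Set.ncard_le_one_iff_subsingleton.1 (mem_filter.1 m.1).2.le ⟨r, p2 R⟩ ⟨hp, m.2⟩]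
      simp only [hB, mem_filter, mem_univ, true_and]
      simp [x, y, a, b]
    · rw [tz p hp fun e => b e.2, one p (τ • p) b (fun l m => bt l m p) fun l x y =>
        ⟨h.fix_line' b y x (by rw [cm, a]) a, h.fix_swap t2 b x y⟩]
      simp [a, b, cm]
    · rw [tz p hp fun e => a e.1, one p (σ • p) a (fun l m => bs l m p) fun l x y =>
        ⟨h.fix_swap s2 a x y, h.fix_line' a y x (by rw [← cm, b]) b⟩]
      simp [a, b]
    rw [tz p hp fun e => a e.1]
    have z : σ • τ • p = p ↔ τ • p = σ • p := by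
      rw [smul_eq_iff_eq_inv_smul, inv_eq_of_mul_eq_one_right s2]
    by_cases d : τ • p = σ • p
    · rw [one p (σ • p) a (fun l m => bs l m p) fun l x y =>
        ⟨h.fix_swap s2 a x y, h.fix_swap t2 b x (d ▸ y)⟩, z]
      simp [a, d]
    · have : {l | l ∈ B ∧ p ∈ l} = ∅ := Set.eq_empty_of_forall_notMem fun l m => by
        rcases h.arc l p hp _ (h.inv σ p hp) _ (h.inv τ p hp) m.2 (bs l m.1 p m.2) (bt l m.1 p m.2)
          with e | e | e
        exacts [a e.symm, b e.symm, d e.symm]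
      simp [this, a, b, z, d]
  have := sum_congr rfl key
  simp only [sum_add_distrib, ← mul_sum] at this
  rw [← nc, ← nc, ← nc, ← nc, hk, f1, f2, f3, e1, e2, e3] at this
  rw [this]
  ring

end H19.OV
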