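/- Tower OV, slots R3 and AB: the `2`-rank of a group with a set of involutory homologies. -/
import Cfsg.Agent.H51.OVSpec
import Cfsg.Agent.H48.Omega
import Cfsg.Agent.S1244

set_option autoImplicit false

namespace H19.OV

open Subgroup Cfsg H51.OV

universe u

theorem exW {G : Type u} [Group G] [Finite G] {H : Set G} (h : OH H) {A : Subgroup G}
    (hA : IsElementaryAbelian 2 A) : ∃ W ≤ A, (∀ x ∈ A, x ∈ W ↔ x = 1 ∨ x ∈ H) ∧ Nat.card W ≤ 4 ∧
      Nat.card A ≤ 2 * Nat.card W := by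
  classical
  have c : ∀ a ∈ A, ∀ b ∈ A, Commute a b := fun a ha b hb =>
    congrArg Subtype.val (hA.1.is_comm.comm (⟨a, ha⟩ : A) ⟨b, hb⟩)
  have s : ∀ a ∈ A, a * a = 1 := fun a ha => by rw [← sq, hA.2 a ha]
  let W : Subgroup G :=
    { carrier := {x | x ∈ A ∧ (x = 1 ∨ x ∈ H)}
      one_mem' := ⟨one_mem _, .inl rfl⟩
      mul_mem' := fun {a b} ha hb => ⟨mul_mem ha.1 hb.1, by
        rcases ha.2 with rfl | h1
        · simpa using hb.2
        rcases hb.2 with rfl | h2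
        · simpa using ha.2
        by_cases e : a = b
        · exact .inl (e ▸ s a ha.1)
        · exact .inr (h.mul a h1 b h2 e (c a ha.1 b hb.1))⟩
      inv_mem' := fun {a} ha => by rwa [inv_eq_of_mul_eq_one_right (s a ha.1)] }
  have le : W ≤ A := fun x hx => hx.1
  refine ⟨W, le, fun x hx => ⟨fun k => k.2, fun k => ⟨hx, k⟩⟩, ?_, ?_⟩
  · obtain ⟨a, b, k⟩ : ∃ a b : G, ∀ d ∈ W, d = 1 ∨ d = a ∨ d = b ∨ d = a * b := by
      by_cases k : ∃ a ∈ A, ∃ b ∈ A, a ∈ H ∧ b ∈ H ∧ a ≠ b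
      · obtain ⟨a, ha, b, hb, h1, h2, n⟩ := k
        refine ⟨a, b, fun d hd => hd.2.imp_right fun h3 => ?_⟩
        by_contra! e
        exact e.2.2 (h.quad a h1 b h2 d h3 n (c a ha b hb) e.1 e.2.1 (c d hd.1 a ha) (c d hd.1 b hb))
      push Not at k
      by_cases k' : ∃ a ∈ A, a ∈ H
      · obtain ⟨a, ha, h1⟩ := k'
        exact ⟨a, a, fun d hd => hd.2.imp_right fun h3 => .inl (k d hd.1 a ha h3 h1)⟩
      · exact ⟨1, 1, fun d hd => hd.2.imp_right fun h3 => absurd ⟨d, hd.1, h3⟩ k'⟩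
    refine le_trans ?_ (Finset.card_le_four (a := 1) (b := a) (c := b) (d := a * b))
    rw [← Set.ncard_coe_finset]
    exact Set.ncard_le_ncard (s := (W : Set G)) fun d hd => by simpa using k d hd
  · have : W.relIndex A ∣ 2 := by
      rw [relIndex_dvd_two_iff]
      by_cases k : ∃ a ∈ A, a ∉ W
      swap
      · push Not at k
        exact ⟨1, one_mem _, fun b hb => .inr (k b hb)⟩
      obtain ⟨a, ha, n⟩ := k
      refine ⟨a, ha, fun b hb => or_iff_not_imp_right.2 fun m => ⟨mul_mem hb ha, ?_⟩⟩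
      by_cases e : b = a
      · exact .inl (e ▸ s b hb)
      have o : ∀ x ∈ A, x ∉ W → orderOf x = 2 := fun x hx k =>
        orderOf_eq_prime (hA.2 x hx) fun e => k (e ▸ one_mem W)
      rcases h.meet b a (o b hb m) (o a ha n) e (c b hb a ha) with k | k | k
      exacts [absurd ⟨hb, .inr k⟩ m, absurd ⟨ha, .inr k⟩ n, .inr k]
    rw [← (W.subgroupOf A).index_mul_card, Nat.card_congr (subgroupOfEquivOfLe le).toEquiv]
    exact Nat.mul_le_mul_right _ (Nat.le_of_dvd two_pos this)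

theorem jobR3 : JobR3.{u} := by
  intro G _ _ H h A h1 h2
  obtain ⟨W, -, -, k1, k2⟩ := exW h ⟨h1, h2⟩
  omega

theorem jobAb : JobAb.{u} := by
  intro G _ _ _ H S h _ hS h3 A h1 h2
  by_contra! n
  obtain ⟨W, le, m, k1, k2⟩ := exW h ⟨h1, h2⟩
  obtain ⟨T, hT⟩ := IsPGroup.exists_le_sylow (p := 2) (P := A) fun g =>
    ⟨1, Subtype.ext (by simpa using h2 g.1 g.2)⟩
  have cT : IsMulCommutative (T : Subgroup G) := ⟨⟨fun a b => (Sylow.equiv S T).symm.injective (by
    rw [map_mul, map_mul, hS.is_comm.comm])⟩⟩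
  obtain ⟨t, ht, nt⟩ : ∃ t ∈ A, t ∉ W := by
    by_contra! k
    have := card_le_of_le (show A ≤ W from k)
    omega
  have t1 : t ≠ 1 := fun e => nt (e ▸ one_mem W)
  obtain ⟨g, -, hg⟩ := Cfsg.Agent.S1244.result (fun K hK => by
      have := card_le_card_group A
      rcases (normal_of_index_eq_two hK).eq_bot_or_eq_top with rfl | rfl
      · rw [index_bot] at hK; omega
      · simp at hK) T cT 3 (by norm_num)
    ⟨H48.pRankLE_subgroup h3 _, fun k => by
      have := H48.pRankLE_iff_subgroup.1 k A hT ⟨h1, h2⟩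
      omega⟩ W (le.trans hT)
    ⟨fun B _ _ => (card_le_card_group B).trans k1, .inr fun k => by
      have := H48.pRankLE_iff_subgroup.1 k W le_rfl ⟨⟨⟨fun a b => Subtype.ext (congrArg A.subtype
        (h1.is_comm.comm ⟨a, le a.2⟩ ⟨b, le b.2⟩))⟩⟩, fun a ha => h2 a (le ha)⟩
      omega⟩ t (orderOf_eq_prime (h2 t ht) t1) (hT ht)
  rcases (m _ (le hg)).1 hg with k | k
  · exact t1 (conj_eq_one_iff.1 k)
  · exact nt ((m t ht).2 (.inr (h.conj _ k t (isConj_iff.2 ⟨g, rfl⟩).symm)))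

end H19.OV
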