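import Cfsg.Agent.H56.OmegaFin
import Cfsg.Agent.H56.Eichler
import Cfsg.Agent.H60.DecThree

/-! The subgroup of a finite orthogonal group generated by the reflections of one norm class. -/

set_option autoImplicit false

namespace H19.RC

open H56 QuadraticMap Module

variable {F V : Type*} [Field F] [AddCommGroup V] [Module F V] {Q : QuadraticForm F V}

theorem Q_comb (u v : V) (s t : F) :
    Q (s • u + t • v) = s * s * Q u + t * t * Q v + s * t * polar Q u v := by
  rw [Q_add, Q_smul, Q_smul, polar_smul_left, polar_smul_right]; simp only [smul_eq_mul]; ring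

theorem Q_three (u v : V) (s t : F) :
    Q ((s * polar Q u v + Q v * t) • u + (-(Q u * s)) • v) = Q u * Q v * Q (s • u + t • v) := by
  rw [Q_comb, Q_comb]; ring

theorem refl_three {u v : V} {s t : F} (hu : Q u ≠ 0) (hv : Q v ≠ 0) (hw : Q (s • u + t • v) ≠ 0) :
    refl Q u * refl Q v * refl Q (s • u + t • v) =
      refl Q ((s * polar Q u v + Q v * t) • u + (-(Q u * s)) • v) := by
  refine O.ext fun x => ?_
  change refl Q u (refl Q v (refl Q _ x)) = _
  simp only [refl_apply, Q_three]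
  have e := Q_comb (Q := Q) u v s t
  generalize Q (s • u + t • v) = N at hw e
  simp only [polar_sub_right, polar_add_left, polar_add_right, polar_smul_left, polar_smul_right,
    polar_self', smul_eq_mul, polar_comm Q v u]
  match_scalars
  · rfl
  · field_simp
    rw [e]; ring
  · field_simp
    rw [e]; ring

/-- the subgroup generated by the reflections of norm class `c` -/
def RG (Q : QuadraticForm F V) (c : F) : Subgroup (O Q) :=
  Subgroup.closure {g | ∃ v, Q v ≠ 0 ∧ sqcl (Q v) = sqcl c ∧ g = refl Q v}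

theorem refl_mem {c : F} {v : V} (h0 : Q v ≠ 0) (h : sqcl (Q v) = sqcl c) : refl Q v ∈ RG Q c :=
  Subgroup.subset_closure ⟨v, h0, h, rfl⟩

instance RG_normal (c : F) : (RG Q c).Normal := ⟨fun x hx g => by
  induction hx using Subgroup.closure_induction with
  | mem x hx =>
    obtain ⟨v, h0, h, rfl⟩ := hx
    rw [conj_refl]
    exact refl_mem (by simpa using h0) (by simpa using h)
  | one => simp
  | mul x y _ _ hx hy => simpa [mul_assoc] using (RG Q c).mul_mem hx hy
  | inv x _ hx => simpa [mul_assoc] using (RG Q c).inv_mem hx⟩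

variable [Finite F]

theorem mem_of_plane (h2 : (2 : F) ≠ 0) {c : F} (hc : c ≠ 0) {u v : V} (hu : Q u ≠ 0)
    (hv : Q v ≠ 0) (h : sqcl (Q u) = sqcl (Q v))
    (D : 4 * Q u * Q v - polar Q u v * polar Q u v ≠ 0) : refl Q u * refl Q v ∈ RG Q c := by
  obtain ⟨x, t, e⟩ := H60.exists_binary h2 one_ne_zero D (4 * Q u * c)
  have w : Q (((x - polar Q u v * t) / (2 * Q u)) • u + t • v) = c := by
    rw [Q_comb]
    field_simp
    linear_combination e
  have := refl_three hu hv (w ▸ hc)
  rw [← eq_mul_inv_iff_mul_eq] at this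
  rw [this]
  refine mul_mem (refl_mem ?_ ?_) (inv_mem (refl_mem (w ▸ hc) (by rw [w])))
  · rw [Q_three, w]; exact mul_ne_zero (mul_ne_zero hu hv) hc
  · rw [Q_three, w, sqcl_mul (mul_ne_zero hu hv) hc, sqcl_mul hu hv, h, ← sqcl_mul hv hv,
      sqcl_eq_one_iff'.2 ⟨_, rfl⟩, one_mul]

variable [FiniteDimensional F V]

theorem exists_mid (h2 : (2 : F) ≠ 0) (hQ : Q.polarBilin.Nondegenerate)
    (hn : (∃ k : F, k ≠ 0 ∧ k * k ≠ 4) ∨ finrank F V ≤ 2 ∨ 5 ≤ finrank F V) {u z : V}
    (hu : Q u ≠ 0) (z0 : z ≠ 0) (hz : Q z = 0) (huz : polar Q u z = 0) :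
    ∃ w, Q w ≠ 0 ∧ sqcl (Q u) = sqcl (Q w) ∧ polar Q u w = 0 ∧
      4 * Q u * Q w - polar Q z w * polar Q z w ≠ 0 := by
  obtain ⟨f, hf⟩ : ∃ f, IsHyp Q z f ∧ polar Q u f = 0 := by
    obtain ⟨f, hf⟩ := exists_polar_eq_one hQ z0
    obtain ⟨g, g1, g2⟩ : ∃ g, polar Q z g = 1 ∧ polar Q u g = 0 :=
      ⟨f - (polar Q u f / (2 * Q u)) • u, by
        simp [polar_sub_right, polar_smul_right, hf, polar_comm Q z u, huz], by
        simp only [polar_sub_right, polar_smul_right, polar_self', smul_eq_mul]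
        field_simp
        ring⟩
    refine ⟨g - Q g • z, ⟨hz, ?_, ?_⟩, ?_⟩
    · simp [Q_sub, Q_smul, hz, polar_smul_right, polar_comm Q g z, g1]
    · simp [polar_sub_right, polar_smul_right, g1, hz]
    · simp [polar_sub_right, polar_smul_right, g2, huz]
  obtain ⟨H, huf⟩ := hf
  have h4 : (4 : F) ≠ 0 := by rw [show (4 : F) = 2 * 2 by norm_num]; exact mul_ne_zero h2 h2
  rcases hn with ⟨k, k0, k4⟩ | hn | hn
  · have e := H.Q_add_smul (k * k * Q u)
    refine ⟨z + (k * k * Q u) • f, ?_, ?_, ?_, ?_⟩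
    · rw [e]; exact mul_ne_zero (mul_ne_zero k0 k0) hu
    · rw [e, sqcl_mul_self_mul k0]
    · simp [polar_add_right, polar_smul_right, huz, huf]
    · rw [e]
      simp only [polar_add_right, polar_smul_right, H.ee, H.ef, smul_eq_mul]
      rw [show 4 * Q u * (k * k * Q u) - (0 + k * k * Q u * 1) * (0 + k * k * Q u * 1) =
        (4 - k * k) * (k * k * (Q u * Q u)) by ring]
      exact mul_ne_zero (sub_ne_zero.2 k4.symm) (mul_ne_zero (mul_ne_zero k0 k0) (mul_ne_zero hu hu))
  · have d := finrank_perp hQ (Submodule.span F {z, f})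
    rw [finrank_span_pair H.linearIndependent] at d
    have : perp Q (Submodule.span F {z, f}) = ⊥ := Submodule.finrank_eq_zero.1 (by omega)
    have m : u ∈ perp Q (Submodule.span F {z, f}) :=
      mem_perp_span_pair.2 ⟨by rw [polar_comm, huz], by rw [polar_comm, huf]⟩
    rw [this, Submodule.mem_bot] at m
    simp [m] at hu
  · classical
    let S := Submodule.span F ({u, z, f} : Set V)
    have d := finrank_perp hQ S
    have d3 : finrank F S ≤ 3 := by
      have := finrank_span_finset_le_card (R := F) ({u, z, f} : Finset V)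
      rw [Finset.coe_insert, Finset.coe_pair] at this
      exact this.trans Finset.card_le_three
    have m : ∀ x, x ∈ perp Q S ↔ polar Q u x = 0 ∧ polar Q z x = 0 ∧ polar Q f x = 0 := fun x => by
      simp [S, mem_perp_span]
    have nd : (Q.restrict (perp Q S)).polarBilin.Nondegenerate :=
      nondegenerate_of_polar fun x hx => Subtype.ext (by
        have k : x.1 ∈ S := (perp_perp hQ S).le
          (mem_perp'.2 fun y hy => by simpa [polar] using hx ⟨y, hy⟩)
        refine eq_zero_of_polar hQ fun y => ?_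
        obtain ⟨x, hx'⟩ := x
        obtain ⟨a, _, k', rfl⟩ := Submodule.mem_span_insert.1 k
        obtain ⟨b, c, rfl⟩ := Submodule.mem_span_pair.1 k'
        obtain ⟨m1, m2, m3⟩ := (m _).1 hx'
        simp only [polar_add_right, polar_smul_right, polar_self', huz, huf, hz, H.qf, H.ef, H.fe,
          polar_comm Q z u, polar_comm Q f u, smul_eq_mul] at m1 m2 m3
        have a0 : a = 0 := by simpa [h2, hu] using m1
        have b0 : b = 0 := by simpa using m3
        have c0 : c = 0 := by simpa using m2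
        simp [a0, b0, c0])
    obtain ⟨⟨w, hw⟩, e⟩ := H58.exists_Q_eq nd (by omega) (Q u)
    have e' : Q w = Q u := e
    obtain ⟨m1, m2, -⟩ := (m w).1 hw
    refine ⟨w, e' ▸ hu, by rw [e'], m1, ?_⟩
    rw [m2, e', mul_zero, sub_zero]
    exact mul_ne_zero (mul_ne_zero h4 hu) hu

theorem mul_mem_RG (h2 : (2 : F) ≠ 0) (hQ : Q.polarBilin.Nondegenerate)
    (hn : (∃ k : F, k ≠ 0 ∧ k * k ≠ 4) ∨ finrank F V ≤ 2 ∨ 5 ≤ finrank F V) {c : F} (hc : c ≠ 0)
    {u v : V} (hu : Q u ≠ 0) (hv : Q v ≠ 0) (h : sqcl (Q u) = sqcl (Q v)) :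
    refl Q u * refl Q v ∈ RG Q c := by
  by_cases D : 4 * Q u * Q v - polar Q u v * polar Q u v = 0
  swap
  · exact mem_of_plane h2 hc hu hv h D
  have h4 : (4 : F) ≠ 0 := by rw [show (4 : F) = 2 * 2 by norm_num]; exact mul_ne_zero h2 h2
  have b0 : polar Q u v ≠ 0 := fun e => by simp [e, h4, hu, hv] at D
  have k0 : 2 * Q u / polar Q u v ≠ 0 := div_ne_zero (mul_ne_zero h2 hu) b0
  rw [← refl_smul k0 v]
  obtain ⟨z, hz⟩ : ∃ z, (2 * Q u / polar Q u v) • v = u + z := ⟨_, (add_sub_cancel ..).symm⟩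
  have e1 : Q (u + z) = Q u := by
    rw [← hz, Q_smul]
    field_simp
    linear_combination D
  have e2 : polar Q u z = 0 := by
    have := congrArg (polar Q u) hz
    rw [polar_smul_right, polar_add_right, polar_self', smul_eq_mul, div_mul_cancel₀ _ b0] at this
    linear_combination -this
  have e3 : Q z = 0 := by
    rw [Q_add, e2] at e1
    linear_combination e1
  rw [hz]
  by_cases z0 : z = 0
  · rw [z0, add_zero, refl_mul_self]; exact one_mem _
  obtain ⟨w, w0, w1, w2, w3⟩ := exists_mid h2 hQ hn hu z0 e3 e2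
  have a := mem_of_plane h2 hc hu w0 w1 (by
    rw [w2, mul_zero, sub_zero]; exact mul_ne_zero (mul_ne_zero h4 hu) w0)
  have b := mem_of_plane h2 hc (e1 ▸ hu : Q (u + z) ≠ 0) w0 (e1 ▸ w1) (by
    rwa [e1, polar_add_left, w2, zero_add])
  have := mul_mem a (inv_mem b)
  rwa [mul_inv_rev, mul_assoc, mul_inv_cancel_left, refl_inv]
    at this

theorem index_RG (h2 : (2 : F) ≠ 0) (hQ : Q.polarBilin.Nondegenerate) (hd : 2 ≤ finrank F V)
    (hn : (∃ k : F, k ≠ 0 ∧ k * k ≠ 4) ∨ finrank F V ≤ 2 ∨ 5 ≤ finrank F V) {c : F} (hc : c ≠ 0) :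
    (RG Q c).index = 2 := by
  have hE : ¬ IsExc Q := not_isExc_of_two_ne h2
  obtain ⟨u, u0, u1⟩ : ∃ u, Q u ≠ 0 ∧ sqcl (Q u) ≠ sqcl c := by
    have : Nontrivial (SqCl F) := Finite.one_lt_card_iff_nontrivial.1 (by rw [card_SqCl h2]; omega)
    obtain ⟨x, hx⟩ := exists_ne (sqcl c)
    obtain ⟨a, a0, rfl⟩ := sqcl_surjective x
    obtain ⟨u, rfl⟩ := H58.exists_Q_eq hQ hd a
    exact ⟨u, a0, hx⟩
  have sq : ∀ x : SqCl F, x * x = 1 := fun x => by
    obtain ⟨a, a0, rfl⟩ := sqcl_surjective x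
    rw [← sqcl_mul a0 a0, sqcl_eq_one_iff'.2 ⟨_, rfl⟩]
  have n : refl Q u ∉ RG Q c := fun m => by
    have key : ∀ g ∈ RG Q c, (dickson hQ g = 1 ∧ spinor hQ g = 1) ∨
        (dickson hQ g = -1 ∧ spinor hQ g = sqcl c) := fun g hg => by
      induction hg using Subgroup.closure_induction with
      | mem x hx =>
        obtain ⟨v, h0, h, rfl⟩ := hx
        exact Or.inr ⟨dickson_refl hQ h0, (spinor_refl hQ v).trans h⟩
      | one => simp
      | mul x y _ _ hx hy =>
        rcases hx with hx | hx <;> rcases hy with hy | hy <;> simp [hx.1, hx.2, hy.1, hy.2, sq]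
      | inv x _ hx =>
        rcases hx with hx | hx <;> simp [hx.1, hx.2, inv_eq_of_mul_eq_one_right (sq _)]
    rcases key _ m with k | k
    · simpa [dickson_refl hQ u0] using k.1
    · exact u1 ((spinor_refl hQ u).symm.trans k.2)
  have cs : ∀ v, Q v ≠ 0 → refl Q v ∈ RG Q c ∨ refl Q v * refl Q u ∈ RG Q c := fun v hv => by
    by_cases e : sqcl (Q v) = sqcl c
    · exact Or.inl (refl_mem hv e)
    · refine Or.inr (mul_mem_RG h2 hQ hn hc hv u0 (mul_right_cancel (b := (sqcl c)⁻¹) ?_))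
      exact SqCl.eq_of_ne_one (mul_inv_eq_one.not.2 e) (mul_inv_eq_one.not.2 u1)
  have all : ∀ g, g ∈ RG Q c ∨ g * refl Q u ∈ RG Q c := fun g => by
    induction g using O.refl_induction hQ hE with
    | h1 => exact Or.inl (one_mem _)
    | hmul v hv g ih =>
      rcases cs v hv with a | a <;> rcases ih with b | b
      · exact Or.inl (mul_mem a b)
      · exact Or.inr (mul_assoc _ g _ ▸ mul_mem a b)
      · refine Or.inr ?_
        have := mul_mem a ((RG_normal c).conj_mem' g b (refl Q u))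
        rwa [refl_inv, ← mul_assoc, ← mul_assoc,
          mul_assoc (refl Q v), refl_mul_self, mul_one] at this
      · refine Or.inl ?_
        have := mul_mem a ((RG_normal c).conj_mem _ b (refl Q u))
        rwa [mul_assoc (refl Q u), mul_inv_cancel_right, ← mul_assoc, mul_assoc (refl Q v),
          refl_mul_self, mul_one] at this
  refine Subgroup.index_eq_two_iff.2 ⟨refl Q u, fun b => ?_⟩
  rcases all b with a | a
  · exact Or.inr ⟨a, fun k => n ((Subgroup.mul_mem_cancel_left _ a).1 k)⟩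
  · exact Or.inl ⟨a, fun k => n ((Subgroup.mul_mem_cancel_left _ k).1 a)⟩

end H19.RC
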