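import Cfsg.Agent.H42.SimXBSpec

/-! # S3694 (tower SIM): the map `(1 - π)³` on coordinates. -/

set_option autoImplicit false

namespace H19.SimNF

open H42.SX

theorem jobNF : JobNF := by
  intro n p C _ π _ _ h1 _ h
  obtain ⟨i, hi⟩ : ∃ i, π⁻¹ i ≠ i := by
    by_contra hn
    push Not at hn
    exact h1 (inv_eq_one.1 (Equiv.ext hn))
  have key : ∀ (a b : Fin n) (x : C),
      ((if i = a then x else 1) * (if i = b then x⁻¹ else 1)) *
      (((if π⁻¹ i = a then x else 1) * (if π⁻¹ i = b then x⁻¹ else 1)) ^ 3)⁻¹ *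
      ((if π⁻¹ (π⁻¹ i) = a then x else 1) * (if π⁻¹ (π⁻¹ i) = b then x⁻¹ else 1)) ^ 3 *
      ((if π⁻¹ (π⁻¹ (π⁻¹ i)) = a then x else 1) *
        (if π⁻¹ (π⁻¹ (π⁻¹ i)) = b then x⁻¹ else 1))⁻¹ = 1 := by
    intro a b x
    have h2 := congrFun (h (fun k => (if k = a then x else 1) * (if k = b then x⁻¹ else 1))
      (by rw [Finset.prod_mul_distrib]; simp)) i
    simp only [dc, Pi.one_apply] at h2
    refine Eq.trans ?_ h2
    generalize ((if i = a then x else 1) * (if i = b then x⁻¹ else 1)) = u
    generalize ((if π⁻¹ i = a then x else 1) * (if π⁻¹ i = b then x⁻¹ else 1)) = v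
    generalize ((if π⁻¹ (π⁻¹ i) = a then x else 1) * (if π⁻¹ (π⁻¹ i) = b then x⁻¹ else 1)) = w
    generalize ((if π⁻¹ (π⁻¹ (π⁻¹ i)) = a then x else 1) *
        (if π⁻¹ (π⁻¹ (π⁻¹ i)) = b then x⁻¹ else 1)) = z
    apply Additive.ofMul.injective
    simp only [ofMul_mul, ofMul_inv, ofMul_pow]
    abel
  generalize π⁻¹ = σ at hi key
  by_cases h2 : σ (σ i) = i
  · by_cases hn : n = 2
    · refine .inl ⟨hn, fun x => ?_⟩
      have := key i (σ i) x
      simp only [h2, hi, hi.symm, if_true, if_false, mul_one, one_mul, inv_pow, inv_inv] at this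
      rw [← this]
      simp only [pow_succ, pow_zero, one_mul, mul_assoc]
    · refine .inr (.inl fun x => ?_)
      obtain ⟨j, hj1, hj2⟩ : ∃ j : Fin n, i ≠ j ∧ σ i ≠ j := by
        by_contra hc
        push Not at hc
        apply hn
        have : (Finset.univ : Finset (Fin n)) = {i, σ i} := by
          ext j
          by_cases e : i = j
          · simp [← e]
          · simp [← hc j e]
        have h3 := congrArg Finset.card this
        rwa [Finset.card_univ, Fintype.card_fin, Finset.card_pair hi.symm] at h3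
      have := key i j x
      simp only [h2, hi, hj1, hj2, if_true, if_false, mul_one, one_pow, inv_one] at this
      rw [← this]
      simp only [pow_succ, pow_zero, one_mul, mul_assoc]
  · have h3 : σ i ≠ σ (σ i) := fun e => hi (σ.injective e).symm
    have h4 : σ (σ (σ i)) ≠ σ (σ i) := fun e => h3 (σ.injective e).symm
    by_cases h5 : σ (σ (σ i)) = i
    · refine .inr (.inr fun x => ?_)
      have := key (σ (σ i)) i x
      simp only [h5, h2, Ne.symm h2, hi, h3, if_true, if_false, mul_one, one_mul, one_pow,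
        inv_one, inv_inv] at this
      rwa [mul_right_comm, inv_mul_cancel, one_mul] at this
    · refine .inr (.inl fun x => ?_)
      have := key (σ (σ i)) i x
      simp only [h5, h2, Ne.symm h2, hi, h3, h4, if_true, if_false, mul_one, one_mul, one_pow,
        inv_one] at this
      have h6 : x ^ 2 = 1 := by rw [← this]; group
      rw [show x ^ 4 = (x ^ 2) ^ 2 by group, h6, one_pow]

end H19.SimNF
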