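import Cfsg.Agent.H0.SimSpec
import Cfsg.Agent.H59.SU
import Cfsg.Agent.H14.Quasi
import Cfsg.Agent.H57.SLGen
import Cfsg.Agent.S0281
import Cfsg.Agent.S0283

/-! # S3694 (tower SIM): the derived group of `GU` is quasisimple. -/

set_option autoImplicit false

namespace H19.SimQSU

open Subgroup Cfsg Matrix
open scoped MatrixGroups commutatorElement

theorem sl2_quasi {F : Type} [Field F] [Fintype F] (h : 3 < Fintype.card F) :
    IsQuasisimple SL(2, F) := by
  classical
  obtain ⟨a, -, ha⟩ := Finset.exists_mem_notMem_of_card_lt_card (s := {0, 1, -1})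
    (t := (Finset.univ : Finset F)) (lt_of_le_of_lt Finset.card_le_three (by simpa using h))
  simp only [Finset.mem_insert, Finset.mem_singleton, not_or] at ha
  refine ⟨⟨Matrix.SL2.commutator_eq_top ha.1 fun e => ?_⟩,
    H57.psl_fin_isSimpleGroup le_rfl fun _ => h⟩
  rcases mul_self_eq_one_iff.1 ((sq a).symm.trans e) with e | e
  · exact ha.2.1 e
  · exact ha.2.2 e

theorem su_quasi (k : ℕ) (K : Type) [Field K] [Fintype K] (q : ℕ) (hK : Fintype.card K = q ^ 2)
    (h2 : 2 ≤ k) (h3 : ¬ (k = 2 ∧ q ≤ 3)) (h4 : ¬ (k = 3 ∧ q = 2)) :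
    IsQuasisimple (SU k K q) := by
  rcases h2.eq_or_lt with rfl | h
  · obtain ⟨p, n, hp, -, hn, rfl⟩ := H59.exists_char_pow hK
    have := Fact.mk hp
    have := Fintype.ofFinite (GaloisField p n)
    have hL : Fintype.card (GaloisField p n) = p ^ n := by
      rw [← Nat.card_eq_fintype_card, GaloisField.card p n hn.ne']
    obtain ⟨e⟩ := Cfsg.Agent.S0281.result hK hL
    exact (H14.quasi_congr e).2 (sl2_quasi (by rw [hL]; by_contra h; exact h3 ⟨rfl, not_lt.1 h⟩))
  · exact ⟨⟨H59.commutator_SU hK h h4⟩, Cfsg.Agent.S0283.result hK k h h4⟩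

/-- The inclusion of `SU` in `GU`. -/
def inc (k : ℕ) (K : Type) [Field K] (q : ℕ) : SU k K q →* GU k K q :=
  ((SpecialLinearGroup.toGL : SpecialLinearGroup (Fin k) K →* GL (Fin k) K).comp
    (SU k K q).subtype).codRestrict _ fun s => s.2

theorem inc_inj (k : ℕ) (K : Type) [Field K] (q : ℕ) : Function.Injective (inc k K q) :=
  fun _ _ h => Subtype.ext (SpecialLinearGroup.toGL_injective (congrArg Subtype.val h))

theorem comm_le (k : ℕ) (K : Type) [Field K] (q : ℕ) :
    commutator (GU k K q) ≤ (inc k K q).range := by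
  intro g hg
  have h1 : commutator (GU k K q) ≤
      ((GeneralLinearGroup.det : GL (Fin k) K →* Kˣ).comp (GU k K q).subtype).ker :=
    Abelianization.commutator_subset_ker _
  have h2 : GeneralLinearGroup.det (g : GL (Fin k) K) = 1 := h1 hg
  have h3 : ((g : GL (Fin k) K) : Matrix (Fin k) (Fin k) K).det = 1 := congrArg Units.val h2
  exact ⟨⟨⟨_, h3⟩, g.2⟩, Subtype.ext (Units.ext rfl)⟩

theorem jobQSU : H0.Sim.JobQSU := by
  intro k K _ _ q hK h2 h3 h4
  have hq := su_quasi k K q hK h2 h3 h4
  have e : (inc k K q).range = commutator (GU k K q) := by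
    refine le_antisymm ?_ (comm_le k K q)
    rw [MonoidHom.range_eq_map, ← hq.1.commutator_eq_top, commutator_def, map_commutator]
    exact commutator_mono le_top le_top
  exact (H14.quasi_congr ((MonoidHom.ofInjective (inc_inj k K q)).trans
    (MulEquiv.subgroupCongr e))).1 hq

end H19.SimQSU
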