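/- S4302, part A: abelian `2`-subgroups that are offenders are elementary. -/
import Cfsg.Agent.H12.FF3
import Cfsg.Agent.H48.AutRank2
import Cfsg.Agent.S4410
import Cfsg.Agent.S0250

set_option autoImplicit false
set_option linter.unusedSectionVars false
set_option linter.unusedVariables false

namespace H19.T43

open Cfsg Subgroup H12

variable {G : Type*} [Group G] [Finite G] {W : Subgroup G}

/-- `[a, w]` -/
def dl (a w : G) : G := a * w * a⁻¹ * w⁻¹

theorem dl_mem {a w : G} (ha : a ∈ normalizer (W : Set G)) (hw : w ∈ W) : dl a w ∈ W :=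
  mul_mem ((mem_normalizer_iff.1 ha w).1 hw) (inv_mem hw)

theorem dl_eq_one {a w : G} : dl a w = 1 ↔ w ∈ centralizer ({a} : Set G) := by
  rw [mem_centralizer_singleton_iff, dl, mul_inv_eq_one, mul_inv_eq_iff_eq_mul, eq_comm]

theorem dl_sq (hW : IsElementaryAbelian 2 W) {a w : G} (ha : a ∈ normalizer (W : Set G)) (hw : w ∈ W) :
    dl (a ^ 2) w = dl a (dl a w) := by
  have h1 := (mem_normalizer_iff.1 ha w).1 hw
  have i : ∀ x ∈ W, x⁻¹ = x := fun x hx => inv_eq_of_mul_eq_one_right ((sq x).symm.trans (hW.2 x hx))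
  have c := ea_le_centralizer hW hw _ h1
  have e : (a * w * a⁻¹)⁻¹ * w * (a * w * a⁻¹)⁻¹ = w⁻¹ := by
    rw [i _ h1, i w hw, c, mul_assoc w, ← sq, hW.2 _ h1, mul_one]
  calc _ = a * (a * w * a⁻¹) * a⁻¹ * w⁻¹ := by rw [dl, sq]; group
    _ = _ := by rw [← e]; simp only [dl]; group

theorem cen_of_sq (hW : IsElementaryAbelian 2 W) (m : ℕ) : ∀ a ∈ normalizer (W : Set G),
    (∀ w ∈ W, dl (a ^ 2) w = 1 → dl a w = 1) → a ^ 2 ^ m = 1 → ∀ w ∈ W, dl a w = 1 := by
  induction m with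
  | zero => intro a _ _ e w _; rw [show a = 1 by simpa using e]; simp [dl]
  | succ m ih =>
    intro a ha h e w hw
    refine h w hw (ih _ (pow_mem ha 2) (fun w hw h1 => ?_) (by rw [← pow_mul, ← pow_succ', e]) w hw)
    rw [dl_sq hW (pow_mem ha 2) hw] at h1
    have h2 := h _ (dl_mem (pow_mem ha 2) hw) h1
    rw [dl_sq hW ha hw, ← dl_sq hW ha (dl_mem ha hw)] at h2
    rw [dl_sq hW ha hw]
    exact h _ (dl_mem ha hw) h2

theorem chain (hW : IsElementaryAbelian 2 W) (n : ℕ) : ∀ a ∈ normalizer (W : Set G), (∃ m, a ^ 2 ^ m = 1) →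
    ¬ W ≤ centralizer {a ^ 2 ^ n} → 2 ^ n * Nat.card (W ⊓ centralizer {a} : Subgroup G) ≤
      Nat.card (W ⊓ centralizer {a ^ 2 ^ n} : Subgroup G) := by
  induction n with
  | zero => intro a _ _ _; simp
  | succ n ih =>
    rintro a ha ⟨m, hm⟩ h
    have up : ∀ k w, w ∈ centralizer ({a} : Set G) → w ∈ centralizer ({a ^ k} : Set G) := fun k w hw =>
      mem_centralizer_singleton_iff.2 (Commute.pow_right (mem_centralizer_singleton_iff.1 hw) k).eq
    rw [pow_succ', pow_mul] at h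
    have h1 := ih _ (pow_mem ha 2) ⟨m, by rw [← pow_mul, mul_comm, pow_mul, hm, one_pow]⟩ h
    have h2 : W ⊓ centralizer {a} < W ⊓ centralizer {a ^ 2} := lt_of_le_of_ne (inf_le_inf_left _ (up 2)) fun e =>
      h fun w hw => by
        rw [← pow_mul]
        exact up _ w (dl_eq_one.1 (cen_of_sq hW m a ha
          (fun w hw h3 => dl_eq_one.2 (e.ge ⟨hw, dl_eq_one.1 h3⟩).2) hm w hw))
    have h3 := mul_card_le_of_lt ((ea_isPGroup hW).to_le inf_le_left) h2
    rw [pow_succ 2 n, mul_assoc, pow_mul']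
    exact (Nat.mul_le_mul_left _ h3).trans h1

theorem four (hW : IsElementaryAbelian 2 W) {K L : Subgroup G} (hL : L ≤ normalizer (W : Set G)) (hKL : K ≤ L)
    (hn : L ≤ normalizer (K : Set G)) (hK : (Nat.card K).Coprime 2) {P : G} (hP : P ∈ L)
    (h2 : P * P * (P * P) ∈ centralizer (W : Set G))
    (hc : Nat.card W < 4 * Nat.card (W ⊓ centralizer {P * P} : Subgroup G)) {k : G} (hk : k ∈ K) :
    k * (P * P) * k⁻¹ * (P * P)⁻¹ ∈ centralizer (W : Set G) := by
  have := hW.1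
  let φ := H48.conjHom W L hL
  let : CommGroup W := { mul_comm := fun a b => Subtype.ext (setLike_mul_comm a.2 b.2) }
  let : DistribMulAction φ.range (Additive W) :=
    { smul := fun s v => Additive.ofMul (s.1 v.toMul)
      one_smul := fun _ => rfl
      mul_smul := fun _ _ _ => rfl
      smul_zero := fun s => congrArg Additive.ofMul (map_one s.1)
      smul_add := fun s a b => congrArg Additive.ofMul (map_mul s.1 _ _) }
  have : FaithfulSMul φ.range (Additive W) := ⟨fun h => Subtype.ext (MulEquiv.ext fun w => h (Additive.ofMul w))⟩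
  have : (K.subgroupOf L).Normal := normal_subgroupOf_of_le_normalizer hn
  have := (this.map φ.rangeRestrict φ.rangeRestrict_surjective)
  have tN := hL (mul_mem hP hP)
  set t := P * P
  have i : ∀ x ∈ W, x⁻¹ = x := fun x hx => inv_eq_of_mul_eq_one_right ((sq x).symm.trans (hW.2 x hx))
  obtain ⟨v, hv, h1, h3⟩ : ∃ v ∈ W, (∀ w ∈ W, t * w * t⁻¹ = w ∨ t * w * t⁻¹ = w * v) ∧ t * v * t⁻¹ = v := by
    by_cases h0 : W ≤ centralizer {t}
    · exact ⟨1, one_mem _, fun w hw => Or.inl (mul_inv_eq_one.1 (dl_eq_one.2 (h0 hw))), by simp⟩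
    obtain ⟨u, hu, h0⟩ := SetLike.not_le_iff_exists.1 h0
    have e := card_mul_relIndex (inf_le_left : W ⊓ centralizer {t} ≤ W)
    obtain ⟨j, hj⟩ := IsPGroup.iff_card.1 (ea_isPGroup hW)
    obtain ⟨l, -, hl⟩ := (Nat.dvd_prime_pow Nat.prime_two).1 (hj ▸ Dvd.intro_left _ e)
    have e2 : (W ⊓ centralizer {t}).relIndex W = 2 := by
      have h4 : (W ⊓ centralizer {t}).relIndex W < 4 := lt_of_mul_lt_mul_left (a := Nat.card (W ⊓ centralizer {t} :
        Subgroup G)) (by rwa [e, mul_comm]) (Nat.zero_le _)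
      have h5 : (W ⊓ centralizer {t}).relIndex W ≠ 1 := fun e => h0 (relIndex_eq_one.1 e hu).2
      rw [hl] at h4 h5 ⊢
      have : l < 2 := (Nat.pow_lt_pow_iff_right one_lt_two).1 h4
      interval_cases l <;> simp_all
    refine ⟨dl t u, dl_mem tN hu, fun w hw => or_iff_not_imp_left.2 fun h4 => ?_, ?_⟩
    · have h5 := ((mul_mem_iff_of_index_two e2 (a := ⟨w, hw⟩) (b := ⟨u, hu⟩⁻¹)).2 (iff_of_false
        (fun h => h4 (mul_inv_eq_one.1 (dl_eq_one.2 h.2))) fun h => h0 (inv_mem_iff.1 h.2))).2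
      have h6 := mul_inv_eq_one.1 (dl_eq_one.2 h5)
      calc _ = t * (w * u⁻¹) * t⁻¹ * (t * u * t⁻¹) := by group
        _ = w * (u⁻¹ * (t * u * t⁻¹)) := by rw [show t * (w * u⁻¹) * t⁻¹ = w * u⁻¹ from h6, mul_assoc]
        _ = _ := by rw [setLike_mul_comm (s := W) (inv_mem hu) ((mem_normalizer_iff.1 tN u).1 hu)]; rfl
    · have := dl_sq hW tN hu
      rw [dl_eq_one.2 (mem_centralizer_singleton_iff.2 ((sq t).symm ▸ h2 u hu))] at this
      exact mul_inv_eq_one.1 this.symm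
  have h4 := Cfsg.Agent.S4410.main (S := φ.range) (V := Additive W)
    (fun v => congrArg Additive.ofMul (Subtype.ext ((sq (v.toMul : G)).symm.trans (hW.2 _ v.toMul.2))))
    (F := (K.subgroupOf L).map φ.rangeRestrict) (by
      rintro _ ⟨x, hx, rfl⟩
      exact ((Nat.coprime_two_right.1 hK).of_dvd_nat (orderOf_dvd_natCard K hx)).of_dvd_nat
        ((orderOf_map_dvd _ x).trans (orderOf_coe x).symm.dvd))
    (P := φ.rangeRestrict ⟨P, hP⟩) (T := φ.rangeRestrict ⟨t, mul_mem hP hP⟩) (v := Additive.ofMul ⟨v, hv⟩)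
    (by rw [← map_mul]; rfl) ⟨fun w => (h1 _ w.toMul.2).imp (fun e => congrArg Additive.ofMul (Subtype.ext e))
      fun e => congrArg Additive.ofMul (Subtype.ext e), congrArg Additive.ofMul (Subtype.ext h3)⟩
    (c := φ.rangeRestrict ⟨k, hKL hk⟩) ⟨_, hk, rfl⟩
  rw [← mul_inv_eq_iff_eq_mul, ← mul_inv_eq_one, ← map_mul, ← map_inv, ← map_mul, ← map_inv, ← map_mul] at h4
  exact (H48.conjHom_eq_one_iff hL).1 (congrArg Subtype.val h4)

theorem ne {V H F : Subgroup G} (h : FF 2 V H F) (A : Subgroup G) : A ≤ H → IsPGroup 2 A → IsMulCommutative A →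
    offM V A ≤ Nat.card V ∧ (Nat.card V ≤ offM V A → IsElementaryAbelian 2 A) := by
  induction A using WellFoundedLT.induction with
  | ind A ih =>
  intro hAH hAp hAc
  by_cases he : ∀ a ∈ A, a ^ 2 = 1
  · exact ⟨h.offM_le hAH ⟨hAc, he⟩, fun _ => ⟨hAc, he⟩⟩
  suffices 2 * offM V A ≤ Nat.card V from ⟨by omega, fun h1 => by have := Nat.card_pos (α := V); omega⟩
  push Not at he
  obtain ⟨b, hb, b2⟩ := he
  have cA : A ≤ centralizer (A : Set G) := fun x hx y hy => setLike_mul_comm hy hx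
  obtain ⟨Y0, hY0, hcyc, h0⟩ : ∃ Y : Subgroup G, Y ≤ A ∧ IsCyclic (A ⧸ Y.subgroupOf A) ∧
      ¬ F ⊓ centralizer (Y : Set G) ≤ centralizer (zpowers (b ^ 2) : Set G) := by
    by_contra hc
    push Not at hc
    exact b2 (zpowers_eq_bot.1 (h.eq_bot_of_centralizes ((zpowers_le_of_mem (pow_mem hb 2)).trans hAH)
      (hAp.to_le (zpowers_le_of_mem (pow_mem hb 2))) (le_centralizer_iff.1
      (H1.le_of_cocyclic_centralizer_le (hAH.trans h.normF) (H2.coprime_card_of_isPGroup hAp h.cop) _ hc))))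
  obtain ⟨Y, ⟨hY1, hYA, hY⟩, hmax⟩ := H2.exists_maximal_subgroup (fun Y => Y0 ≤ Y ∧ Y ≤ A ∧
    ¬ F ⊓ centralizer (Y : Set G) ≤ centralizer (zpowers (b ^ 2) : Set G)) ⟨Y0, le_rfl, hY0, h0⟩
  obtain ⟨g, hg⟩ := IsCyclic.exists_monoid_generator (α := A ⧸ Y0.subgroupOf A)
  obtain ⟨⟨a, ha⟩, rfl⟩ := QuotientGroup.mk_surjective g
  have gen : ∀ x ∈ A, ∃ i : ℕ, ∃ y ∈ Y, x = a ^ i * y := fun x hx => by
    obtain ⟨i, hi⟩ := hg (QuotientGroup.mk ⟨x, hx⟩)
    have := QuotientGroup.eq.1 ((QuotientGroup.mk_pow (Y0.subgroupOf A) ⟨a, ha⟩ i).trans hi)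
    exact ⟨i, (a ^ i)⁻¹ * x, hY1 this, (mul_inv_cancel_left _ _).symm⟩
  obtain ⟨m0, hm0⟩ : ∃ m, a ^ 2 ^ m = 1 := (hAp ⟨a, ha⟩).imp fun _ => congrArg Subtype.val
  classical
  have hex : ∃ n, a ^ 2 ^ n ∈ Y := ⟨m0, hm0 ▸ one_mem Y⟩
  have a2 : a ^ 2 ∉ Y := fun h2 => hY (inf_le_right.trans (centralizer_anti (zpowers_le_of_mem (by
    obtain ⟨i, y, hy, rfl⟩ := gen b hb
    rw [Commute.mul_pow (cA (hYA hy) _ (pow_mem ha i)), ← pow_mul, pow_mul']
    exact mul_mem (pow_mem h2 i) (pow_mem hy 2)))))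
  obtain ⟨m, hm⟩ : ∃ m, Nat.find hex = m + 2 := Nat.exists_eq_add_of_le' ((Nat.le_find_iff _ _).2 fun k hk h2 => by
    interval_cases k
    exacts [a2 (pow_mem (by simpa using h2) 2), a2 h2])
  have m1 : a ^ 2 ^ (m + 2) ∈ Y := hm ▸ Nat.find_spec hex
  have m2 : a ^ 2 ^ (m + 1) ∉ Y := Nat.find_min hex (by omega)
  have e1 : a ^ 2 ^ m * a ^ 2 ^ m = a ^ 2 ^ (m + 1) := by rw [← sq, ← pow_mul, pow_succ]
  have cY : A ≤ centralizer (Y : Set G) := cA.trans (centralizer_anti hYA)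
  set K := F ⊓ centralizer (Y : Set G)
  set U := V ⊓ centralizer (Y : Set G)
  have hU : IsElementaryAbelian 2 U := ea_mono h.ea inf_le_left
  have nU : A ≤ normalizer (U : Set G) := le_normalizer_inf (hAH.trans h.norm)
    (le_normalizer_centralizer (le_normalizer_of_le_centralizer cY))
  have nK : A ≤ normalizer (K : Set G) := le_normalizer_inf (hAH.trans h.normF)
    (le_normalizer_centralizer (le_normalizer_of_le_centralizer cY))
  have h4 : 4 * Nat.card (U ⊓ centralizer {a ^ 2 ^ (m + 1)} : Subgroup G) ≤ Nat.card U := not_lt.1 fun h4 => m2 (by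
    have hQ : K ⊓ centralizer (U : Set G) = ⊥ := h.eq_bot (inf_le_left.trans (inf_le_left.trans h.le))
      (H1.thompson_pq (hAp.to_le hYA) (coprime_of_le h.cop (inf_le_left.trans inf_le_left))
        (le_centralizer_iff.1 (inf_le_left.trans inf_le_right)) _ V rfl (ea_isPGroup h.ea)
        (hYA.trans (hAH.trans h.norm)) (inf_le_left.trans (inf_le_left.trans (h.le.trans h.norm)))
        (le_centralizer_iff.1 inf_le_right))
    have hYK : Y ≤ A ⊓ centralizer (K : Set G) := le_inf hYA (le_centralizer_iff.1 inf_le_right)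
    refine (hmax (A ⊓ centralizer (K : Set G)) ⟨hY1.trans hYK, inf_le_left, fun h5 => hY
      ((le_inf inf_le_left (le_centralizer_iff.1 inf_le_right)).trans h5)⟩ hYK).le ⟨pow_mem ha _, fun k hk => ?_⟩
    have h5 := four hU (K := K) (L := K ⊔ A) (sup_le (le_normalizer_inf (inf_le_left.trans (h.le.trans h.norm))
      (le_normalizer_centralizer (le_normalizer_of_le_centralizer inf_le_right))) nU) le_sup_left
      (sup_le le_normalizer nK) (coprime_of_le h.cop inf_le_left) (P := a ^ 2 ^ m) (mem_sup_right (pow_mem ha _))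
      (by rw [e1, ← sq, ← pow_mul, ← pow_succ]; exact le_centralizer_iff.1 inf_le_right m1) (by rwa [e1]) hk
    rw [e1] at h5
    have h6 := mem_bot.1 (hQ.le ⟨by
      have := mul_mem hk ((mem_normalizer_iff.1 (nK (pow_mem ha (2 ^ (m + 1)))) _).1 (inv_mem hk))
      simp only [mul_assoc] at this ⊢; exact this, h5⟩)
    rwa [mul_inv_eq_one, mul_inv_eq_iff_eq_mul] at h6)
  have h5 := chain hU (m + 1) a (nU ha) ⟨m0, hm0⟩ fun e => by
    rw [inf_of_le_left e] at h4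
    have := Nat.card_pos (α := U); omega
  have h6 : Nat.card A ≤ 2 ^ (m + 2) * Nat.card Y := by
    rw [← Nat.card_fin (2 ^ (m + 2)), ← Nat.card_prod]
    refine Nat.card_le_card_of_surjective (fun x => ⟨a ^ (x.1 : ℕ) * x.2, mul_mem (pow_mem ha _) (hYA x.2.2)⟩) ?_
    rintro ⟨x, hx⟩
    obtain ⟨i, y, hy, rfl⟩ := gen x hx
    refine ⟨⟨⟨i % 2 ^ (m + 2), Nat.mod_lt _ (by positivity)⟩, ⟨(a ^ 2 ^ (m + 2)) ^ (i / 2 ^ (m + 2)) * y,
      mul_mem (pow_mem m1 _) hy⟩⟩, Subtype.ext ?_⟩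
    show a ^ (i % 2 ^ (m + 2)) * ((a ^ 2 ^ (m + 2)) ^ (i / 2 ^ (m + 2)) * y) = a ^ i * y
    rw [← mul_assoc, ← pow_mul, ← pow_add, Nat.mod_add_div]
  have h7 := (ih Y (lt_of_le_of_ne hYA fun e => m2 (e ▸ pow_mem ha _)) (hYA.trans hAH) (hAp.to_le hYA)
    ⟨⟨fun x y => Subtype.ext (cA (hYA y.2) _ (hYA x.2))⟩⟩).1
  have h8 : Nat.card (V ⊓ centralizer (A : Set G) : Subgroup G) ≤ Nat.card (U ⊓ centralizer {a} : Subgroup G) :=
    card_le_of_le (le_inf (inf_le_inf_left _ (centralizer_anti hYA))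
      (inf_le_right.trans (centralizer_le (Set.singleton_subset_iff.2 ha))))
  calc 2 * offM V A ≤ 2 * (2 ^ (m + 2) * Nat.card Y * Nat.card (U ⊓ centralizer {a} : Subgroup G)) :=
        Nat.mul_le_mul_left _ (Nat.mul_le_mul h6 h8)
    _ = Nat.card Y * (4 * (2 ^ (m + 1) * Nat.card (U ⊓ centralizer {a} : Subgroup G))) := by ring
    _ ≤ _ := (Nat.mul_le_mul_left _ ((Nat.mul_le_mul_left _ h5).trans h4)).trans h7

theorem prod_s3 {V H F : Subgroup G} (h : FF 2 V H F) (hgen : H ≤ sSup {T | T ≤ H ∧ IsTv 2 V T}) (h1 : H ≠ ⊥) :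
    ∃ n : ℕ, 1 ≤ n ∧ Nonempty (H ≃* (Fin n → Equiv.Perm (Fin 3))) := by
  obtain ⟨E₀, hE₀⟩ := FF.exists_isBlock (F := F) hgen h1
  have := Fintype.ofFinite {E // IsBlock 2 V H F E}
  have hs : (⨆ E : {E // IsBlock 2 V H F E}, (E : Subgroup G)) = H :=
    le_antisymm (iSup_le fun E => h.isBlock_le E.2) ((FF.le_sSup_isBlock hgen).trans (sSup_eq_iSup' _).le)
  have hc : Pairwise fun i j : {E // IsBlock 2 V H F E} => ∀ x y : G, x ∈ i.1 → y ∈ j.1 → Commute x y :=
    fun i j hij x y hx hy => (commutator_eq_bot_iff_le_centralizer.1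
      (h.isBlock_of_ne i.2 j.2 fun e => hij (Subtype.ext e)).1 hx y hy).symm
  have hi := injective_noncommPiCoprod_of_iSupIndep (hcomm := hc) fun E =>
    (disjoint_iff.2 (h.isBlock_sl E.2).faith).mono_right (iSup₂_le fun E' hne =>
      le_centralizer_iff.1 (h.isBlock_of_ne E.2 E'.2 fun e => hne (Subtype.ext e).symm).2)
  obtain ⟨e⟩ := Cfsg.Agent.S0250.result (F := ZMod 2) rfl
  exact ⟨Fintype.card {E // IsBlock 2 V H F E}, Fintype.card_pos_iff.2 ⟨⟨E₀, hE₀⟩⟩,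
    ⟨((MulEquiv.subgroupCongr (noncommPiCoprod_range.trans hs)).symm.trans (MonoidHom.ofInjective hi).symm).trans
      ((MulEquiv.piCongrRight fun E => (h.isBlock_sl E.2).iso.some.trans e).trans
        (MulEquiv.arrowCongr (Fintype.equivFin _) (MulEquiv.refl _)))⟩⟩

end H19.T43
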