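/- S4404, part A: four-groups `[M, y]` in an elementary abelian normal `2`-subgroup. -/
import Cfsg.Agent.H48.AutRank2
import Cfsg.Agent.H48.Omega
import Cfsg.Agent.H3.AutP
import Cfsg.Agent.H1.Coprime2
import Cfsg.Agent.H2.CoreFree
import Cfsg.Agent.H12.Basic
import Cfsg.Agent.H7.SylowIn

set_option autoImplicit false
set_option linter.unusedSectionVars false
set_option linter.unusedVariables false

namespace H19.T44

open Cfsg Subgroup H48

variable {S : Type*} [Group S] [Finite S] {M : Subgroup S} [hN : M.Normal]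

theorem comm (hM : IsElementaryAbelian 2 M) {a b : S} (ha : a ∈ M) (hb : b ∈ M) : a * b = b * a :=
  haveI := hM.1; setLike_mul_comm ha hb

/-- `[y, M]` -/
def Wd (hM : IsElementaryAbelian 2 M) (y : S) : Subgroup S where
  carrier := {w | ∃ m ∈ M, y * m * y⁻¹ * m⁻¹ = w}
  one_mem' := ⟨1, one_mem _, by simp⟩
  mul_mem' := by
    rintro _ _ ⟨a, ha, rfl⟩ ⟨b, hb, rfl⟩
    refine ⟨a * b, mul_mem ha hb, ?_⟩
    calc _ = y * a * y⁻¹ * ((y * b * y⁻¹ * b⁻¹) * a⁻¹) := by group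
      _ = _ := by rw [comm hM (mul_mem (hN.conj_mem b hb y) (inv_mem hb)) (inv_mem ha)]; group
  inv_mem' := by
    rintro _ ⟨a, ha, rfl⟩
    refine ⟨a⁻¹, inv_mem ha, ?_⟩
    rw [comm hM (hN.conj_mem _ (inv_mem ha) y) (inv_mem (inv_mem ha))]; group

variable (hM : IsElementaryAbelian 2 M)
include hM

theorem Wd_le (y : S) : Wd hM y ≤ M := by
  rintro _ ⟨a, ha, rfl⟩; exact mul_mem (hN.conj_mem a ha y) (inv_mem ha)

theorem conj_Wd {y w : S} (g : S) (hw : w ∈ Wd hM y) : g * w * g⁻¹ ∈ Wd hM (g * y * g⁻¹) := by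
  obtain ⟨a, ha, rfl⟩ := hw
  exact ⟨g * a * g⁻¹, hN.conj_mem a ha g, by group⟩

theorem mem_Wd_conj {y w : S} (g : S) : g * w * g⁻¹ ∈ Wd hM (g * y * g⁻¹) ↔ w ∈ Wd hM y :=
  ⟨fun h => by simpa [mul_assoc] using conj_Wd hM g⁻¹ h, conj_Wd hM g⟩

theorem self_Wd {y w : S} (hw : w ∈ Wd hM y) : y * w * y⁻¹ ∈ Wd hM y := by simpa using conj_Wd hM y hw

omit hN hM in
/-- the elements `g` with `[g, M] ≤ V` -/
def st (M V : Subgroup S) [hN : M.Normal] : Subgroup S where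
  carrier := {g | ∀ m ∈ M, g * m * g⁻¹ * m⁻¹ ∈ V}
  one_mem' := fun m _ => by simp
  mul_mem' := fun {a b} ha hb m hm => by
    have := mul_mem (ha _ (hN.conj_mem m hm b)) (hb m hm)
    simpa [mul_assoc] using this
  inv_mem' := fun {a} ha m hm => by
    have := inv_mem (ha _ (hN.conj_mem m hm a⁻¹))
    simpa [mul_assoc] using this

omit hM in
theorem st_le {V : Subgroup S} (hV : V ≤ M) : st M V ≤ normalizer (V : Set S) := fun g hg =>
  mem_normalizer_fintype fun v hv => by simpa using mul_mem (hg v (hV hv)) hv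

theorem comm_eq (x : S) : ⁅zpowers x, M⁆ = Wd hM x :=
  le_antisymm (commutator_le.2 fun g hg m hm => (zpowers_le.2 (show x ∈ st M (Wd hM x) from
    fun m hm => ⟨m, hm, rfl⟩)) hg m hm) (by
    rintro _ ⟨a, ha, rfl⟩; exact commutator_mem_commutator (mem_zpowers x) ha)

/-- `y ^ 3` centralises `M` and `[y, M]` is a four-group -/
def Good (y : S) : Prop := y ^ 3 ∈ centralizer (M : Set S) ∧ Nat.card (Wd hM y) = 4

variable {hM}

theorem Good.conj {y : S} (h : Good hM y) (g : S) : Good hM (g * y * g⁻¹) :=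
  ⟨by rw [conj_pow]; exact (inferInstance : (centralizer (M : Set S)).Normal).conj_mem _ h.1 g, by
    rw [← h.2]
    exact (Nat.card_congr ((MulAut.conj g).toEquiv.subtypeEquiv fun w => (mem_Wd_conj hM g).symm)).symm⟩

theorem Good.tr {y w : S} (h : Good hM y) (hw : w ∈ Wd hM y) : y * (y * w * y⁻¹) * y⁻¹ * (y * w * y⁻¹) * w = 1 := by
  obtain ⟨a, ha, rfl⟩ := hw
  calc _ = y ^ 3 * a * (y ^ 3)⁻¹ * a⁻¹ := by rw [pow_three]; group
    _ = 1 := by rw [← h.1 a ha]; group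

theorem inv_eq {a : S} (ha : a ∈ M) : a⁻¹ = a := inv_eq_of_mul_eq_one_right ((sq a).symm.trans (hM.2 a ha))

theorem Good.fix {y w : S} (h : Good hM y) (hw : w ∈ Wd hM y) (e : y * w * y⁻¹ = w) : w = 1 := by
  have := h.tr hw
  rwa [e, e, ← sq, hM.2 w (Wd_le hM y hw), one_mul] at this

theorem Good.surj {y w : S} (h : Good hM y) (hw : w ∈ Wd hM y) : ∃ v ∈ Wd hM y, y * v * y⁻¹ * v⁻¹ = w :=
  ⟨_, self_Wd hM hw, by
    rw [inv_eq (hM := hM) (Wd_le hM y (self_Wd hM hw)), eq_inv_of_mul_eq_one_left (h.tr hw),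
      inv_eq (hM := hM) (Wd_le hM y hw)]⟩

theorem Good.ex {y : S} (h : Good hM y) : ∃ w ∈ Wd hM y, y * w * y⁻¹ ≠ w := by
  obtain ⟨w, hw, w1⟩ := (Wd hM y).bot_or_exists_ne_one.resolve_left fun e => by simpa [e] using h.2
  exact ⟨w, hw, fun e => w1 (h.fix hw e)⟩

omit hN hM in
theorem le_of_two {A B : Subgroup S} (hA : Nat.card A = 4) {u v : S} (hu : u ∈ A ⊓ B) (hv : v ∈ A ⊓ B) (u1 : u ≠ 1)
    (v1 : v ≠ 1) (huv : u ≠ v) : A ≤ B := by
  have h1 : Nat.card (A ⊓ B : Subgroup S) ∣ 2 ^ 2 := (card_dvd_of_le inf_le_left).trans hA.dvd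
  have h2 : 2 < Nat.card (A ⊓ B : Subgroup S) := by
    have := Fintype.ofFinite (A ⊓ B : Subgroup S)
    rw [Nat.card_eq_fintype_card]
    exact Fintype.two_lt_card_iff.2 ⟨1, ⟨u, hu⟩, ⟨v, hv⟩, fun e => u1 (congrArg Subtype.val e).symm,
      fun e => v1 (congrArg Subtype.val e).symm, fun e => huv (congrArg Subtype.val e)⟩
  obtain ⟨k, hk, e⟩ := (Nat.dvd_prime_pow Nat.prime_two).1 h1
  refine inf_eq_left.1 (eq_of_le_of_card_ge inf_le_left ?_)
  rw [hA, e]; rw [e] at h2; interval_cases k <;> omega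

theorem pair_le {x y : S} : closure {x, y} ≤ normalizer ((Wd hM x ⊔ Wd hM y : Subgroup S) : Set S) :=
  le_trans ((closure_le (st M _)).2 (by
    rintro _ (rfl | rfl) m hm
    exacts [mem_sup_left ⟨m, hm, rfl⟩, mem_sup_right ⟨m, hm, rfl⟩])) (st_le (sup_le (Wd_le hM x) (Wd_le hM y)))

theorem card_pair {x y : S} (hx : Good hM x) (hy : Good hM y) :
    Nat.card (Wd hM x ⊔ Wd hM y : Subgroup S) * Nat.card (Wd hM x ⊓ Wd hM y : Subgroup S) = 16 := by
  rw [H12.card_sup_mul_card_inf (fun a ha => mem_normalizer_fintype fun b hb => by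
    rwa [comm hM (Wd_le hM x ha) (Wd_le hM y hb), mul_inv_cancel_right]), hx.2, hy.2]

theorem card_aut {V : Subgroup S} (hV : V ≤ M) {n : ℕ} (h : Nat.card V ∣ 2 ^ n) (hn : n ≤ 4) :
    Nat.card (MulAut V) ∣ (if n ≤ 3 then 168 else 20160) := by
  obtain ⟨k, hk, e⟩ := (Nat.dvd_prime_pow Nat.prime_two).1 h
  rw [H3.card_mulAut_of_elementary (p := 2) (fun a b => Subtype.ext (comm hM (hV a.2) (hV b.2)))
    (fun a => Subtype.ext (hM.2 a (hV a.2))) e]
  interval_cases n <;> interval_cases k <;> decide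

theorem comm_case {x y : S} (hx : Good hM x) (hy : Good hM y)
    (h : ∀ v ∈ Wd hM x, x * y * v * (x * y)⁻¹ = y * x * v * (y * x)⁻¹) :
    Wd hM x = Wd hM y ∨ ∀ w ∈ Wd hM x, y * w * y⁻¹ = w := by
  have h1 : ∀ w ∈ Wd hM x, y * w * y⁻¹ ∈ Wd hM x := fun w hw => by
    obtain ⟨v, hv, rfl⟩ := hx.surj hw
    refine ⟨y * v * y⁻¹, hN.conj_mem _ (Wd_le hM x hv) y, ?_⟩
    calc _ = x * y * v * (x * y)⁻¹ * (y * v * y⁻¹)⁻¹ := by group
      _ = _ := by rw [h v hv]; group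
  refine or_iff_not_imp_right.2 fun h2 => ?_
  push Not at h2
  obtain ⟨w, hw, hne⟩ := h2
  have m1 : y * w * y⁻¹ * w⁻¹ ∈ Wd hM x ⊓ Wd hM y := ⟨(Wd hM x).mul_mem (h1 w hw) (inv_mem hw), w, Wd_le hM x hw, rfl⟩
  have u1 : y * w * y⁻¹ * w⁻¹ ≠ 1 := fun e => hne (mul_inv_eq_one.1 e)
  exact eq_of_le_of_card_ge (le_of_two hx.2 m1 ⟨h1 _ m1.1, self_Wd hM m1.2⟩ u1 (by simpa using u1)
    fun e => u1 (hy.fix m1.2 e.symm)) (hy.2.trans hx.2.symm).le

theorem three_case {x y : S} (hx : Good hM x) (hy : Good hM y) {T : Subgroup S} (hT : IsPGroup 3 T) (hxT : x ∈ T)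
    (hyT : y ∈ T) : Wd hM x = Wd hM y ∨ ∀ w ∈ Wd hM x, y * w * y⁻¹ = w := by
  have : Fact (Nat.Prime 3) := ⟨Nat.prime_three⟩
  have hD := pair_le (hM := hM) (x := x) (y := y)
  have h3 : IsPGroup 3 (conjHom _ _ hD).range :=
    (hT.to_le ((closure_le _).2 (by rintro _ (rfl | rfl) <;> assumption))).of_surjective _
      (MonoidHom.rangeRestrict_surjective _)
  obtain ⟨k, hk⟩ := IsPGroup.iff_card.1 h3
  have h4 := (card_subgroup_dvd_card (conjHom _ _ hD).range).trans (card_aut (hM := hM) (n := 4)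
    (sup_le (Wd_le hM x) (Wd_le hM y)) (Dvd.intro _ (card_pair hx hy)) le_rfl)
  have := isMulCommutative_of_card_le_sq h3 (by
    rw [hk] at h4 ⊢
    refine Nat.pow_le_pow_right (by norm_num) (not_lt.1 fun h5 => ?_)
    exact absurd ((pow_dvd_pow 3 h5).trans h4) (by decide))
  refine comm_case hx hy fun v hv => ?_
  have e := setLike_mul_comm (s := (conjHom _ _ hD).range) (MonoidHom.mem_range.2 ⟨⟨x, subset_closure (by simp)⟩, rfl⟩)
    (MonoidHom.mem_range.2 ⟨⟨y, subset_closure (by simp)⟩, rfl⟩)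
  rw [← map_mul, ← map_mul] at e
  exact congrArg (fun a : MulAut (Wd hM x ⊔ Wd hM y : Subgroup S) => (a ⟨v, mem_sup_left hv⟩ : S)) e

omit hN hM in
theorem five {a : S} (ha : a ^ 3 = 1) {K : Subgroup S} (hK : IsPGroup 5 K) (hc : Nat.card K ∣ 20160)
    (hn : ∀ k ∈ K, a * k * a⁻¹ ∈ K) : ∀ k ∈ K, a * k * a⁻¹ = k := by
  have : Fact (Nat.Prime 3) := ⟨Nat.prime_three⟩
  have : Fact (Nat.Prime 5) := ⟨Nat.prime_five⟩
  have m3 := card_modEq_card_inf_fixSub (a := MulAut.conj a) (by rw [← map_pow, ha, map_one]) hn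
  obtain ⟨j, hj⟩ := IsPGroup.iff_card.1 hK
  have h5 : j ≤ 1 := not_lt.1 fun h5 => absurd ((pow_dvd_pow 5 h5).trans (hj ▸ hc)) (by decide)
  obtain ⟨i, hi, e2⟩ := (Nat.dvd_prime_pow Nat.prime_five).1
    ((card_dvd_of_le (inf_le_left (a := K) (b := fixSub (MulAut.conj a)))).trans hj.dvd)
  refine fun k hk => (mem_fixSub (a := MulAut.conj a)).1 (inf_eq_left.1 (eq_of_le_of_card_ge inf_le_left ?_) hk)
  rw [hj, e2] at m3 ⊢
  interval_cases j <;> interval_cases i <;> simp_all (config := {decide := true})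

theorem meet {x r : S} (hx : Good hM x) {H R : Subgroup S} (hH : Odd (Nat.card H)) {p : ℕ} (hp : p.Prime) (p2 : p ≠ 2)
    (p3 : p ≠ 3) (hR : IsPGroup p R) (hRH : R ≤ H) (hn : H ≤ normalizer (R : Set S)) (hxH : x ∈ H) (hr : r ∈ R) :
    ∃ w ≠ 1, w ∈ Wd hM x ⊓ Wd hM (r * x * r⁻¹) := by
  have : Fact (Nat.Prime 3) := ⟨Nat.prime_three⟩
  have := Fact.mk hp
  have hy := hx.conj r
  set y := r * x * r⁻¹ with hy0
  by_contra h0
  have h1 : Wd hM x ⊓ Wd hM y = ⊥ := eq_bot_iff.2 fun w hw => by_contra fun w1 => h0 ⟨w, w1, hw⟩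
  have c16 := card_pair hx hy
  rw [h1, card_bot, mul_one] at c16
  set V := Wd hM x ⊔ Wd hM y
  have hV : V ≤ M := sup_le (Wd_le hM x) (Wd_le hM y)
  set D := closure ({x, y} : Set S)
  have hD : D ≤ normalizer (V : Set S) := pair_le
  have hDH : D ≤ H := (closure_le _).2 (by
    rintro _ (rfl | rfl); exacts [hxH, mul_mem (mul_mem (hRH hr) hxH) (inv_mem (hRH hr))])
  let x' : D := ⟨x, subset_closure (by simp)⟩
  let y' : D := ⟨y, subset_closure (by simp)⟩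
  have hg : x⁻¹ * y ∈ R := by
    have := mul_mem ((mem_normalizer_iff.1 (inv_mem (hn hxH)) r).1 hr) (inv_mem hr)
    simpa [mul_assoc, hy0] using this
  have nR : ∀ d ∈ D, ∀ a ∈ D ⊓ R, d * a * d⁻¹ ∈ D ⊓ R := fun d hd a ha =>
    ⟨D.mul_mem (mul_mem hd ha.1) (inv_mem hd), (mem_normalizer_iff.1 (hn (hDH hd)) a).1 ha.2⟩
  let φ := conjHom V D hD
  have hK : IsPGroup p ((R.subgroupOf D).map φ) := (hR.comap_subtype (K := D)).map φ
  have x3 : φ x' ^ 3 = 1 := by rw [← map_pow, conjHom_eq_one_iff]; exact centralizer_le hV hx.1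
  have y3 : φ y' ^ 3 = 1 := by rw [← map_pow, conjHom_eq_one_iff]; exact centralizer_le hV hy.1
  have nc : φ x' * φ y' ≠ φ y' * φ x' := fun e => by
    obtain ⟨k, hk⟩ := hK ⟨φ (x'⁻¹ * y'), x'⁻¹ * y', hg, rfl⟩
    have e3 : φ (x'⁻¹ * y') ^ 3 = 1 := by
      rw [map_mul, map_inv, (Commute.inv_left e).mul_pow, inv_pow, x3, y3]; simp
    have e1 : φ (x'⁻¹ * y') = 1 := orderOf_eq_one_iff.1 (Nat.Coprime.eq_one_of_dvd
      (Nat.Coprime.coprime_dvd_left (orderOf_dvd_of_pow_eq_one e3)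
        (((Nat.coprime_primes Nat.prime_three hp).2 p3.symm).pow_right k))
      (orderOf_dvd_of_pow_eq_one (congrArg Subtype.val hk)))
    rw [map_mul, map_inv, inv_mul_eq_one] at e1
    obtain ⟨w, hw, hne⟩ := hx.ex
    refine hne (mul_inv_eq_one.1 (mem_bot.1 (h1.le ⟨(Wd hM x).mul_mem (self_Wd hM hw) (inv_mem hw), w, Wd_le hM x hw, ?_⟩)))
    exact congrArg (fun a : MulAut V => (a ⟨w, mem_sup_left hw⟩ : S) * w⁻¹) e1.symm
  have m1 := H2.card_modEq_card_inf_centralizer (Q := D ⊓ R) (K := V) (hR.to_le inf_le_right) (inf_le_left.trans hD)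
  have d1 : Nat.card (V ⊓ centralizer ((D ⊓ R : Subgroup S) : Set S) : Subgroup S) ∣ 2 ^ 4 :=
    (card_dvd_of_le inf_le_left).trans c16.dvd
  obtain ⟨k, hk, e⟩ := (Nat.dvd_prime_pow Nat.prime_two).1 d1
  rw [c16, e] at m1
  have m2 := (Nat.modEq_iff_dvd' (Nat.pow_le_pow_right two_pos hk)).1 m1.symm
  interval_cases k
  · obtain rfl : p = 5 := ((Nat.Prime.dvd_mul hp).1 (show p ∣ 3 * 5 from m2)).elim
      (fun h => (p3 ((Nat.prime_dvd_prime_iff_eq hp Nat.prime_three).1 h)).elim)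
      (Nat.prime_dvd_prime_iff_eq hp Nat.prime_five).1
    have h7 := five x3 hK ((card_subgroup_dvd_card ((R.subgroupOf D).map φ)).trans (card_aut (hM := hM) (n := 4) hV
      c16.dvd le_rfl)) (by
      rintro _ ⟨a, ha, rfl⟩
      exact ⟨x' * a * x'⁻¹, (nR x x'.2 a ⟨a.2, ha⟩).2, by simp⟩) _ ⟨x'⁻¹ * y', hg, rfl⟩
    rw [map_mul, map_inv, mul_inv_cancel_left, mul_inv_eq_iff_eq_mul, mul_assoc, eq_inv_mul_iff_mul_eq] at h7
    exact nc h7
  · obtain ⟨c, hc, c1⟩ := (V ⊓ centralizer ((D ⊓ R : Subgroup S) : Set S)).bot_or_exists_ne_one.resolve_left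
      fun e' => by rw [e', card_bot] at e; omega
    have : IsMulCommutative V := ⟨⟨fun a b => Subtype.ext (comm hM (hV a.2) (hV b.2))⟩⟩
    have hW : ∀ z ∈ D, Good hM z → Wd hM z ≤ V → Wd hM z ≤ ⁅V, D⁆ := fun z hz hz' hl w hw => by
      obtain ⟨v, hv, rfl⟩ := hz'.surj hw
      rw [commutator_comm]; exact commutator_mem_commutator hz (hl hv)
    refine c1 (mem_bot.1 ((H1.centralizer_inf_commutator_eq_bot hD (by
      rw [c16]; exact ((hH.of_dvd_nat (card_dvd_of_le hDH)).coprime_two_right).pow_right 4)).le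
      ⟨⟨hc.1, fun d hd => ?_⟩, sup_le (hW x x'.2 hx le_sup_left) (hW y y'.2 hy le_sup_right) hc.1⟩))
    obtain ⟨c', -, u⟩ := (Nat.card_eq_two_iff' (1 : (V ⊓ centralizer ((D ⊓ R : Subgroup S) : Set S) : Subgroup S))).1 e
    have m : d * c * d⁻¹ ∈ V ⊓ centralizer ((D ⊓ R : Subgroup S) : Set S) :=
      ⟨(mem_normalizer_iff.1 (hD hd) c).1 hc.1, fun a ha => by
        calc _ = d * (d⁻¹ * a * d⁻¹⁻¹ * c) * d⁻¹ := by group
          _ = _ := by rw [hc.2 _ (nR _ (inv_mem hd) a ha)]; group⟩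
    exact mul_inv_eq_iff_eq_mul.1 (congrArg Subtype.val ((u ⟨_, m⟩ fun e => c1 (by
      simpa using congrArg Subtype.val e)).trans (u ⟨c, hc⟩ fun e => c1 (congrArg Subtype.val e)).symm))
  · exact ((Nat.Prime.dvd_mul hp).1 (show p ∣ 3 * 2 ^ 2 from m2)).elim
      (fun h => p3 ((Nat.prime_dvd_prime_iff_eq hp Nat.prime_three).1 h))
      fun h => p2 ((Nat.prime_dvd_prime_iff_eq hp Nat.prime_two).1 (hp.dvd_of_dvd_pow h))
  · exact p2 ((Nat.prime_dvd_prime_iff_eq hp Nat.prime_two).1 (hp.dvd_of_dvd_pow (show p ∣ 2 ^ 3 from m2)))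
  · have h4 := inf_eq_left.1 (eq_of_le_of_card_ge (inf_le_left (a := V)
      (b := centralizer ((D ⊓ R : Subgroup S) : Set S))) (by rw [c16, e]; rfl))
    have h5 : φ (x'⁻¹ * y') = 1 := (conjHom_eq_one_iff hD).2 fun v hv => (h4 hv _ ⟨(x'⁻¹ * y').2, hg⟩).symm
    rw [map_mul, map_inv, inv_mul_eq_one] at h5
    exact nc (by rw [h5])

theorem fin {x : S} {r : ℕ} (hr : r.Prime) (r2 : r ≠ 2) {F V W : Subgroup S} (hF : IsElementaryAbelian r F)
    (hc : Nat.card F = r ^ 3) (hV : V ≤ M) (h8 : Nat.card V ∣ 2 ^ 3) (hn : F ≤ normalizer (V : Set S)) (hW : W ≤ V) :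
    ¬ IsCyclic ↥(F ⊓ centralizer (W : Set S)) := fun hcy => by
  have h1 := (relIndex_centralizer_dvd_card_mulAut hn).trans (card_aut (hM := hM) hV h8 (by norm_num))
  have h2 := H7.relIndex_mul_card (inf_le_left (a := F) (b := centralizer (V : Set S)))
  rw [inf_relIndex_left, hc] at h2
  obtain ⟨k, -, hk⟩ := (Nat.dvd_prime_pow hr).1 (Dvd.intro _ h2)
  have h3 : Nat.card (F ⊓ centralizer (W : Set S) : Subgroup S) ∣ r := by
    rw [← IsCyclic.exponent_eq_card]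
    exact Monoid.exponent_dvd_of_forall_pow_eq_one fun a => Subtype.ext (hF.2 a a.2.1)
  have h4 : r ^ 3 ∣ r ^ k * r := by
    rw [← h2, hk]
    exact mul_dvd_mul_left _ ((card_dvd_of_le (inf_le_inf_left F (centralizer_le hW))).trans h3)
  rw [← pow_succ, Nat.pow_dvd_pow_iff_le_right hr.one_lt] at h4
  have h5 : r ^ 2 ∣ 168 := (pow_dvd_pow r (by omega)).trans (hk ▸ h1)
  have h6 : r ≤ 12 := by nlinarith [Nat.le_of_dvd (by norm_num) h5]
  interval_cases r <;> simp_all (config := {decide := true})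

theorem caseA {x : S} (hx : Good hM x) {T U : Subgroup S} (hT : IsPGroup 3 T) (hxT : x ∈ T) (hU : U ≤ T)
    (hn : T ≤ normalizer (U : Set S)) (he : IsElementaryAbelian 3 U) : U ≤ normalizer (Wd hM x : Set S) := by
  intro u hu
  suffices h : Wd hM x = Wd hM (u * x * u⁻¹) from mem_normalizer_fintype fun w hw => h ▸ conj_Wd hM u hw
  have mT : ∀ g ∈ T, g * x * g⁻¹ ∈ T := fun g hg => mul_mem (mul_mem hg hxT) (inv_mem hg)
  refine (three_case hx (hx.conj u) hT hxT (mT u (hU hu))).elim id fun h1 => ?_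
  refine (three_case hx (hx.conj (u * u)) hT hxT (mT _ (hU (mul_mem hu hu)))).elim (fun h2 => ?_) fun h2 => ?_
  · have u3 : u * (u * u) = 1 := (pow_three u).symm.trans (he.2 u hu)
    refine eq_of_le_of_card_ge (fun w hw => ?_) ((hx.conj u).2.trans hx.2.symm).le
    have h3 : u⁻¹ * w * u⁻¹⁻¹ ∈ Wd hM x := by
      rw [h2, ← eq_inv_of_mul_eq_one_right u3]; exact conj_Wd hM _ hw
    simpa [mul_assoc] using conj_Wd hM u h3
  · obtain ⟨w, hw, hne⟩ := hx.ex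
    have := he.1
    have e := setLike_mul_comm (s := U) hu (mul_mem ((mem_normalizer_iff.1 (inv_mem (hn hxT)) u).1 hu) (inv_mem hu))
    have e2 : x = u * x * u⁻¹ * (u * u * x * (u * u)⁻¹)⁻¹ * (u * x * u⁻¹) := by
      calc x = x * (u * (x⁻¹ * u * x⁻¹⁻¹ * u⁻¹)) * (u * (x⁻¹ * u * x⁻¹⁻¹ * u⁻¹))⁻¹ := by group
        _ = _ := by nth_rw 1 [e]; group
    have c1 := mul_inv_eq_iff_eq_mul.1 (h1 w hw)
    have c2 := mul_inv_eq_iff_eq_mul.1 (h2 w hw)
    exact (hne (mul_inv_eq_iff_eq_mul.2 (by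
      rw [e2]; exact ((Commute.mul_left c1 (Commute.inv_left c2)).mul_left c1).eq))).elim

theorem caseB {x : S} (hx : Good hM x) {H R : Subgroup S} (hH : Odd (Nat.card H)) {p : ℕ} (hp : p.Prime) (p2 : p ≠ 2)
    (p3 : p ≠ 3) (hR : IsPGroup p R) (hRH : R ≤ H) (hn : H ≤ normalizer (R : Set S)) (hxH : x ∈ H) :
    ∃ V ≤ M, Nat.card V ∣ 2 ^ 3 ∧ R ≤ normalizer (V : Set S) ∧ Wd hM x ≤ V := by
  have mt : ∀ r ∈ R, ∀ s ∈ R, ∃ w ≠ 1, w ∈ Wd hM (r * x * r⁻¹) ⊓ Wd hM (s * x * s⁻¹) := fun r hr s hs => by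
    simpa [mul_assoc] using meet (hx.conj r) hH hp p2 p3 hR hRH hn
      (mul_mem (mul_mem (hRH hr) hxH) (inv_mem (hRH hr))) (mul_mem hs (inv_mem hr))
  by_cases h0 : ∀ r ∈ R, Wd hM (r * x * r⁻¹) ≤ Wd hM x
  · exact ⟨_, Wd_le hM x, by rw [hx.2]; decide, fun r hr => mem_normalizer_fintype fun w hw =>
      h0 r hr (conj_Wd hM r hw), le_rfl⟩
  push Not at h0
  obtain ⟨r, hr, h0⟩ := h0
  obtain ⟨u, u1, hu⟩ := meet hx hH hp p2 p3 hR hRH hn hxH hr
  have hxV := pair_le (hM := hM) (x := x) (y := r * x * r⁻¹) (subset_closure (show x ∈ _ by simp))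
  have key : ∀ s ∈ R, Wd hM (s * x * s⁻¹) ≤ Wd hM x ⊔ Wd hM (r * x * r⁻¹) := fun s hs => by
    obtain ⟨w, w1, hw⟩ := meet hx hH hp p2 p3 hR hRH hn hxH hs
    by_cases e : w = u
    · obtain ⟨v, v1, hv⟩ := mt s hs _ ((mem_normalizer_iff.1 (hn hxH) r).1 hr)
      have hv' : x⁻¹ * v * x ∈ Wd hM (r * x * r⁻¹) := by simpa [mul_assoc] using conj_Wd hM x⁻¹ hv.2
      refine le_of_two (hx.conj s).2 ⟨hw.2, mem_sup_left hw.1⟩ ⟨hv.1, ?_⟩ w1 v1 fun e' => h0 ?_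
      · simpa [mul_assoc] using (mem_normalizer_iff.1 hxV _).1 (mem_sup_right hv')
      · subst e e'
        have m : x⁻¹ * w * x ∈ Wd hM x := by simpa [mul_assoc] using conj_Wd hM x⁻¹ hw.1
        exact le_of_two (hx.conj r).2 ⟨hu.2, hu.1⟩ ⟨hv', m⟩ w1 (fun e => w1 (conj_eq_one_iff.1 (by rwa [inv_inv]))) fun e =>
          w1 (hx.fix hw.1 (by nth_rw 1 [e]; group))
    · obtain ⟨v, v1, hv⟩ := mt s hs r hr
      refine le_of_two (hx.conj s).2 ⟨hw.2, mem_sup_left hw.1⟩ ⟨hv.1, mem_sup_right hv.2⟩ w1 v1 fun e' => h0 ?_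
      subst e'
      exact le_of_two (hx.conj r).2 ⟨hu.2, hu.1⟩ ⟨hv.2, hw.1⟩ u1 w1 (Ne.symm e)
  refine ⟨_, sup_le (Wd_le hM x) (Wd_le hM (r * x * r⁻¹)), ?_, fun s hs => mem_normalizer_fintype fun w hw => ?_, le_sup_left⟩
  · have c := card_pair hx (hx.conj r)
    have : 2 ∣ Nat.card (Wd hM x ⊓ Wd hM (r * x * r⁻¹) : Subgroup S) :=
      orderOf_eq_prime (hM.2 u (Wd_le hM x hu.1)) u1 ▸ orderOf_dvd_natCard _ hu
    obtain ⟨k, hk⟩ := this
    exact ⟨k, by rw [hk] at c; linarith⟩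
  · refine (show Wd hM x ⊔ Wd hM (r * x * r⁻¹) ≤ (Wd hM x ⊔ Wd hM (r * x * r⁻¹)).comap
      (MulAut.conj s).toMonoidHom from sup_le (fun w hw => key s hs (conj_Wd hM s hw)) fun w hw =>
        key _ (mul_mem hs hr) ?_) hw
    simpa [mul_assoc] using conj_Wd hM s hw

end H19.T44
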