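import Cfsg.Agent.H91.VCSpec

/-! VC tower (row S4070): `JobSZ`, the size of `W = N / Z`. -/

set_option autoImplicit false

namespace H19.VC

open H33.Solv H91.VC Subgroup Module
open scoped commutatorElement

theorem jobSZ : JobSZ := by
  intro K G V W _ _ _ _ _ _ _ _ _ _ _ _ _ s N π c
  classical
  obtain ⟨e, he⟩ := c.ns.sq_index c.ns.le le_rfl fun a _ h => c.ns.n2 a fun b hb => (h b hb).symm
  rw [← c.sec.card] at he
  refine ⟨e, he, Nat.mul_self_le_mul_self_iff.1 ?_, fun r hr hre => ?_⟩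
  · choose σ hσ eσ using c.sec.surj
    have := Fintype.ofFinite W
    have : Module.Finite K V := Module.Finite.of_finite
    let L : N → Module.End K V := fun a => s.toLin (c.ns.cent a a.2)
    have hχ : ∀ (w : W) (a : N), ∃ k : Kˣ, s.ι k = ⁅(a : G), σ w⁆ := fun w a =>
      c.ns.comm a a.2 _ (hσ w)
    choose χ hχ using hχ
    have := (li_of_chars (x := fun w => L ⟨σ w, hσ w⟩)
      (fun a : N => (LinearMap.mulLeft K (L a)).comp (LinearMap.mulRight K (L a⁻¹)))
      (χ := fun w a => (χ w a : K)) (fun u w e => ?_) (fun w e => ?_)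
      fun w a => LinearMap.ext fun v => ?_).fintype_card_le_finrank
    · rwa [Module.finrank_linearMap, ← Nat.card_eq_fintype_card, he] at this
    · rw [← eσ u, ← eσ w, c.sec.eq_iff (hσ u) (hσ w)]
      refine c.ns.n2 _ fun a ha => ?_
      have h1 := congrArg s.ι (Units.ext (congrFun e ⟨a, ha⟩))
      rw [hχ, hχ, commutatorElement_def, commutatorElement_def] at h1
      change a * σ u * a⁻¹ * (σ u)⁻¹ = a * σ w * a⁻¹ * (σ w)⁻¹ at h1
      calc a * ((σ u)⁻¹ * σ w) = (σ u)⁻¹ * (σ u * a * (σ u)⁻¹ * a⁻¹) * a * σ w := by group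
        _ = (σ u)⁻¹ * (a * σ u * a⁻¹ * (σ u)⁻¹)⁻¹ * a * σ w := by group
        _ = _ := by rw [h1]; group
    · obtain ⟨v, hv⟩ := exists_ne (0 : V)
      exact hv ((smul_eq_zero_iff_eq (σ w)).1 (LinearMap.congr_fun e v))
    · change a.1 • σ w • a.1⁻¹ • v = (χ w a : K) • σ w • v
      rw [← s.smul, hχ, ← mul_smul, ← mul_smul, ← mul_smul, commutatorElement_def,
        inv_mul_cancel_right]
  · have := Fact.mk hr
    obtain ⟨w, hw⟩ := exists_prime_addOrderOf_dvd_card' (G := W) r
      (by rw [he]; exact hre.mul_right e)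
    obtain ⟨a, ha, rfl⟩ := c.sec.surj w
    have h1 : a ^ r ∈ s.ι.range := (c.sec.zero _ (pow_mem ha r)).1 (by
      rw [c.sec.pow ha, ← hw, addOrderOf_nsmul_eq_zero])
    have h2 : a ∉ s.ι.range := fun h => hr.ne_one (by
      rw [← hw, (c.sec.zero a ha).2 h, addOrderOf_zero])
    obtain ⟨b, hb, h3⟩ : ∃ b ∈ N, ¬ b * a = a * b := by
      by_contra h
      push Not at h
      exact h2 (c.ns.n2 a h)
    obtain ⟨k, hk⟩ := c.ns.comm a ha b hb
    have h4 := c.ns.comm_pow ha hb h1
    rw [← hk, ← map_pow, ← map_one s.ι] at h4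
    have h5 : k ≠ 1 := fun h => h3 (commutatorElement_eq_one_iff_mul_comm.1 (by
      rw [← hk, h, map_one])).symm
    rw [← Nat.card_units, ← orderOf_eq_prime (s.inj h4) h5]
    exact orderOf_dvd_natCard k

end H19.VC
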