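/- Tower X3, slots B, V, Cb: block kernels of `G` and `C(z)`, translation by `z`, inner products. -/
import Cfsg.Agent.H34.X3Spec

set_option autoImplicit false

namespace H19.X3

open Subgroup Cfsg H28 H35 H36 H41 H34.X3
open scoped ComplexConjugate

universe u

section
variable {G : Type*} [Group G] [Finite G] {M : Ideal AlgInt} [M.IsMaximal] {P : Sylow 3 G}
  {z v x y : G}

theorem conj_part (P : Sylow 3 G) (x : G) :
    ∃ g, ∃ v ∈ (P : Subgroup G), IsPPart 3 (g * x * g⁻¹) v := by
  obtain ⟨v, hv⟩ := exists_isPPart Nat.prime_three x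
  obtain ⟨k, hk⟩ := hv.choose_spec.2.2.1
  obtain ⟨S, hS⟩ := (IsPGroup.of_card (G := zpowers v)
    (by rw [Nat.card_zpowers, hk])).exists_le_sylow
  obtain ⟨g, rfl⟩ := MulAction.exists_smul_eq G S P
  exact ⟨g, _, smul_mem_pointwise_smul _ (MulAut.conj g) _ (hS (mem_zpowers v)),
    H41.isPPart_conj hv g⟩

omit [Finite G] in
theorem part_ne {g : G} (h : IsPPart 3 (g * x * g⁻¹) v) (hx : 3 ∣ orderOf x) : v ≠ 1 := by
  rintro rfl
  exact not_dvd_of_isPPart_one h (by rwa [orderOf_conj'])

omit [Finite G] in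
theorem comm_iff (hz : z ^ 3 = 1) (h : v ∈ zpowers z) (h1 : v ≠ 1) (g : G) :
    g ∈ centralizer ({z} : Set G) ↔ v * g = g * v := by
  rw [mem_centralizer_singleton_iff, eq_comm]
  rcases (mem_zp hz).1 h with rfl | rfl | rfl
  · exact absurd rfl h1
  · rfl
  · refine ⟨fun k => (Commute.mul_left k k).eq, fun k => ?_⟩
    have e : z * z * (z * z) = z := by
      rw [show z * z * (z * z) = z ^ 3 * z by simp only [pow_succ, pow_zero, one_mul, mul_assoc], hz,
        one_mul]
    exact e ▸ (Commute.mul_left k k).eq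

omit [Finite G] in
theorem pc {C : Subgroup G} {x v : C} (h : IsPPart 3 x v) : IsPPart 3 (x : G) v :=
  (isPPart_coe_iff Nat.prime_three).2 h

theorem bker_nine (hM : IsPModular 3 M) (ho : orderOf v = 3)
    (hN : HasNormalPComplement 3 (centralizer ({v} : Set G)) ∧
      (Nat.card (centralizer ({v} : Set G))).factorization 3 = 2) (hx : IsPPart 3 x v)
    (hy : IsPPart 3 y v) : bker (principalBlock M G) x y = 9 := by
  have := H87.bker_prin_sec hM ho hN.1 x
  rw [if_pos (H29.inSec_of_isPPart hx), hN.2] at this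
  refine (finsum_mem_congr rfl fun χ hχ => ?_).trans (this.trans (by norm_num))
  rw [H19.Loc2.prin_sec hM hN.1 hχ hy (IsConj.refl v)]

theorem bker_cen (B : Set (IrrCharacter G)) (hv : v ∈ center G) (x y : G) :
    bker B (v * x) (v * y) = bker B x y := by
  rw [bker_eq_inv, bker_eq_inv]
  refine finsum_mem_congr rfl fun χ _ => ?_
  obtain ⟨l, hl⟩ := χ.2.exists_central_hom (Z := center G) le_rfl
  have h1 := hl ⟨v, hv⟩ x
  have h2 := hl (⟨v, hv⟩⁻¹) y⁻¹
  rw [← mem_center_iff.1 hv y, mul_inv_rev]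
  change (χ : G → ℂ) (v * x) = _ at h1
  change (χ : G → ℂ) (v⁻¹ * y⁻¹) = _ at h2
  rw [h1, h2, map_inv, mul_mul_mul_comm, Units.mul_inv, one_mul]

end

theorem jobV : JobV.{u} := by
  intro H Q _ _ _ P z π M _ hM hE hX hY x hx ψ hψ
  obtain ⟨g, v, hv, h⟩ := conj_part P x
  have hn : v ∉ zpowers z := fun k => by
    obtain ⟨r, e, -, -, hr⟩ := h
    have := congrArg π e
    rw [map_mul, show π v = 1 by rwa [← hE.ker] at k, one_mul, map_mul, map_mul, map_inv] at this
    exact not_dvd_map hr (by rwa [this, orderOf_conj'])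
  have h' : IsPPart 3 (g * (z * x) * g⁻¹) (z * v) := by
    obtain ⟨r, e, c, -, hr⟩ := h
    refine ⟨r, by rw [mul_assoc, e, ← mul_assoc g z, ← hE.comm g]; group,
      Commute.mul_left (hE.comm r) c, ⟨1, hX.ord (mul_mem hX.mem hv) fun k => hn ?_⟩, hr⟩
    rw [← inv_eq_of_mul_eq_one_right k]
    exact inv_mem (mem_zpowers z)
  obtain ⟨a, -, ha⟩ := hX.shift hv hn
  have c := ψ.2.isClassFunction
  rw [← c (z * x) g, ← c x g, H19.Loc2.prin_sec hM (hY.npc v hv hn).1 hψ h' (isConj_iff.2 ⟨a, ha⟩),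
    H19.Loc2.prin_sec hM (hY.npc v hv hn).1 hψ h (IsConj.refl v)]

theorem jobB : JobB.{u} := by
  intro G _ _ P z M _ h hM hX hY hC
  refine ⟨fun x y hy => ?_, fun y hy => ?_⟩
  · obtain ⟨a, v, hv, h1⟩ := conj_part (P.subtype h) x
    obtain ⟨b, w, hw, h2⟩ := conj_part (P.subtype h) y
    have n := part_ne h2 hy
    have cg : ∀ (a b x y : centralizer ({z} : Set G)),
        bker (principalBlock M G) ((a * x * a⁻¹ : centralizer ({z} : Set G)) : G)
          ((b * y * b⁻¹ : centralizer ({z} : Set G)) : G) =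
          bker (principalBlock M (centralizer {z})) (a * x * a⁻¹) (b * y * b⁻¹) →
        bker (principalBlock M G) (x : G) y = bker (principalBlock M (centralizer {z})) x y :=
      fun a b x y e => (bker_congr _ (isConj_iff.2 ⟨(a : G), rfl⟩) (isConj_iff.2 ⟨(b : G), rfl⟩)).trans
        (e.trans (bker_congr _ (isConj_iff.2 ⟨a, rfl⟩) (isConj_iff.2 ⟨b, rfl⟩)).symm)
    refine cg a b x y ?_
    generalize a * x * a⁻¹ = x at h1
    generalize b * y * b⁻¹ = y at h2
    by_cases k : IsConj (v : G) w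
    swap
    · rw [H87.bker_prin_eq_zero hM (pc h1) (pc h2) k,
        H87.bker_prin_eq_zero hM h1 h2 fun k' => k ((Subgroup.subtype _).map_isConj k')]
    obtain ⟨c, c1, c2⟩ := hY.fus v hv w hw k
    have h3 := H41.isPPart_conj h1 ⟨c, mem_centralizer_singleton_iff.2 c1⟩
    rw [show (⟨c, mem_centralizer_singleton_iff.2 c1⟩ * v * _ : centralizer ({z} : Set G)) = w from
      Subtype.ext c2] at h3
    refine cg ⟨c, mem_centralizer_singleton_iff.2 c1⟩ 1 x y ?_
    rw [one_mul, _root_.inv_one, mul_one]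
    generalize (⟨c, mem_centralizer_singleton_iff.2 c1⟩ * x * _ : centralizer ({z} : Set G)) = x at h3
    have n' : (w : G) ≠ 1 := fun e => n (Subtype.ext e)
    have ho := hX.ord hw n'
    by_cases m : (w : G) ∈ zpowers z
    · have S : IsSec 3 (w : G) (centralizer {z}) := ⟨⟨1, ho⟩, comm_iff hX.cube m n'⟩
      obtain ⟨r, rfl, -, -, hr⟩ := h3
      obtain ⟨r', rfl, -, -, hr'⟩ := h2
      rw [bker_cen _ (mem_center_iff.2 fun g => Subtype.ext (S.comm g).symm)]
      exact H34.bker_prin_sec hM S hr hr'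
    · rw [bker_nine hM ho (hY.npc w hw m) (pc h3) (pc h2),
        bker_nine hM ((orderOf_coe w).symm.trans ho) (hC.npc w hw ?_) h3 h2]
      rintro ⟨j, rfl⟩
      exact m ⟨j, rfl⟩
  · obtain ⟨g, v, hv, h1⟩ := conj_part P y
    have n := part_ne h1 hy
    by_cases m : v ∈ zpowers z
    · refine ⟨⟨g * y * g⁻¹, (comm_iff hX.cube m n _).2 (commute_of_isPPart h1).symm.eq⟩, ?_,
        fun χ _ => (χ.2.isClassFunction y g).symm⟩
      rwa [orderOf_mk, orderOf_conj']
    · refine ⟨⟨v, h hv⟩, by rw [orderOf_mk, hX.ord hv n], fun χ hχ => ?_⟩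
      rw [← χ.2.isClassFunction y g,
        H19.Loc2.prin_sec hM (hY.npc v hv m).1 hχ h1 (IsConj.refl v)]

theorem jobCb : JobCb.{u} := by
  refine ⟨fun H Q _ _ _ _ z π ζ ψ ψ' A A' hE hζ h1 h2 h0 e e' => ?_,
    fun Q _ _ M _ e n w A A' hM hQ hA => ?_⟩
  · rw [← classInner_comp_surjective π hE.surj, classInner_def, classInner_def]
    refine congrArg _ (Finset.sum_congr rfl fun x _ => ?_)
    by_cases k : 3 ∣ orderOf (π x)
    · simp [h0 x k, pReg_of_sing A k]
    obtain ⟨r, hr, er, c⟩ := hE.cases k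
    have : ψ r * conj (ψ' r) = pRegularPart 3 A (π x) * conj (A' (π x)) := by
      simp only [pReg_of_reg A k, e r hr, e' r hr, er]
    rw [← this]
    rcases c with rfl | rfl | rfl
    · rfl
    · rw [h1, h2, map_mul]; linear_combination ψ r * conj (ψ' r) * hζ
    · rw [h1, h2, h1, h2, map_mul, map_mul]
      linear_combination ψ r * conj (ψ' r) * (ζ * conj ζ + 1) * hζ
  · obtain ⟨s, hs⟩ := hQ.span (A - pRegularPart 3 A) (mem_Vb.2
      ⟨hA.sub (hA.pReg hM H34.isPBlock_principalBlock), fun x hx => by simp [pReg_of_reg A hx]⟩)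
    have h0 : ∀ O, classInner (pRegularPart 3 A) (w O) = 0 := fun O => by
      rw [classInner_def, Finset.sum_eq_zero, mul_zero]
      intro x _
      by_cases k : 3 ∣ orderOf x
      · rw [pReg_of_sing A k, zero_mul]
      · rw [(mem_Vb.1 (hQ.vb O)).2 x k, map_zero, mul_zero]
    have h1 : ∀ O, classInner A (w O) = s O + e * ∑ O, s O := fun O => by
      have := congrArg (classInner · (w O)) hs
      simp only [classInner_sub_left, h0, sub_zero, classInner_sum_left, classInner_smul_left] at this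
      rw [this, Finset.mul_sum, ← Finset.add_sum_erase _ _ (Finset.mem_univ O),
        ← Finset.add_sum_erase _ (fun O => (e : ℂ) * s O) (Finset.mem_univ O), hQ.self,
        Finset.sum_congr rfl fun O' hO => by rw [hQ.gram O' O (Finset.ne_of_mem_erase hO), mul_comm]]
      ring
    have h2 := congrArg (classInner · A') hs
    simp only [classInner_sub_left, classInner_sum_left, classInner_smul_left] at h2
    have h3 : (n : ℂ) * e = 8 := by exact_mod_cast hQ.ne
    simp only [h1, add_mul, Finset.sum_add_distrib, ← Finset.mul_sum, Finset.sum_const,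
      Finset.card_univ, Fintype.card_fin, nsmul_eq_mul]
    linear_combination -9 * h2 - e * (∑ O, s O) * (∑ O, classInner (w O) A') * h3

end H19.X3
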