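/- Tower X3, slots St and Pr: stars of vectors of norm two, pairs of vectors of norm three. -/
import Cfsg.Agent.H34.X3Lat

set_option autoImplicit false

namespace H19.X3

open Finset Matrix H34.X3

universe u

variable {ι κ : Type*} [Fintype ι] {a b c d p v x y : ι → ℤ}

theorem sub_unit (hv : v ⬝ᵥ v = 2) (ha : a ⬝ᵥ a = 1) (h : v ⬝ᵥ a = 1) : (v - a) ⬝ᵥ (v - a) = 1 := by
  simp only [sub_dotProduct, dotProduct_sub, dotProduct_comm a v, hv, ha, h]; norm_num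

theorem two_type (hp : p ⬝ᵥ p ≤ 3) (ha : a ⬝ᵥ a = 1) (hb : b ⬝ᵥ b = 1) (h : p ⬝ᵥ (a + b) = 1) :
    p ⬝ᵥ a = 1 ∧ p ⬝ᵥ b = 0 ∨ p ⬝ᵥ a = 0 ∧ p ⬝ᵥ b = 1 := by
  have h1 := sq_le' ha p
  have h2 := sq_le' hb p
  rw [dotProduct_add] at h
  have : p ⬝ᵥ a < 2 := by nlinarith
  have : p ⬝ᵥ b < 2 := by nlinarith
  omega

theorem unit_eq_of (hx : x ⬝ᵥ x = 1) (hy : y ⬝ᵥ y = 1) (h : x ⬝ᵥ y = 1) : y = x := by
  rcases unit_cases hx hy with k | k | rfl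
  · omega
  · exact k
  · simp [hx] at h

theorem exists_three [Fintype κ] (h : 4 ≤ Fintype.card κ) (j : κ) :
    ∃ k l m, k ≠ j ∧ l ≠ j ∧ m ≠ j ∧ k ≠ l ∧ k ≠ m ∧ l ≠ m := by
  classical
  obtain ⟨k, h1, l, h2, m, h3, n⟩ := two_lt_card.1 (show 2 < (univ.erase j).card by
    rw [card_erase_of_mem (mem_univ _), card_univ]; omega)
  exact ⟨k, l, m, ne_of_mem_erase h1, ne_of_mem_erase h2, ne_of_mem_erase h3, n⟩

theorem star_key {A : κ → ι → ℤ} (h2 : ∀ j, A j ⬝ᵥ A j = 2) (h1 : ∀ j k, j ≠ k → A j ⬝ᵥ A k = 1)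
    (ha : a ⬝ᵥ a = 1) (hb : b ⬝ᵥ b = 1) (hab : b ⬝ᵥ a = 0) {o k l : κ} (e : A o = a + b)
    (k0 : k ≠ o) (l0 : l ≠ o) (kl : k ≠ l) (ek : A k ⬝ᵥ a = 1) (el : A l ⬝ᵥ a = 1) (j : κ) :
    A j ⬝ᵥ a = 1 := by
  by_cases c : j = o
  · rw [c, e, add_dotProduct, ha, hab, add_zero]
  have t := fun i (hi : i ≠ o) => two_type (p := A i) (by rw [h2]; norm_num) ha hb (e ▸ h1 i o hi)
  rcases t j c with ⟨h, -⟩ | ⟨h, h'⟩
  · exact h
  have kk : ∀ i, i ≠ o → A i ⬝ᵥ a = 1 → A i - a = A j - b := fun i hi ei => by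
    refine unit_eq_of (sub_unit (h2 j) hb h') (sub_unit (h2 i) ha ei) ?_
    have := t i hi
    rw [sub_dotProduct, dotProduct_sub, dotProduct_sub, h1 j i (by rintro rfl; omega), h, hab,
      dotProduct_comm b]
    omega
  have := h1 k l kl
  rw [sub_left_injective ((kk _ k0 ek).trans (kk _ l0 el).symm), h2] at this
  omega

theorem jobSt : JobSt.{u} := by
  intro ι κ _ _ A h4 h2 h1
  obtain ⟨y, hy, h⟩ : ∃ y : ι → ℤ, y ⬝ᵥ y = 1 ∧ ∀ j, A j ⬝ᵥ y = 1 := by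
    obtain ⟨o⟩ : Nonempty κ := Fintype.card_pos_iff.1 (by omega)
    obtain ⟨a, b, ha, hb, hab, e⟩ := split2 (h2 o)
    obtain ⟨k, l, m, n1, n2, n3, n4, n5, n6⟩ := exists_three h4 o
    have t := fun i (hi : i ≠ o) => two_type (p := A i) (by rw [h2]; norm_num) ha hb (e ▸ h1 i o hi)
    have s1 := fun k l n1 n2 n3 e1 e2 => (⟨a, ha, star_key h2 h1 ha hb hab (k := k) (l := l) e n1 n2 n3
      e1 e2⟩ : ∃ y : ι → ℤ, y ⬝ᵥ y = 1 ∧ ∀ j, A j ⬝ᵥ y = 1)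
    have s2 := fun k l n1 n2 n3 e1 e2 => (⟨b, hb, star_key h2 h1 hb ha (dotProduct_comm a b ▸ hab)
      (k := k) (l := l) (e.trans (add_comm _ _)) n1 n2 n3 e1 e2⟩ :
        ∃ y : ι → ℤ, y ⬝ᵥ y = 1 ∧ ∀ j, A j ⬝ᵥ y = 1)
    rcases t k n1 with a1 | a1 <;> rcases t l n2 with a2 | a2 <;> rcases t m n3 with a3 | a3
    exacts [s1 k l n1 n2 n4 a1.1 a2.1, s1 k l n1 n2 n4 a1.1 a2.1, s1 k m n1 n3 n5 a1.1 a3.1,
      s2 l m n2 n3 n6 a2.2 a3.2, s1 l m n2 n3 n6 a2.1 a3.1, s2 k m n1 n3 n5 a1.2 a3.2,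
      s2 k l n1 n2 n4 a1.2 a2.2, s2 k l n1 n2 n4 a1.2 a2.2]
  refine ⟨y, fun j => A j - y, hy, ⟨fun j => sub_unit (h2 j) hy (h j), fun j k n => ?_⟩,
    fun j => by rw [sub_dotProduct, h, hy, sub_self], fun j => by simp⟩
  simp only [sub_dotProduct, dotProduct_sub, h1 j k n, h, hy, dotProduct_comm y (A k)]
  norm_num

theorem pair_split {q : ι → ℤ} (hp : p ⬝ᵥ p = 3) (hq : q ⬝ᵥ q = 3) (h : p ⬝ᵥ q = 2) :
    ∃ A c c' : ι → ℤ, A ⬝ᵥ A = 2 ∧ c ⬝ᵥ c = 1 ∧ c' ⬝ᵥ c' = 1 ∧ c ⬝ᵥ c' = 0 ∧ A ⬝ᵥ c = 0 ∧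
      A ⬝ᵥ c' = 0 ∧ p = A + c ∧ q = A + c' := by
  obtain ⟨a, b, ha, hb, hab, e⟩ := split2 (v := p - q) (by
    simp only [sub_dotProduct, dotProduct_sub, dotProduct_comm q p, hp, hq, h]; norm_num)
  have k : ∀ a b : ι → ℤ, a ⬝ᵥ a = 1 → b ⬝ᵥ b = 1 → b ⬝ᵥ a = 0 → p - q = a + b → p ⬝ᵥ a = 1 →
      p ⬝ᵥ b = 0 → ∃ A c c' : ι → ℤ, A ⬝ᵥ A = 2 ∧ c ⬝ᵥ c = 1 ∧ c' ⬝ᵥ c' = 1 ∧ c ⬝ᵥ c' = 0 ∧
      A ⬝ᵥ c = 0 ∧ A ⬝ᵥ c' = 0 ∧ p = A + c ∧ q = A + c' := fun a b ha hb hab e h1 h2 =>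
    ⟨p - a, a, -b, by
      simp only [sub_dotProduct, dotProduct_sub, dotProduct_comm a p, hp, ha, h1]; norm_num, ha,
      by simpa using hb, by simp [dotProduct_comm a, hab], by simp [h1, ha],
      by simp [h2, dotProduct_comm a, hab], by simp, by linear_combination -e⟩
  rcases two_type hp.le ha hb (by rw [← e, dotProduct_sub, hp, h]; norm_num) with t | t
  · exact k a b ha hb hab e t.1 t.2
  · exact k b a hb ha (dotProduct_comm a b ▸ hab) (e.trans (add_comm _ _)) t.2 t.1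

theorem orth4 {a' b' : ι → ℤ} (hd : ∀ i, d i ≠ 0) (ha : a ⬝ᵥ a = 1) (hb : b ⬝ᵥ b = 1)
    (ha' : a' ⬝ᵥ a' = 1) (hb' : b' ⬝ᵥ b' = 1) (h1 : a ⬝ᵥ b = 0) (h2 : a' ⬝ᵥ b' = 0)
    (h : (a + b) ⬝ᵥ (a' + b') = 0) (d1 : (a + b) ⬝ᵥ d = 0) (d2 : (a' + b') ⬝ᵥ d = 0) :
    a ⬝ᵥ a' = 0 := by
  have n := unit_dot_ne ha hd
  rw [add_dotProduct] at d1 d2
  rcases unit_cases ha ha' with k | rfl | rfl
  · exact k
  · simp only [add_dotProduct, dotProduct_add, ha, h2, dotProduct_comm b a', h1] at h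
    obtain rfl := unit_eq_of (x := -b) (by simpa using hb) hb' (by rw [neg_dotProduct]; omega)
    rw [neg_dotProduct] at d2
    omega
  · rw [neg_dotProduct, neg_eq_zero] at h2
    simp only [add_dotProduct, dotProduct_add, dotProduct_neg, ha, h2, dotProduct_comm b a, h1] at h
    obtain rfl := unit_eq_of hb hb' (by omega)
    rw [neg_dotProduct] at d2
    omega

theorem jobPr : JobPr.{u} := by
  intro St ι κ _ _ p q d h4 hd hp hq hpp hqq H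
  choose A c c' A2 c1 c1' cc Ac Ac' e e' using fun j => pair_split (hp j) (hq j) (H.self j)
  obtain rfl : p = fun j => A j + c j := funext e
  obtain rfl : q = fun j => A j + c' j := funext e'
  have D : ∀ j k, j ≠ k → (c j + -c' j) ⬝ᵥ (c k + -c' k) = 0 := fun j k n => by
    have a1 := hpp j k n
    have a2 := hqq j k n
    have a3 := H.gram j k n
    have a4 := (dotProduct_comm _ _).trans (H.gram k j n.symm)
    simp only [add_dotProduct, dotProduct_add, neg_dotProduct, dotProduct_neg] at a1 a2 a3 a4 ⊢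
    omega
  have Dd : ∀ j, (c j + -c' j) ⬝ᵥ d = 0 := fun j => by
    have a1 := H.dp j
    have a2 := H.dq j
    simp only [add_dotProduct, neg_dotProduct] at a1 a2 ⊢
    omega
  have n1 : ∀ j, -c' j ⬝ᵥ -c' j = 1 := fun j => by simpa using c1' j
  have n2 : ∀ j, c j ⬝ᵥ -c' j = 0 := fun j => by simpa using cc j
  have n3 : ∀ j, -c' j ⬝ᵥ c j = 0 := fun j => (dotProduct_comm _ _).trans (n2 j)
  have o1 : ∀ j k, j ≠ k → c j ⬝ᵥ c k = 0 := fun j k n =>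
    orth4 hd (c1 j) (n1 j) (c1 k) (n1 k) (n2 j) (n2 k) (D j k n) (Dd j) (Dd k)
  have o2 : ∀ j k, c j ⬝ᵥ c' k = 0 := fun j k => by
    by_cases n : j = k
    · exact n ▸ cc j
    simpa using orth4 hd (c1 j) (n1 j) (n1 k) (c1 k) (n2 j) (n3 k) (add_comm (c k) _ ▸ D j k n) (Dd j)
      (add_comm (c k) _ ▸ Dd k)
  have o3 : ∀ j k, j ≠ k → c' j ⬝ᵥ c' k = 0 := fun j k n => by
    simpa using orth4 hd (n1 j) (c1 j) (n1 k) (c1 k) (n3 j) (n3 k)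
      (add_comm (c j) _ ▸ add_comm (c k) _ ▸ D j k n) (add_comm (c j) _ ▸ Dd j) (add_comm (c k) _ ▸ Dd k)
  have t1 : ∀ j k, A k ⬝ᵥ c' j = A k ⬝ᵥ c j := fun j k => by
    by_cases n : j = k
    · rw [n, Ac, Ac']
    have a1 := hpp k j (Ne.symm n)
    have a2 := H.gram k j (Ne.symm n)
    simp only [add_dotProduct, dotProduct_add, o1 k j (Ne.symm n), o2] at a1 a2
    omega
  have g : ∀ j k, j ≠ k → A j ⬝ᵥ A k + A j ⬝ᵥ c k + A k ⬝ᵥ c j = 1 := fun j k n => by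
    have a1 := hpp j k n
    simp only [add_dotProduct, dotProduct_add, o1 j k n, dotProduct_comm (c j)] at a1
    omega
  have t2 : ∀ j k, A k ⬝ᵥ c j ≠ 0 → A k = c j + c' j := fun j k h => by
    have n : k ≠ j := by rintro rfl; exact h (Ac k)
    have b1 := sq_le' (c1 j) (A k)
    rw [A2] at b1
    have b2 : A k ⬝ᵥ c j = 1 ∨ A k ⬝ᵥ c j = -1 := by
      have : A k ⬝ᵥ c j < 2 := by nlinarith
      have : -2 < A k ⬝ᵥ c j := by nlinarith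
      omega
    have b3 : A k = (A k ⬝ᵥ c j) • (c j + c' j) := sub_eq_zero.1 (dz (by
      simp only [sub_dotProduct, dotProduct_sub, add_dotProduct, dotProduct_add, smul_dotProduct,
        dotProduct_smul, smul_eq_mul, A2, c1, c1', cc, dotProduct_comm (c' j) (c j),
        dotProduct_comm (c j) (A k), dotProduct_comm (c' j) (A k), t1]
      rcases b2 with b | b <;> rw [b] <;> norm_num))
    rcases b2 with b | b
    · rw [b3, b, one_smul]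
    have b4 := g j k n.symm
    have b5 := sq_le' (c1 k) (A j)
    rw [b] at b3 b4
    rw [A2] at b5
    rw [b3, dotProduct_smul, dotProduct_add, Ac, Ac'] at b4
    simp only [add_zero, smul_zero] at b4
    nlinarith
  have t3 : ∀ j k, A k ⬝ᵥ c j = 0 := fun j k => by
    by_contra h
    have n : k ≠ j := by rintro rfl; exact h (Ac k)
    have a1 := t2 j k h
    have a2 : ∀ m, m ≠ j → m ≠ k → A m = c k + c' k := fun m m1 m2 => t2 k m fun z => by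
      have := g m k m2
      rw [z, a1, dotProduct_add, t1, add_dotProduct, o1 j m m1.symm, dotProduct_comm (c' j), o2] at this
      omega
    obtain ⟨m, m', a, b, c, d, e⟩ : ∃ m m', m ≠ j ∧ m ≠ k ∧ m' ≠ j ∧ m' ≠ k ∧ m ≠ m' := by
      obtain ⟨r, s, t, a1, a2, a3, a4, a5, a6⟩ := exists_three h4 j
      by_cases x : r = k
      · exact ⟨s, t, a2, x ▸ a4.symm, a3, x ▸ a5.symm, a6⟩
      by_cases y : s = k
      · exact ⟨r, t, a1, x, a3, y ▸ a6.symm, a5⟩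
      · exact ⟨r, s, a1, x, a2, y, a4⟩
    have := g m m' e
    rw [a2 m' c d, ← a2 m a b, A2, Ac, a2 m a b, ← a2 m' c d, Ac] at this
    omega
  obtain ⟨y, x, hy, hx, xy, ex⟩ := St ι κ A h4 A2 fun j k n => by simpa [t3] using g j k n
  have k : ∀ v : ι → ℤ, v ⬝ᵥ v = 1 → (∀ j, A j ⬝ᵥ v = 0) → v ⬝ᵥ y = 0 ∧ ∀ j, x j ⬝ᵥ v = 0 :=
    fun v hv h => by
      have a : ∀ j, v ⬝ᵥ x j = -(v ⬝ᵥ y) := fun j => by
        have := h j
        rw [ex, add_dotProduct, dotProduct_comm y, dotProduct_comm (x j)] at this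
        omega
      have b := neg_eq_zero.1 (hx.const (by omega) hv a)
      exact ⟨b, fun j => by rw [dotProduct_comm, a, b, neg_zero]⟩
  have k1 := fun j => k (c j) (c1 j) (t3 j)
  have k2 := fun j => k (c' j) (c1' j) fun i => (t1 j i).trans (t3 j i)
  refine ⟨y, Sum.elim x (Sum.elim c c'), hy, hx.elim (On.elim ⟨c1, o1⟩ ⟨c1', o3⟩ o2) ?_, ?_,
    fun j => by simp [ex]⟩
  · rintro i (j | j)
    exacts [(k1 j).2 i, (k2 j).2 i]
  · rintro (j | j | j)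
    exacts [xy j, (k1 j).1, (k2 j).1]

end H19.X3
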